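import Cfsg.Agent.Lib.Orth.Wall3

/-!
Bilinear forms in characteristic two are determined by their reductions.
-/

set_option autoImplicit false

namespace Cfsg.Lib.Symp

open Module LinearMap Cfsg.Lib.Orth

variable {F T U Z : Type*} [Field F] [AddCommGroup T] [Module F T] [AddCommGroup U] [Module F U]
  [AddCommGroup Z] [Module F Z]

theorem exists_add_flip [Module.Finite F T] (h2 : (2 : F) = 0) {δ : LinearMap.BilinForm F T} (hδ : δ.IsAlt)
    (S : Submodule F T) (hS : ∀ x ∈ S, ∀ y, δ x y = 0) :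
    ∃ γ : LinearMap.BilinForm F T, (∀ x y, γ x y + γ y x = δ x y) ∧ (∀ x ∈ S, ∀ y, γ x y = 0) ∧
      ∀ x ∈ S, ∀ y, γ y x = 0 := by
  have hs : ∀ x y, δ x y = δ y x := fun x y => by
    rw [← hδ.neg_eq]; linear_combination (-δ y x) * h2
  let b := finBasis F T
  let γ : LinearMap.BilinForm F T := b.constr F fun i => b.constr F fun j => if i < j then δ (b i) (b j) else 0
  have h1 : γ + γ.flip = δ := LinearMap.BilinForm.ext_basis b fun i j => by
    simp only [γ, LinearMap.add_apply, LinearMap.BilinForm.flip_apply, Basis.constr_basis]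
    rcases lt_trichotomy i j with h | rfl | h
    · simp [h, h.not_gt]
    · simp [hδ.self_eq_zero]
    · simp [h, h.not_gt, hs (b j)]
  obtain ⟨S', hc⟩ := S.exists_isCompl
  let P : T →ₗ[F] T := S'.subtype ∘ₗ S'.projectionOnto S hc.symm
  have h3 : ∀ x ∈ S, P x = 0 := fun x hx => by
    simp [P, Submodule.projectionOnto_apply_of_mem_right hc.symm hx]
  have h4 : ∀ x, x - P x ∈ S := fun x => by
    obtain ⟨s, s', rfl, -⟩ := Submodule.existsUnique_add_of_isCompl hc x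
    have : P s' = s' := by simp [P]
    simp [h3 s s.2, this]
  refine ⟨γ.compl₁₂ P P, fun x y => ?_, fun x hx y => by simp [h3 x hx], fun x hx y => by simp [h3 x hx]⟩
  have h5 := LinearMap.congr_fun₂ h1 (P x) (P y)
  have h6 := hS _ (h4 x) y
  have h7 := hS _ (h4 y) (P x)
  simp only [map_sub, LinearMap.sub_apply, LinearMap.add_apply, LinearMap.BilinForm.flip_apply] at h5 h6 h7
  simp only [compl₁₂_apply, h5]
  rw [hs y, hs (P y)] at h7
  linear_combination -h6 - h7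

/-- The reduction of a bilinear form `θ` to the quotient by the radical of its alternating part. -/
structure Red (θ : LinearMap.BilinForm F T) (π : T →ₗ[F] Z) (ι : Z →ₗ[F] T) (β : LinearMap.BilinForm F Z) :
    Prop where
  two : (2 : F) = 0
  ndβ : β.Nondegenerate
  surj : Function.Surjective π
  left : ∀ z y, θ (ι z) y = β z (π y)
  sym : ∀ x y, θ x y + θ y x = β (π x) (π y)

namespace Red

variable {θ : LinearMap.BilinForm F T} {π : T →ₗ[F] Z} {ι : Z →ₗ[F] T} {β : LinearMap.BilinForm F Z}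
  {η : LinearMap.BilinForm F U} {ρ : U →ₗ[F] Z} {κ : Z →ₗ[F] U}

theorem inj (h : Red θ π ι β) : Function.Injective ι := (injective_iff_map_eq_zero _).2 fun z hz =>
  h.ndβ.1 z (h.surj.forall.2 fun y => by rw [← h.left, hz]; simp)

theorem comm (h : Red θ π ι β) {r : T} (hr : π r = 0) (x : T) : θ r x = θ x r := by
  have := h.sym r x
  rw [hr] at this
  simp only [map_zero, LinearMap.zero_apply] at this
  linear_combination this - θ x r * h.two

theorem left_zero (h : Red θ π ι β) {r : T} (hr : π r = 0) (z : Z) : θ (ι z) r = 0 := by simp [h.left, hr]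

theorem right_zero (h : Red θ π ι β) {r : T} (hr : π r = 0) (z : Z) : θ r (ι z) = 0 := by
  rw [h.comm hr, h.left_zero hr]

theorem exists_lift (h : Red θ π ι β) (h' : Red η ρ κ β) (hc : ∀ z, π (ι z) = ρ (κ z)) :
    ∃ Φ : T →ₗ[F] U, (∀ x, ρ (Φ x) = π x) ∧ ∀ z, Φ (ι z) = κ z := by
  obtain ⟨s, hs⟩ := ρ.exists_rightInverse_of_surjective (range_eq_top.2 h'.surj)
  obtain ⟨j, hj⟩ := ι.exists_leftInverse_of_injective (ker_eq_bot.2 h.inj)
  replace hs : ∀ z, ρ (s z) = z := LinearMap.congr_fun hs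
  replace hj : ∀ z, j (ι z) = z := LinearMap.congr_fun hj
  exact ⟨κ ∘ₗ j + s ∘ₗ π ∘ₗ (1 - ι ∘ₗ j), fun x => by simp [hs, hc], fun z => by simp [hj]⟩

theorem symm_diff (h : Red θ π ι β) (h' : Red η ρ κ β) {Φ : T →ₗ[F] U} (h1 : ∀ x, ρ (Φ x) = π x) (x y : T) :
    η (Φ x) (Φ y) + η (Φ y) (Φ x) = θ x y + θ y x := by rw [h'.sym, h.sym, h1, h1]

theorem exists_lift_diag [Finite F] (h : Red θ π ι β) (h' : Red η ρ κ β) (hc : ∀ z, π (ι z) = ρ (κ z))
    {r : U} (hr : ρ r = 0) (hr' : η r r ≠ 0) :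
    ∃ Φ : T →ₗ[F] U, (∀ x, ρ (Φ x) = π x) ∧ (∀ z, Φ (ι z) = κ z) ∧ ∀ x, η (Φ x) (Φ x) = θ x x := by
  obtain ⟨Φ, h1, h3⟩ := h.exists_lift h' hc
  obtain ⟨l, hl⟩ := exists_dual_sq h.two (φ := fun x => (η (Φ x) (Φ x) + θ x x) / η r r)
    (fun x y => by
      have := h.symm_diff h' h1 x y
      simp only [map_add, LinearMap.add_apply]
      field_simp
      linear_combination this + (θ x y + θ y x) * h.two)
    (fun a x => by simp only [map_smul, LinearMap.smul_apply, smul_eq_mul]; ring)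
  have h4 : ∀ z, l (ι z) = 0 := fun z => by
    have := hl (ι z)
    rw [h3, h.left, h'.left, hc, add_self_of_two h.two, zero_div] at this
    exact pow_eq_zero_iff two_ne_zero |>.1 this.symm
  refine ⟨Φ + l.smulRight r, fun x => by simp [h1, hr], fun z => by simp [h3, h4], fun x => ?_⟩
  have h5 := hl x
  simp only [LinearMap.add_apply, smulRight_apply, map_add, map_smul, LinearMap.smul_apply, smul_eq_mul,
    h'.comm hr]
  field_simp at h5
  linear_combination -h5 + (l x * η (Φ x) r + η (Φ x) (Φ x)) * h.two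

theorem exists_isom [Module.Finite F T] [Module.Finite F U] (h : Red θ π ι β) (h' : Red η ρ κ β)
    (hη : η.Nondegenerate) (hk : ker π ≤ range ι) {Φ : T →ₗ[F] U} (h1 : ∀ x, ρ (Φ x) = π x)
    (h3 : ∀ z, Φ (ι z) = κ z) (h4 : ∀ x, η (Φ x) (Φ x) = θ x x) :
    ∃ Ψ : T →ₗ[F] U, (∀ x, ρ (Ψ x) = π x) ∧ (∀ z, Ψ (ι z) = κ z) ∧ ∀ x y, η (Ψ x) (Ψ y) = θ x y := by
  obtain ⟨γ, h5, h6, h7⟩ := exists_add_flip h.two (δ := η.compl₁₂ Φ Φ - θ) (fun x => by simp [h4]) (range ι)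
    (by rintro _ ⟨z, rfl⟩ y; simp [h3, h.left, h'.left, h1])
  obtain ⟨s, hs⟩ := π.exists_rightInverse_of_surjective (range_eq_top.2 h.surj)
  replace hs : ∀ z, π (s z) = z := LinearMap.congr_fun hs
  have h8 : ∀ x y, γ x (s (π y)) = γ x y := fun x y => by
    have := h7 (s (π y) - y) (hk (by simp [hs])) x
    rwa [map_sub, sub_eq_zero] at this
  let σ : T →ₗ[F] U := (η.flip.toDual hη.flip).symm.toLinearMap ∘ₗ γ.compl₂ (s ∘ₗ ρ)
  have h9 : ∀ x y, η y (σ x) = γ x (s (ρ y)) := fun x y =>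
    LinearMap.BilinForm.apply_toDual_symm_apply (hB := hη.flip) _ _
  have h10 : ∀ x, ρ (σ x) = 0 := fun x => h.ndβ.2 _ fun z => by
    rw [← h'.left, h9, ← h3, h1, h8, h7 _ ⟨z, rfl⟩]
  refine ⟨Φ + σ, fun x => by simp [h1, h10], fun z => ?_, fun x y => ?_⟩
  · have : σ (ι z) = 0 := hη.2 _ fun y => by rw [h9, h6 _ ⟨z, rfl⟩]
    simp [h3, this]
  · have := h5 x y
    simp only [LinearMap.add_apply, map_add, h'.comm (h10 x), h9, h1, h8, h10, map_zero]
    simp only [LinearMap.sub_apply, compl₁₂_apply] at this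
    linear_combination this + (η (Φ x) (Φ y) - θ x y) * h.two

theorem mem_range [Module.Finite F Z] (h : Red θ π ι β) (hθ : θ.Nondegenerate) {x : T}
    (hx : ∀ r, π r = 0 → θ x r = 0) : x ∈ range ι := by
  obtain ⟨s, hs⟩ := π.exists_rightInverse_of_surjective (range_eq_top.2 h.surj)
  replace hs : ∀ z, π (s z) = z := LinearMap.congr_fun hs
  refine ⟨(β.toDual h.ndβ).symm (θ x ∘ₗ s), sub_eq_zero.1 (hθ.1 _ fun y => ?_)⟩
  have := hx (s (π y) - y) (by simp [hs])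
  rw [map_sub, sub_eq_zero] at this
  rw [map_sub, LinearMap.sub_apply, h.left, LinearMap.BilinForm.apply_toDual_symm_apply]
  simp [this]

theorem exists_split [Module.Finite F T] [Module.Finite F Z] (h : Red θ π ι β) (hθ : θ.Nondegenerate) :
    ∃ R : Submodule F T, R ≤ ker π ∧ IsCompl R (θ.orthogonal R) ∧ ker π ⊓ θ.orthogonal R ≤ range ι ∧
      finrank F R + finrank F (ker (π ∘ₗ ι)) = finrank F (ker π) := by
  obtain ⟨R, h1, h3, h4⟩ : ∃ R : Submodule F T, R ≤ ker π ∧ Disjoint R (range ι) ∧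
      ∀ x ∈ ker π, ∃ r ∈ R, x - r ∈ range ι := by
    obtain ⟨S, hS⟩ := ((range ι).comap (ker π).subtype).exists_isCompl
    refine ⟨S.map (ker π).subtype, Submodule.map_subtype_le _ _, Submodule.disjoint_def.2 ?_, fun x hx => ?_⟩
    · rintro _ ⟨x, hx, rfl⟩ h1
      simpa using Submodule.disjoint_def.1 hS.disjoint x h1 hx
    · obtain ⟨a, b, h1, -⟩ := Submodule.existsUnique_add_of_isCompl hS ⟨x, hx⟩
      refine ⟨_, ⟨b, b.2, rfl⟩, ?_⟩
      rw [show x = a.1.1 + b.1.1 from congrArg Subtype.val h1.symm]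
      simp only [Submodule.coe_subtype, add_sub_cancel_right]; exact a.2
  have h5 : range ι ≤ θ.orthogonal R := by
    rintro _ ⟨z, rfl⟩ r hr
    exact h.right_zero (h1 hr) z
  have h6 : Disjoint R (θ.orthogonal R) := Submodule.disjoint_def.2 fun x hx hx' =>
    Submodule.disjoint_def.1 h3 x hx (h.mem_range hθ fun y hy => by
      obtain ⟨r, hr, z, hz⟩ := h4 y hy
      rw [eq_add_of_sub_eq hz.symm, map_add, h.right_zero (h1 hx), h.comm (h1 hx), zero_add]
      exact hx' r hr)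
  refine ⟨R, h1, (Submodule.isCompl_iff_disjoint _ _ ?_).2 h6, fun x hx => ?_, ?_⟩
  · rw [LinearMap.BilinForm.finrank_orthogonal hθ]; have := R.finrank_le; omega
  · obtain ⟨r, hr, h7⟩ := h4 x hx.1
    rwa [Submodule.disjoint_def.1 h6 r hr (by simpa using sub_mem hx.2 (h5 h7)), sub_zero] at h7
  · have h7 : R ⊔ (ker (π ∘ₗ ι)).map ι = ker π := le_antisymm (sup_le h1 (by rintro _ ⟨z, hz, rfl⟩; exact hz))
      fun x hx => by
        obtain ⟨r, hr, z, hz⟩ := h4 x hx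
        rw [eq_add_of_sub_eq' hz.symm]
        exact Submodule.add_mem_sup hr ⟨z, by simpa [hz] using sub_mem hx (h1 hr), rfl⟩
    rw [← h7, ← LinearEquiv.finrank_eq (Submodule.equivMapOfInjective ι h.inj _) |>.symm,
      ← Submodule.finrank_sup_add_finrank_inf_eq, (h3.mono_right (map_le_range)).eq_bot, finrank_bot, add_zero]

theorem restrict (h : Red θ π ι β) {R : Submodule F T} (h1 : R ≤ ker π) (h3 : IsCompl R (θ.orthogonal R)) :
    Red (θ.restrict (θ.orthogonal R)) (π ∘ₗ (θ.orthogonal R).subtype)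
      (ι.codRestrict _ fun z _ hr => h.right_zero (h1 hr) z) β :=
  ⟨h.two, h.ndβ, h.surj.forall.2 fun x => by
    obtain ⟨a, b, rfl, -⟩ := Submodule.existsUnique_add_of_isCompl h3 x
    exact ⟨b, by simp [show π a = 0 from h1 a.2]⟩, fun z y => h.left z y, fun x y => h.sym x y⟩

theorem nd_of_isCompl (h : Red θ π ι β) (hθ : θ.Nondegenerate) {R S : Submodule F T} (h1 : R ≤ ker π)
    (h3 : IsCompl R S) (h4 : ∀ r ∈ R, ∀ x ∈ S, θ r x = 0) : (θ.restrict R).Nondegenerate := by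
  have : ∀ x : R, (∀ y : R, θ x y = 0) → x = 0 := fun x hx => Subtype.ext (hθ.1 _ fun y => by
    obtain ⟨a, b, rfl, -⟩ := Submodule.existsUnique_add_of_isCompl h3 y
    rw [map_add, hx, h4 _ x.2 _ b.2, add_zero])
  exact ⟨this, fun x hx => this x fun y => (h.comm (h1 x.2) y).trans (hx y)⟩

theorem not_alt (h : Red θ π ι β) {R S : Submodule F T} (h1 : R ≤ ker π) (h3 : IsCompl R S)
    (h4 : ker π ⊓ S ≤ range ι) {r : T} (hr : π r = 0) (hr' : θ r r ≠ 0) : ¬ (θ.restrict R).IsAlt := fun hA => by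
  obtain ⟨a, b, rfl, -⟩ := Submodule.existsUnique_add_of_isCompl h3 r
  have ha : π a = 0 := h1 a.2
  have hb : π b = 0 := by simpa [ha] using hr
  obtain ⟨z, hz⟩ := h4 ⟨hb, b.2⟩
  refine hr' ?_
  have h5 : θ a a = 0 := hA a
  simp only [map_add, LinearMap.add_apply, h5]
  rw [← hz] at hb ⊢
  rw [h.left_zero ha, h.right_zero ha, h.left_zero hb]; simp

/-- Forms with the same reduction are isometric. -/
theorem exists_equiv [Finite F] [Module.Finite F T] [Module.Finite F U] [Module.Finite F Z] (h : Red θ π ι β)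
    (h' : Red η ρ κ β) (hθ : θ.Nondegenerate) (hη : η.Nondegenerate) (hc : ∀ z, π (ι z) = ρ (κ z))
    (hd : finrank F T = finrank F U)
    (H : (∃ q : Z → F, (∀ x, θ x x = q (π x)) ∧ ∀ x, η x x = q (ρ x)) ∨
      ((∃ r, π r = 0 ∧ θ r r ≠ 0) ∧ ∃ r, ρ r = 0 ∧ η r r ≠ 0)) :
    ∃ e : T ≃ₗ[F] U, ∀ x y, η (e x) (e y) = θ x y := by
  obtain ⟨R, h1, h3, h4, -⟩ := h.exists_split hθ
  have h5 := h.restrict h1 h3
  obtain ⟨Φ, h6, h7, h8⟩ : ∃ Φ : θ.orthogonal R →ₗ[F] U, (∀ x, ρ (Φ x) = π x) ∧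
      (∀ z, Φ (ι.codRestrict (θ.orthogonal R) (fun z _ hr => h.right_zero (h1 hr) z) z) = κ z) ∧ ∀ x, η (Φ x) (Φ x) = θ x x := by
    rcases H with ⟨q, h6, h7⟩ | ⟨-, r, h6, h7⟩
    · obtain ⟨Φ, h8, h9⟩ := h5.exists_lift h' hc
      exact ⟨Φ, h8, h9, fun x => by rw [h6, h7, h8]; rfl⟩
    · exact h5.exists_lift_diag h' hc h6 h7
  obtain ⟨Ψ, h9, h10, h11⟩ := h5.exists_isom h' hη (fun x hx => by
    obtain ⟨z, hz⟩ := h4 ⟨hx, x.2⟩
    exact ⟨z, Subtype.ext hz⟩) h6 h7 h8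
  replace h11 : ∀ x y, η (Ψ x) (Ψ y) = θ x y := h11
  replace h9 : ∀ x, ρ (Ψ x) = π x := h9
  have h12 : ∀ x : θ.orthogonal R, (∀ y, η (Ψ y) (Ψ x) = 0) → x = 0 := fun x hx =>
    Subtype.ext (hθ.2 _ fun y => by
      obtain ⟨a, b, rfl, -⟩ := Submodule.existsUnique_add_of_isCompl h3 y
      rw [map_add, LinearMap.add_apply, ← h11, hx, add_zero]
      exact x.2 a a.2)
  have h13 : η.orthogonal (range Ψ) ≤ ker ρ := fun y hy => h.ndβ.2 _ fun z => by
    rw [← h'.left, ← h10]; exact hy _ ⟨_, rfl⟩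
  have h14 : finrank F (range Ψ) = finrank F (θ.orthogonal R) :=
    finrank_range_of_inj ((injective_iff_map_eq_zero _).2 fun x hx => h12 x fun y => by simp [hx])
  have h15 := Submodule.finrank_add_eq_of_isCompl h3
  have h16 := LinearMap.BilinForm.finrank_orthogonal hη (range Ψ)
  have h17 : IsCompl (η.orthogonal (range Ψ)) (range Ψ) :=
    (Submodule.isCompl_iff_disjoint _ _ (by omega)).2 (Submodule.disjoint_def.2 (by
      rintro _ hx ⟨x, rfl⟩
      rw [h12 x fun y => hx _ ⟨y, rfl⟩, map_zero]))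
  have h18 : ∀ r ∈ η.orthogonal (range Ψ), ∀ x ∈ range Ψ, η r x = 0 := fun r hr x hx =>
    (h'.comm (h13 hr) x).trans (hr x hx)
  obtain ⟨c, hc1⟩ := exists_symC h.two (B := θ.restrict R) (fun x y => h.comm (h1 x.2) y)
    (h.nd_of_isCompl hθ h1 h3 fun r hr x hx => hx r hr)
  obtain ⟨d, hd1⟩ := exists_symC h.two (B := η.restrict (η.orthogonal (range Ψ))) (fun x y => h'.comm (h13 x.2) y)
    (h'.nd_of_isCompl hη h13 h17 h18)
  obtain ⟨e, he⟩ := hc1.exists_isometry hd1 (by omega) fun _ => by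
    rw [hc1.eq_zero_iff, hd1.eq_zero_iff]
    rcases H with ⟨q, h6, h7⟩ | ⟨⟨r, hr, hr'⟩, s, hs, hs'⟩
    · have : q 0 = 0 := by simpa using (h6 0).symm
      exact iff_of_true (fun x => (h6 x).trans (by rw [show π x = 0 from h1 x.2, this]))
        fun x => (h7 x).trans (by rw [show ρ x = 0 from h13 x.2, this])
    · refine iff_of_false (h.not_alt h1 h3 h4 hr hr') (h'.not_alt h13 h17 ?_ hs hs')
      rintro _ ⟨hx, x, rfl⟩
      obtain ⟨z, hz⟩ := h4 ⟨(h9 x).symm.trans hx, x.2⟩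
      exact ⟨z, (h10 z).symm.trans (congrArg Ψ (Subtype.ext hz))⟩
  replace he : ∀ x y : R, η (e x) (e y) = θ x y := he
  let G : T →ₗ[F] U := LinearMap.ofIsCompl h3 ((η.orthogonal (range Ψ)).subtype ∘ₗ e.toLinearMap) Ψ
  have h19 : ∀ x y, η (G x) (G y) = θ x y := fun x y => by
    obtain ⟨a, b, rfl, -⟩ := Submodule.existsUnique_add_of_isCompl h3 x
    obtain ⟨a', b', rfl, -⟩ := Submodule.existsUnique_add_of_isCompl h3 y
    have k1 : η (Ψ b) (e a') = 0 := (e a').2 _ ⟨_, rfl⟩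
    have k2 : η (e a) (Ψ b') = 0 := h18 _ (e a).2 _ ⟨_, rfl⟩
    have k3 : θ a b' = 0 := b'.2 _ a.2
    have k4 : θ b a' = 0 := (h.comm (h1 a'.2) _).symm.trans (b.2 _ a'.2)
    simp [G, he, h11, k1, k2, k3, k4]
  exact ⟨LinearEquiv.ofInjectiveOfFinrankEq G ((injective_iff_map_eq_zero _).2 fun x hx =>
    hθ.1 _ fun y => by rw [← h19, hx]; simp) hd, h19⟩

end Red

end Cfsg.Lib.Symp
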