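import Cfsg.Agent.Lib.Symp.Even1

/-!
The derived pair of a symplectic element in characteristic two.
-/

set_option autoImplicit false

namespace Cfsg.Lib.Symp

open Module LinearMap Cfsg.Lib.Orth
open QuadraticMap (polarBilin polar_comm)

variable {F V W Z U : Type*} [Field F] [AddCommGroup V] [Module F V] [AddCommGroup W] [Module F W]
  [AddCommGroup Z] [Module F Z] [AddCommGroup U] [Module F U]
  {B : LinearMap.BilinForm F V} {f : End F V} {C : LinearMap.BilinForm F W} {g : End F W}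
  {β : LinearMap.BilinForm F Z} {h : End F Z} {γ : LinearMap.BilinForm F U} {k : End F U}
  {p : V →ₗ[F] Z} {Q : QuadraticForm F V} {R : QuadraticForm F Z} {τ : Option ℤˣ}

theorem exists_fac {a : V →ₗ[F] W} (ha : Function.Surjective a) (b : V →ₗ[F] Z) (h : ∀ x, a x = 0 → b x = 0) :
    ∃ c : W →ₗ[F] Z, ∀ x, c (a x) = b x := by
  obtain ⟨s, hs⟩ := a.exists_rightInverse_of_surjective (range_eq_top.2 ha)
  replace hs : ∀ z, a (s z) = z := LinearMap.congr_fun hs
  exact ⟨b ∘ₗ s, fun x => by simpa [sub_eq_zero] using h (s (a x) - x) (by simp [hs])⟩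

theorem SpE.polar_wall (hf : SpE B f) (h2 : (2 : F) = 0) (x y : V) :
    B x ((f - 1) y) + B y ((f - 1) x) = B ((f - 1) x) ((f - 1) y) := by
  simp only [LinearMap.sub_apply, End.one_apply, map_sub, hf.inv, ← hf.alt.neg_eq x y, ← hf.alt.neg_eq (f x) y]
  linear_combination (B x (f y) - B x y) * h2

theorem SpE.inv_sub (hf : SpE B f) (x y : V) : B ((f - 1) (f x)) ((f - 1) (f y)) = B ((f - 1) x) ((f - 1) y) := by
  rw [← hf.inv ((f - 1) x)]; simp

theorem SpE.fix_of_orth [Module.Finite F V] (hf : SpE B f) {x : V} (h : ∀ v, B x ((f - 1) v) = 0) : f x = x :=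
  sub_eq_zero.1 (hf.nd.1 _ ((injective_iff_surjective.1 hf.injective).forall.2 fun v => by
    have := h v
    simp only [LinearMap.sub_apply, End.one_apply, map_sub, hf.inv] at this ⊢
    linear_combination -this))

theorem qsg_eq_one_iff [Finite F] [Module.Finite F V] (hQ : ND Q) (he : Even (finrank F V)) :
    qsg Q = 1 ↔ ∃ U, Lag Q U := by
  refine ⟨fun h => ?_, fun ⟨U, h⟩ => h.qsg_eq hQ⟩
  obtain ⟨U, h1, h2⟩ := exists_ts_finrank_eq_wittIndex Q
  rw [qsg_even he, osign_eq_one_iff] at h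
  exact ⟨U, h1, h2 ▸ h⟩

theorem qsg_eq_of_red [Finite F] [Module.Finite F V] [Module.Finite F Z] (hQ : ND Q) (hR : ND R)
    (he : Even (finrank F Z)) {T : Submodule F V} {π : T →ₗ[F] Z} (hπ : Function.Surjective π)
    (h : ∀ x, R (π x) = Q x) (h1 : ∀ y : V, (∀ x : T, π x = 0 → QuadraticMap.polar Q x y = 0) → y ∈ T)
    (hd : finrank F V = finrank F Z + 2 * finrank F (ker π)) : qsg Q = qsg R := by
  have h2 : Even (finrank F V) := hd ▸ he.add (even_two_mul _)
  have h3 : ∀ L : Submodule F Z, finrank F ((L.comap π).map T.subtype) = finrank F (ker π) + finrank F L := fun L => by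
    rw [Submodule.finrank_map_subtype_eq, finrank_comap_eq, range_eq_top.2 hπ, inf_top_eq]
  have h4 : qsg Q = 1 ↔ qsg R = 1 := by
    refine ⟨fun h5 => ?_, fun h5 => ?_⟩
    · obtain ⟨M, h6, h7⟩ := TS.exists_le_maxTS (Q := Q) (W := (ker π).map T.subtype) (by
        rintro _ ⟨x, hx, rfl⟩
        exact (h x).symm.trans (by rw [show π x = 0 from hx, map_zero]))
      have h8 : M ≤ T := fun y hy => h1 y fun x hx => h7.1.polar_eq (h6 ⟨x, hx, rfl⟩) hy
      have h9 := h3 ((M.comap T.subtype).map π)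
      rw [Submodule.comap_map_eq, sup_eq_left.2 (Submodule.map_le_iff_le_comap.1 h6), Submodule.map_comap_subtype,
        inf_eq_right.2 h8, h7.finrank_eq_wittIndex hQ] at h9
      rw [qsg_even h2, osign_eq_one_iff] at h5
      refine Lag.qsg_eq hR (U := (M.comap T.subtype).map π) ⟨?_, by omega⟩
      rintro _ ⟨x, hx, rfl⟩
      exact (h x).trans (h7.1 _ hx)
    · obtain ⟨L, h6, h7⟩ := (qsg_eq_one_iff hR he).1 h5
      refine Lag.qsg_eq hQ (U := (L.comap π).map T.subtype) ⟨?_, by rw [h3]; omega⟩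
      rintro _ ⟨x, hx, rfl⟩
      exact (h x).symm.trans (h6 _ hx)
  rcases Int.units_eq_one_or (qsg Q) with h5 | h5 <;> rcases Int.units_eq_one_or (qsg R) with h6 | h6 <;> simp_all

/-- `(β, h)` is the pair induced on the quotient by the kernel of `(f - 1) ^ 2`. -/
structure Der (B : LinearMap.BilinForm F V) (f : End F V) (β : LinearMap.BilinForm F Z) (h : End F Z)
    (p : V →ₗ[F] Z) : Prop where
  two : (2 : F) = 0
  sp : SpE B f
  sp' : SpE β h
  surj : Function.Surjective p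
  form : ∀ x y, β (p x) (p y) = B ((f - 1) x) ((f - 1) y)
  comm : ∀ x, p (f x) = h (p x)

/-- `f` preserves a quadratic form of type `ε` polarising to `B`. -/
def Ty [Module.Finite F V] (B : LinearMap.BilinForm F V) (f : End F V) (ε : ℤˣ) : Prop :=
  ∃ Q, OE Q f ∧ polarBilin Q = B ∧ qsg Q = ε

namespace Der

theorem trans (H : Der B f β h p) (hk : SpE γ k) (e : Z ≃ₗ[F] U) (h1 : ∀ u v, γ (e u) (e v) = β u v)
    (h3 : ∀ v, e (h v) = k (e v)) : Der B f γ k (e.toLinearMap ∘ₗ p) :=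
  ⟨H.two, H.sp, hk, e.surjective.comp H.surj, fun x y => (h1 _ _).trans (H.form x y),
    fun x => (congrArg e (H.comm x)).trans (h3 _)⟩

theorem oE (H : Der B f β h p) (hR : ∀ x, R (p x) = B x ((f - 1) x)) : OE R h ∧ polarBilin R = β := by
  have h1 : polarBilin R = β := LinearMap.ext₂ (H.surj.forall.2 fun x => H.surj.forall.2 fun y => by
    rw [QuadraticMap.polarBilin_apply_apply, QuadraticMap.polar, ← map_add, hR, hR, hR, H.form,
      ← H.sp.polar_wall H.two]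
    simp only [map_add, LinearMap.add_apply]; ring)
  exact ⟨⟨by rw [ND, h1]; exact H.sp'.nd, H.surj.forall.2 fun x => by rw [← H.comm, hR, hR, ← H.sp.inv x]; simp⟩, h1⟩

theorem exists_quad (H : Der B f β h p) (h1 : ∀ x, p x = 0 → B x ((f - 1) x) = 0) :
    ∃ R : QuadraticForm F Z, ∀ x, R (p x) = B x ((f - 1) x) := by
  obtain ⟨s, hs⟩ := p.exists_rightInverse_of_surjective (range_eq_top.2 H.surj)
  replace hs : ∀ z, p (s z) = z := LinearMap.congr_fun hs
  refine ⟨(BilinMap.toQuadraticMap (B.compl₂ (f - 1))).comp s, fun x => ?_⟩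
  obtain ⟨y, hy⟩ : ∃ y, s (p x) = x + y := ⟨_, (add_sub_cancel _ _).symm⟩
  have h3 : p y = 0 := by simpa [hs] using congrArg p hy
  have h4 := H.sp.polar_wall H.two x y
  rw [← H.form, h3, map_zero] at h4
  change B (s (p x)) ((f - 1) (s (p x))) = _
  simp only [hy, map_add, LinearMap.add_apply, h1 y h3]
  linear_combination h4

variable [Module.Finite F V]

theorem ker_iff (H : Der B f β h p) {x : V} : p x = 0 ↔ (f - 1) ((f - 1) x) = 0 :=
  ⟨fun hx => sub_eq_zero.2 (H.sp.fix_of_orth fun v => by rw [← H.form, hx]; simp),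
    fun hx => H.sp'.nd.1 _ (H.surj.forall.2 fun y => (H.form x y).trans (H.sp.eq_zero_of_fixed (sub_eq_zero.1 hx) y))⟩

theorem exists_red (H : Der B f β h p) {w : LinearMap.BilinForm F (range (f - 1))} (hw : IsWall B f w) :
    ∃ π ι, Red w π ι β ∧ (∀ x, π ((f - 1).rangeRestrict x) = p x) ∧ π ∘ₗ ι = h - 1 := by
  have h1 := (f - 1).surjective_rangeRestrict
  obtain ⟨π, hπ⟩ := exists_fac h1 p fun x hx => H.ker_iff.2 (by rw [show (f - 1) x = 0 from congrArg Subtype.val hx, map_zero])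
  obtain ⟨ι, hι⟩ := exists_fac H.surj ((f - 1).rangeRestrict ∘ₗ (f - 1)) fun x hx => Subtype.ext (H.ker_iff.1 hx)
  refine ⟨π, ι, ⟨H.two, H.sp'.nd, H.surj.forall.2 fun x => ⟨_, hπ x⟩, H.surj.forall.2 fun x => h1.forall.2 fun y => ?_,
    h1.forall.2 fun x => h1.forall.2 fun y => ?_⟩, hπ, LinearMap.ext (H.surj.forall.2 fun x => ?_)⟩
  · rw [hι, hπ, H.form]; exact hw _ _
  · rw [hπ, hπ, H.form, hw, hw]; exact H.sp.polar_wall H.two x y
  · rw [LinearMap.comp_apply, hι, LinearMap.comp_apply, hπ]; simp [H.comm]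

theorem finrank_ker (H : Der B f β h p) {π : range (f - 1) →ₗ[F] Z} (hπ : ∀ x, π ((f - 1).rangeRestrict x) = p x) :
    (ker π).map (range (f - 1)).subtype = range (f - 1) ⊓ ker (f - 1) := by
  refine le_antisymm ?_ ?_
  · rintro _ ⟨x, hx, rfl⟩
    obtain ⟨x, rfl⟩ := (f - 1).surjective_rangeRestrict x
    exact ⟨⟨x, rfl⟩, H.ker_iff.1 ((hπ x).symm.trans hx)⟩
  · rintro _ ⟨⟨x, rfl⟩, hx⟩
    exact ⟨(f - 1).rangeRestrict x, (hπ x).trans (H.ker_iff.2 hx), rfl⟩

end Der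

theorem SpE.exists_der [Module.Finite F V] (hf : SpE B f) (h2 : (2 : F) = 0) :
    ∃ β h, Der B f β h (ker ((f - 1) ∘ₗ (f - 1))).mkQ := by
  set p := (ker ((f - 1) ∘ₗ (f - 1))).mkQ
  have h1 : Function.Surjective p := Submodule.mkQ_surjective _
  have h3 : ∀ x, p x = 0 ↔ (f - 1) ((f - 1) x) = 0 := fun x => Submodule.Quotient.mk_eq_zero _
  have h4 : ∀ x, p x = 0 → ∀ y, B ((f - 1) x) ((f - 1) y) = 0 := fun x hx =>
    hf.eq_zero_of_fixed (sub_eq_zero.1 ((h3 x).1 hx))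
  obtain ⟨c, hc⟩ := exists_fac h1 (B.compl₁₂ (f - 1) (f - 1)).flip fun x hx => LinearMap.ext fun y =>
    IsAlt.eq_zero_comm hf.alt (h4 x hx y)
  obtain ⟨β, hβ⟩ := exists_fac h1 c.flip fun x hx => LinearMap.ext (h1.forall.2 fun y => by
    rw [flip_apply, hc]; exact h4 x hx y)
  replace hβ : ∀ x y, β (p x) (p y) = B ((f - 1) x) ((f - 1) y) := fun x y => by rw [hβ, flip_apply, hc]; rfl
  obtain ⟨h, hh⟩ := exists_fac h1 (p ∘ₗ f) fun x hx => (h3 _).2 (by simpa using congrArg f ((h3 x).1 hx))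
  replace hh : ∀ x, h (p x) = p (f x) := hh
  have h5 : LinearMap.BilinForm.IsAlt β := h1.forall.2 fun x => (hβ x x).trans (hf.alt _)
  exact ⟨β, h, h2, hf, ⟨h5, nondegenerate_of_isAlt h5 (h1.forall.2 fun x hx => (h3 x).2 (sub_eq_zero.2
    (hf.fix_of_orth fun v => (hβ x v).symm.trans (hx _)))), h1.forall.2 fun x => h1.forall.2 fun y => by
      rw [hh, hh, hβ, hβ, hf.inv_sub]⟩, h1, hβ, fun x => (hh x).symm⟩

variable [Module.Finite F Z] [Module.Finite F U]

/-- The derived pair with its type. -/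
def DR (B : LinearMap.BilinForm F V) (f : End F V) (β : LinearMap.BilinForm F Z) (h : End F Z) (τ : Option ℤˣ) : Prop :=
  ∃ p, Der B f β h p ∧ (τ = none → ∃ x, p x = 0 ∧ B x ((f - 1) x) ≠ 0) ∧
    ∀ ε, τ = some ε → ∃ R : QuadraticForm F Z, (∀ x, R (p x) = B x ((f - 1) x)) ∧ qsg R = ε

theorem DR.of_isim (H : DR B f β h τ) (hk : SpE γ k) (H' : ISim β h γ k) : DR B f γ k τ := by
  obtain ⟨p, h1, h3, h4⟩ := H
  obtain ⟨e, h5, h6⟩ := H'
  refine ⟨_, h1.trans hk e h5 h6, fun h => (h3 h).imp fun x hx => ⟨by simp [hx.1], hx.2⟩, fun ε h => ?_⟩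
  obtain ⟨R, h7, h8⟩ := h4 ε h
  exact ⟨R.comp e.symm.toLinearMap, fun x => by simp [h7], (qsg_congr (equivalent_of (Q' := R) e.symm fun _ => rfl)).trans h8⟩

variable [Module.Finite F V] [Module.Finite F W]

open Matrix in
theorem SpE.exists_dR (hf : SpE B f) (h2 : (2 : F) = 0) :
    ∃ (n : ℕ) (a : ConjClasses (symplecticGroup (Fin n) F)) (τ : Option ℤˣ), DR B f (bil _ F) (toLin' a.out.1) τ := by
  obtain ⟨β, h, H⟩ := hf.exists_der h2
  obtain ⟨τ, hτ⟩ : ∃ τ, DR B f β h τ := by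
    by_cases h1 : ∃ x, (ker ((f - 1) ∘ₗ (f - 1))).mkQ x = 0 ∧ B x ((f - 1) x) ≠ 0
    · exact ⟨none, _, H, fun _ => h1, by simp⟩
    · obtain ⟨R, hR⟩ := H.exists_quad (by simpa using h1)
      exact ⟨some (qsg R), _, H, by simp, fun ε h => ⟨R, hR, by simpa using h⟩⟩
  obtain ⟨n, hn⟩ := H.sp'.even_finrank
  obtain ⟨a, ha⟩ := H.sp'.exists_sp (l := Fin n) (by simp [hn, two_mul])
  exact ⟨n, .mk a, τ, hτ.of_isim (spE_sp _) (ha.symm.trans
    (sp_isConj_iff.1 (Quotient.mk_out (s := IsConj.setoid _) a)).symm)⟩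

variable [Finite F]

theorem DR.isim (H : DR B f β h τ) (H' : DR C g β h τ) (hd : finrank F V = finrank F W)
    (hk : finrank F (ker (f - 1)) = finrank F (ker (g - 1))) : ISim B f C g := by
  obtain ⟨p, h1, h3, h4⟩ := H
  obtain ⟨r, h5, h6, h7⟩ := H'
  obtain ⟨p, h1, h3⟩ : ∃ p, Der B f β h p ∧ ((∃ q : Z → F, (∀ x, B x ((f - 1) x) = q (p x)) ∧
      ∀ x, C x ((g - 1) x) = q (r x)) ∨ ((∃ x, p x = 0 ∧ B x ((f - 1) x) ≠ 0) ∧ ∃ x, r x = 0 ∧ C x ((g - 1) x) ≠ 0)) := by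
    rcases τ with _ | ε
    · exact ⟨p, h1, .inr ⟨h3 rfl, h6 rfl⟩⟩
    obtain ⟨R, h8, h9⟩ := h4 ε rfl
    obtain ⟨R', h10, h11⟩ := h7 ε rfl
    obtain ⟨h12, h13⟩ := h1.oE h8
    obtain ⟨h14, h15⟩ := h5.oE h10
    obtain ⟨e, h16, h17⟩ := h12.qsim_of_isim_two h14 h1.two (equivalent_of_qsg h12.nd h14.nd rfl (h9.trans h11.symm))
      (h13.symm ▸ h15.symm ▸ .refl _ _)
    exact ⟨_, h1.trans h1.sp' e (fun u v => by
      simpa only [← QuadraticMap.polarBilin_apply_apply, h13, h15] using polar_of_isom' e h16 u v) h17,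
      .inl ⟨R', fun x => (h8 x).symm.trans (h16 _).symm, fun x => (h10 x).symm⟩⟩
  obtain ⟨w, hw⟩ := h1.sp.exists_wall
  obtain ⟨w', hw'⟩ := h5.sp.exists_wall
  obtain ⟨π, ι, h8, h9, h10⟩ := h1.exists_red hw
  obtain ⟨ρ, κ, h11, h12, h13⟩ := h5.exists_red hw'
  have h14 := (f - 1).finrank_range_add_finrank_ker
  have h15 := (g - 1).finrank_range_add_finrank_ker
  obtain ⟨e, he⟩ := h8.exists_equiv h11 (hw.nondegenerate h1.sp) (hw'.nondegenerate h5.sp)
    (LinearMap.congr_fun (h10.trans h13.symm)) (by omega) (h3.imp (fun ⟨q, h16, h17⟩ => ⟨q,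
      (f - 1).surjective_rangeRestrict.forall.2 fun x => by rw [hw, h9]; exact h16 x,
      (g - 1).surjective_rangeRestrict.forall.2 fun x => by rw [hw', h12]; exact h17 x⟩)
      fun ⟨⟨x, h16⟩, y, h17⟩ => ⟨⟨(f - 1).rangeRestrict x, by rw [hw, h9]; exact h16⟩,
        (g - 1).rangeRestrict y, by rw [hw', h12]; exact h17⟩)
  exact hw.isim hw' h1.sp h5.sp hd e he

theorem DR.dims (H : DR B f β h τ) : ∃ a j, finrank F V = finrank F Z + 2 * (finrank F (ker (h - 1)) + a + j) ∧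
    finrank F (ker (f - 1)) = finrank F (ker (h - 1)) + a + 2 * j ∧ (τ = none → a ≠ 0) ∧
      ∀ ε, τ = some ε → Even a ∧ Ty β h ε ∧ (j = 0 → ∀ δ, Ty B f δ → δ = ε) := by
  obtain ⟨p, h1, h3, h4⟩ := H
  obtain ⟨w, hw⟩ := h1.sp.exists_wall
  obtain ⟨π, ι, h5, h6, h7⟩ := h1.exists_red hw
  have h8 := hw.nondegenerate h1.sp
  obtain ⟨S, h9, h10, h11, h12⟩ := h5.exists_split h8
  rw [h7] at h12
  have h13 := (f - 1).finrank_range_add_finrank_ker
  have h14 := π.finrank_range_add_finrank_ker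
  rw [range_eq_top.2 h5.surj, finrank_top] at h14
  have h15 := h1.finrank_ker h6
  have h16 : finrank F (ker π) = finrank F ↥(range (f - 1) ⊓ ker (f - 1)) := by
    rw [← h15, Submodule.finrank_map_subtype_eq]
  have h17 := Submodule.finrank_mono (inf_le_right : range (f - 1) ⊓ ker (f - 1) ≤ _)
  obtain ⟨m, hm⟩ := h1.sp.even_finrank
  obtain ⟨n, hn⟩ := h1.sp'.even_finrank
  refine ⟨finrank F S, m - n - finrank F (ker π), by omega, by omega, fun h h18 => ?_, fun ε h => ?_⟩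
  · obtain ⟨x, h19, h20⟩ := h3 h
    refine h5.not_alt h9 h10 h11 ((h6 x).trans h19) (by rw [hw]; exact h20) fun y => ?_
    rw [show y = 0 from Subtype.ext ((Submodule.finrank_eq_zero.1 h18).le y.2), map_zero]
  obtain ⟨R, h18, rfl⟩ := h4 ε h
  obtain ⟨h19, h20⟩ := h1.oE h18
  have h21 : ∀ x, w x x = R (π x) := (f - 1).surjective_rangeRestrict.forall.2 fun x => by rw [hw, h6, h18]; rfl
  refine ⟨even_finrank (B := w.restrict S) (fun x => (h21 x).trans (by rw [show π x = 0 from h9 x.2, map_zero]))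
    (h5.nd_of_isCompl h8 h9 h10 fun r hr x hx => hx r hr), ⟨R, h19, h20, rfl⟩, ?_⟩
  rintro h22 _ ⟨Q, h23, rfl, rfl⟩
  have h24 := Submodule.eq_of_le_of_finrank_eq (inf_le_right : range (f - 1) ⊓ ker (f - 1) ≤ _) (by omega)
  refine qsg_eq_of_red h23.nd h19.nd ⟨n, hn⟩ h5.surj ((f - 1).surjective_rangeRestrict.forall.2 fun x => ?_)
    (fun y hy => ?_) (by omega)
  · rw [h6, h18]
    change QuadraticMap.polar Q x (f x - x) = Q (f x - x)
    rw [h23.Q_sub, QuadraticMap.polar_sub_right, polar_comm _ (f x), polar_self_of_two h1.two]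
    linear_combination QuadraticMap.polar Q x (f x) * h1.two
  · have h25 : perp Q (range (f - 1)) ≤ ker (f - 1) := fun x hx => sub_eq_zero.2 (h1.sp.fix_of_orth fun v =>
      mem_perp'.1 hx _ ⟨v, rfl⟩)
    rw [← perp_perp h23.nd (range (f - 1)), mem_perp]
    intro x hx
    obtain ⟨x, h26, rfl⟩ := (h15.trans h24).ge (h25 hx)
    exact hy x h26

end Cfsg.Lib.Symp
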