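import Cfsg.Agent.Lib.GLC.SeqBound

/-!
Counting objects built from a derived object and a type.
-/

set_option autoImplicit false

namespace Cfsg.Lib.GLC

open Finset

variable {X Y Z : Type*} {q M : ℕ} {v : X → ℕ} {w : Y → ℕ} {K L x : ℝ} {c : ℕ}

/-- There are at most `K * q ^ m` objects of weight `m`, for `m ≤ M`. -/
def Bd (q M : ℕ) (v : X → ℕ) (K : ℝ) : Prop :=
  ∀ m ≤ M, Finite {x // v x = m} ∧ (Nat.card {x // v x = m} : ℝ) ≤ K * q ^ m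

namespace Bd

theorem mono (h : Bd q M v K) (hK : K ≤ L) : Bd q M v L := fun m hm =>
  ⟨(h m hm).1, (h m hm).2.trans (mul_le_mul_of_nonneg_right hK (by positivity))⟩

theorem nonneg (h : Bd q M v K) : 0 ≤ K := by simpa using (Nat.cast_nonneg _).trans (h 0 M.zero_le).2

theorem of_inj (h : Bd q M w K) {D : X → Z} (hD : Function.Injective D) (θ : Y → Z)
    (H : ∀ x, ∃ y, θ y = D x ∧ w y = v x) : Bd q M v K := fun m hm => by
  choose φ h1 h2 using H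
  have := (h m hm).1
  let ψ : {x // v x = m} → {y // w y = m} := fun x => ⟨φ x, (h2 x).trans x.2⟩
  have h3 : Function.Injective ψ := fun x y e => Subtype.ext (hD (by
    rw [← h1, ← h1]; exact congrArg (θ ·.1) e))
  exact ⟨.of_injective ψ h3, (Nat.cast_le.2 (Nat.card_le_card_of_injective ψ h3)).trans (h m hm).2⟩

theorem sum (h : Bd q M v K) (h' : Bd q M w L) : Bd q M (Sum.elim v w) (K + L) := fun m hm => by
  have := (h m hm).1
  have := (h' m hm).1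
  have e := Equiv.subtypeSum (p := fun x => Sum.elim v w x = m)
  refine ⟨(Equiv.finite_iff e).2 (inferInstanceAs (Finite ({x // v x = m} ⊕ {y // w y = m}))), ?_⟩
  rw [Nat.card_congr e, add_mul]
  exact ((congrArg _ (Nat.card_sum (α := {x // v x = m}) (β := {y // w y = m}))).trans (Nat.cast_add (R := ℝ) _ _)).trans_le
    (add_le_add (h m hm).2 (h' m hm).2)

theorem shift (h : Bd q M v K) (hq : 0 < q) (hx : (q : ℝ)⁻¹ ^ c ≤ x) : Bd q M (fun y => v y + c) (K * x) := fun m hm => by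
  have h0 : 0 ≤ x := le_trans (by positivity) hx
  have := h.nonneg
  rcases lt_or_ge m c with h1 | h1
  · have : IsEmpty {y // v y + c = m} := ⟨fun y => by have := y.2; omega⟩
    exact ⟨inferInstance, by rw [Nat.card_of_isEmpty, Nat.cast_zero]; positivity⟩
  obtain ⟨m, rfl⟩ := Nat.exists_eq_add_of_le' h1
  simp only [add_left_inj]
  refine ⟨(h m (by omega)).1, (h m (by omega)).2.trans ?_⟩
  rw [mul_assoc]
  refine mul_le_mul_of_nonneg_left (le_trans (le_of_eq ?_) (mul_le_mul_of_nonneg_right hx (by positivity))) this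
  rw [pow_add, inv_pow]; field_simp

theorem prod [Finite Z] (h : Bd q M v K) : Bd q M (fun y : Z × X => v y.2) (Nat.card Z * K) := fun m hm => by
  have := (h m hm).1
  have e : {y : Z × X // v y.2 = m} ≃ Z × {x // v x = m} :=
    ⟨fun y => (y.1.1, ⟨y.1.2, y.2⟩), fun y => ⟨(y.1, y.2.1), y.2.2⟩, fun _ => rfl, fun _ => rfl⟩
  refine ⟨(Equiv.finite_iff e).2 inferInstance, ?_⟩
  rw [Nat.card_congr e, Nat.card_prod, Nat.cast_mul, mul_assoc]
  exact mul_le_mul_of_nonneg_left (h m hm).2 (Nat.cast_nonneg _)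

theorem geom (h : Bd q M v K) (hq : 0 < q) (hc : c ≠ 0) (hx : (q : ℝ)⁻¹ ^ c ≤ x) (h1 : x < 1) :
    Bd q M (fun y : X × ℕ => v y.1 + y.2 * c) (K * (1 - x)⁻¹) := fun m hm => by
  have h0 : 0 ≤ x := le_trans (by positivity) hx
  have h2 := fun b : Fin (m + 1) => h.shift (c := b * c) (x := x ^ b.1) hq (by
    rw [mul_comm, pow_mul]; exact pow_le_pow_left₀ (by positivity) hx _) m hm
  have := fun b => (h2 b).1
  have e : {y : X × ℕ // v y.1 + y.2 * c = m} ≃ Σ b : Fin (m + 1), {y // v y + b * c = m} :=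
    ⟨fun y => ⟨⟨y.1.2, by have := y.2; have := Nat.le_mul_of_pos_right y.1.2 hc.bot_lt; omega⟩, y.1.1, y.2⟩,
      fun y => ⟨(y.2.1, y.1), y.2.2⟩, fun _ => rfl, fun _ => rfl⟩
  refine ⟨(Equiv.finite_iff e).2 inferInstance, ?_⟩
  rw [Nat.card_congr e, Nat.card_sigma, Nat.cast_sum]
  refine (sum_le_sum fun b _ => (h2 b).2).trans ?_
  rw [← sum_mul, ← mul_sum, Fin.sum_univ_eq_sum_range (x ^ ·)]
  exact mul_le_mul_of_nonneg_right (mul_le_mul_of_nonneg_left (geom_le h0 h1 _) h.nonneg) (by positivity)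

end Bd

/-- A system of objects with derived objects. -/
structure DSys (q : ℕ) (n s : X → ℕ) (T : X → ℤˣ → Prop) (D : X → X × ℕ × ℕ × Option ℤˣ) : Prop where
  two : 2 ≤ q
  inj : Function.Injective D
  dims : ∀ x y a j τ, D x = (y, a, j, τ) → n x = n y + s y + a + j ∧ s x = s y + a + 2 * j ∧ (τ = none → a ≠ 0) ∧
    ∀ ε, τ = some ε → Even a ∧ T y ε ∧ (j = 0 → ∀ δ, T x δ → δ = ε)
  base : ∀ M, Bd q M (fun x : {x // s x = 0} => n x) 1
  uniq : ∀ x δ ε, s x = 0 → T x δ → T x ε → δ = ε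

namespace DSys

variable {n s : X → ℕ} {T : X → ℤˣ → Prop} {D : X → X × ℕ × ℕ × Option ℤˣ} {i : ℕ} {A G E : ℝ}

variable (q M n s T) in
/-- The bounds at level `i`. -/
def Lv (i : ℕ) (A G E : ℝ) : Prop := Bd q M (fun x => n x + i * s x) A ∧
  Bd q M (fun y : {y : X × ℤˣ // T y.1 y.2 ∧ True} => n y.1.1 + i * s y.1.1) G ∧
    ∀ ε, Bd q M (fun y : {y : X × ℤˣ // T y.1 y.2 ∧ y.2 = ε} => n y.1.1 + i * s y.1.1) E

theorem pow_le (H : DSys q n s T D) (hx : 2⁻¹ ^ (i + 1) ≤ x) : (q : ℝ)⁻¹ ^ (i + 1) ≤ x ∧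
    (q : ℝ)⁻¹ ^ (2 * (i + 1)) ≤ x ^ 2 ∧ (q : ℝ)⁻¹ ^ (2 * i + 1) ≤ 2 * x ^ 2 := by
  have h1 : ∀ k, (q : ℝ)⁻¹ ^ k ≤ 2⁻¹ ^ k := fun k =>
    pow_le_pow_left₀ (by positivity) (inv_anti₀ two_pos (by exact_mod_cast H.two)) k
  have h2 : (2⁻¹ : ℝ) ^ (2 * (i + 1)) ≤ x ^ 2 := by rw [mul_comm, pow_mul]; gcongr
  exact ⟨(h1 _).trans hx, (h1 _).trans h2, (h1 _).trans (le_trans (le_of_eq (by ring)) (mul_le_mul_of_nonneg_left h2 two_pos.le))⟩

theorem step_pair (H : DSys q n s T D) (h : Lv q M n s T (i + 1) A G E) (hx : 2⁻¹ ^ (i + 1) ≤ x) (h1 : x ≤ 2⁻¹)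
    {S : ℤˣ → Prop} (hS : Bd q M (fun y : {y : X × ℤˣ // T y.1 y.2 ∧ S y.2} => n y.1.1 + (i + 1) * s y.1.1) K) :
    Bd q M (fun y : {y : X × ℤˣ // T y.1 y.2 ∧ S y.2} => n y.1.1 + i * s y.1.1) (K * (1 - x ^ 2)⁻¹ +
      Nat.card {ε // S ε} * (G * (1 - x ^ 2)⁻¹ * (1 - 2 * x ^ 2)⁻¹ * (2 * x ^ 2) +
        A * (1 - x)⁻¹ * x * (1 - 2 * x ^ 2)⁻¹)) := by
  have h0 : 0 ≤ x := le_trans (by positivity) hx
  obtain ⟨h2, h3, h4⟩ := H.pow_le hx
  have hq : 0 < q := two_pos.trans_le H.two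
  refine ((hS.geom hq (by omega) h3 (by nlinarith)).sum (((((h.2.1.geom hq (by omega) h3 (by nlinarith)).geom hq
    (by omega) h4 (by nlinarith)).shift hq h4).sum (((h.1.geom hq (by omega) h2 (by linarith)).shift hq h2).geom hq
      (by omega) h4 (by nlinarith))).prod (Z := {ε // S ε}))).of_inj (D := fun y => (D y.1.1, y.1.2))
    (fun y z e => Subtype.ext (Prod.ext (H.inj (Prod.ext_iff.1 e).1) (Prod.ext_iff.1 e).2))
    (Sum.elim (fun y => ((y.1.1.1, 2 * y.2, 0, some y.1.1.2), y.1.1.2)) fun y => (y.2.elim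
      (fun z => (z.1.1.1.1, 2 * z.1.2, z.2 + 1, some z.1.1.1.2)) fun z => (z.1.1, z.1.2 + 1, z.2, none), y.1)) ?_
  rintro ⟨⟨y, δ⟩, h5, h6⟩
  obtain ⟨z, a, j, τ, hD⟩ : ∃ z a j τ, D y = (z, a, j, τ) := ⟨_, _, _, _, rfl⟩
  obtain ⟨h7, h8, h9, h10⟩ := H.dims _ _ _ _ _ hD
  rcases τ with _ | ε
  · obtain ⟨a, rfl⟩ := Nat.exists_eq_succ_of_ne_zero (h9 rfl)
    exact ⟨.inr (⟨δ, h6⟩, .inr ((z, a), j)), by simp [hD], by simp [h7, h8]; ring⟩
  obtain ⟨⟨a, rfl⟩, h11, h12⟩ := h10 ε rfl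
  rcases j with _ | j
  · obtain rfl := h12 rfl δ h5
    exact ⟨.inl (⟨(z, δ), h11, h6⟩, a), by simp [hD, two_mul], by simp [h7, h8]; ring⟩
  · exact ⟨.inr (⟨δ, h6⟩, .inl ((⟨(z, ε), h11, trivial⟩, a), j)), by simp [hD, two_mul], by simp [h7, h8]; ring⟩

theorem step (H : DSys q n s T D) (h : Lv q M n s T (i + 1) A G E) (hx : 2⁻¹ ^ (i + 1) ≤ x) (h1 : x ≤ 2⁻¹)
    {A' G' E' : ℝ} (hA : G * (1 - x ^ 2)⁻¹ * (1 - 2 * x ^ 2)⁻¹ + A * (1 - x)⁻¹ * x * (1 - 2 * x ^ 2)⁻¹ ≤ A')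
    (hG : G * (1 - x ^ 2)⁻¹ + 2 * (G * (1 - x ^ 2)⁻¹ * (1 - 2 * x ^ 2)⁻¹ * (2 * x ^ 2) +
      A * (1 - x)⁻¹ * x * (1 - 2 * x ^ 2)⁻¹) ≤ G')
    (hE : E * (1 - x ^ 2)⁻¹ + (G * (1 - x ^ 2)⁻¹ * (1 - 2 * x ^ 2)⁻¹ * (2 * x ^ 2) +
      A * (1 - x)⁻¹ * x * (1 - 2 * x ^ 2)⁻¹) ≤ E') : Lv q M n s T i A' G' E' := by
  refine ⟨.mono ?_ hA, (H.step_pair h hx h1 (S := fun _ => True) h.2.1).mono (by simpa using hG),
    fun ε => (H.step_pair h hx h1 (S := (· = ε)) (h.2.2 ε)).mono (by simpa using hE)⟩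
  have h0 : 0 ≤ x := le_trans (by positivity) hx
  obtain ⟨h2, h3, h4⟩ := H.pow_le hx
  have hq : 0 < q := two_pos.trans_le H.two
  refine (((h.2.1.geom hq (by omega) h3 (by nlinarith)).geom hq (by omega) h4 (by nlinarith)).sum
    (((h.1.geom hq (by omega) h2 (by linarith)).shift hq h2).geom hq (by omega) h4 (by nlinarith))).of_inj H.inj
    (Sum.elim (fun z => (z.1.1.1.1, 2 * z.1.2, z.2, some z.1.1.1.2)) fun z => (z.1.1, z.1.2 + 1, z.2, none)) fun y => ?_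
  obtain ⟨z, a, j, τ, hD⟩ : ∃ z a j τ, D y = (z, a, j, τ) := ⟨_, _, _, _, rfl⟩
  obtain ⟨h7, h8, h9, h10⟩ := H.dims _ _ _ _ _ hD
  rcases τ with _ | ε
  · obtain ⟨a, rfl⟩ := Nat.exists_eq_succ_of_ne_zero (h9 rfl)
    exact ⟨.inr ((z, a), j), by simp [hD], by simp [h7, h8]; ring⟩
  · obtain ⟨⟨a, rfl⟩, h11, -⟩ := h10 ε rfl
    exact ⟨.inl ((⟨(z, ε), h11, trivial⟩, a), j), by simp [hD, two_mul], by simp [h7, h8]; ring⟩

theorem lv_top (H : DSys q n s T D) : Lv q M n s T (M + 1) 1 1 1 := by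
  have key : ∀ {Y : Type _} (φ : Y → X), (∀ y z, s (φ y) = 0 → φ y = φ z → y = z) →
      Bd q M (fun y => n (φ y) + (M + 1) * s (φ y)) 1 := fun {Y} φ h m hm => by
    have h1 : ∀ y : {y // n (φ y) + (M + 1) * s (φ y) = m}, s (φ y) = 0 := fun y => by
      have := y.2; by_contra h; have := Nat.le_mul_of_pos_right (M + 1) (Nat.pos_of_ne_zero h); omega
    have := (H.base M m hm).1
    let ψ : {y // n (φ y) + (M + 1) * s (φ y) = m} → {x : {x // s x = 0} // n x = m} := fun y =>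
      ⟨⟨φ y, h1 y⟩, by simpa [h1 y] using y.2⟩
    have h3 : Function.Injective ψ := fun y z e => Subtype.ext (h _ _ (h1 y) (congrArg (·.1.1) e))
    exact ⟨.of_injective ψ h3, (Nat.cast_le.2 (Nat.card_le_card_of_injective ψ h3)).trans (H.base M m hm).2⟩
  have key' : ∀ S : ℤˣ → Prop, Bd q M (fun y : {y : X × ℤˣ // T y.1 y.2 ∧ S y.2} => n y.1.1 + (M + 1) * s y.1.1) 1 :=
    fun S => key (fun y : {y : X × ℤˣ // T y.1 y.2 ∧ S y.2} => y.1.1) fun y z h e =>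
      Subtype.ext (Prod.ext e (H.uniq _ _ _ h y.2.1 (e ▸ z.2.1)))
  exact ⟨key id fun _ _ _ e => e, key' fun _ => True, fun ε => key' (· = ε)⟩

theorem tail_ineq {x : ℝ} (h0 : 0 ≤ x) (h1 : x ≤ 1 / 2048) :
    (1 + 5 / 2 * x) * (1 - x ^ 2)⁻¹ + 2 * ((1 + 5 / 2 * x) * (1 - x ^ 2)⁻¹ * (1 - 2 * x ^ 2)⁻¹ * (2 * x ^ 2) +
      (1 + 5 / 2 * x) * (1 - x)⁻¹ * x * (1 - 2 * x ^ 2)⁻¹) ≤ 1 + 5 * x := by
  have h2 : ∀ y z : ℝ, y ≤ 1 / 2 → z = 1 + 2 * y → 0 ≤ y → (1 - y)⁻¹ ≤ z := fun y z h1 h2 h3 => by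
    rw [inv_le_iff_one_le_mul₀ (by linarith)]; nlinarith
  have h3 := h2 (x ^ 2) _ (by nlinarith) rfl (by positivity)
  have h4 := h2 (2 * x ^ 2) _ (by nlinarith) rfl (by positivity)
  have h5 := h2 x _ (by linarith) rfl h0
  have h6 : 0 ≤ (1 - x ^ 2)⁻¹ := inv_nonneg.2 (by nlinarith)
  have h7 : 0 ≤ (1 - 2 * x ^ 2)⁻¹ := inv_nonneg.2 (by nlinarith)
  have h7' : 0 ≤ (1 - x)⁻¹ := inv_nonneg.2 (by linarith)
  have h8 : (1 - x ^ 2)⁻¹ ≤ 1 + x / 1000 := by nlinarith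
  have h9 : (1 - 2 * x ^ 2)⁻¹ ≤ 1001 / 1000 := by nlinarith
  have h10 : (1 - x)⁻¹ ≤ 1001 / 1000 := by linarith
  have h11 : 1 + 5 / 2 * x ≤ 1002 / 1000 := by linarith
  have h12 : (1 - x ^ 2)⁻¹ ≤ 1001 / 1000 := by linarith
  calc _ ≤ (1 + 5 / 2 * x) * (1 + x / 1000) + 2 * (1002 / 1000 * (1001 / 1000) * (1001 / 1000) * (2 * x ^ 2) +
      1002 / 1000 * (1001 / 1000) * x * (1001 / 1000)) := by gcongr
    _ ≤ _ := by nlinarith

theorem lv_tail (H : DSys q n s T D) (k : ℕ) : ∀ i, 10 ≤ i → i + k = M + 1 →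
    Lv q M n s T i (1 + 5 * 2⁻¹ ^ (i + 1)) (1 + 5 * 2⁻¹ ^ (i + 1)) (1 + 5 * 2⁻¹ ^ (i + 1)) := by
  induction k with
  | zero =>
    rintro i - rfl
    have : (1 : ℝ) ≤ 1 + 5 * 2⁻¹ ^ (M + 1 + 1) := le_add_of_nonneg_right (by positivity)
    exact ⟨H.lv_top.1.mono this, H.lv_top.2.1.mono this, fun ε => (H.lv_top.2.2 ε).mono this⟩
  | succ k ih =>
    intro i h1 h2
    have h3 := ih (i + 1) (by omega) (by omega)
    rw [show (5 : ℝ) * 2⁻¹ ^ (i + 1 + 1) = 5 / 2 * 2⁻¹ ^ (i + 1) by ring] at h3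
    have h4 : (2⁻¹ : ℝ) ^ (i + 1) ≤ 1 / 2048 :=
      (pow_le_pow_of_le_one (by norm_num) (by norm_num) (show 11 ≤ i + 1 by omega)).trans (by norm_num)
    have h5 := tail_ineq (by positivity) h4
    generalize hx : (2⁻¹ : ℝ) ^ (i + 1) = x at *
    have h0 : 0 ≤ x := hx ▸ by positivity
    have h6 : 0 < 1 - 2 * x ^ 2 := by nlinarith
    have h7 : 0 ≤ (1 + 5 / 2 * x) * (1 - x ^ 2)⁻¹ * (1 - 2 * x ^ 2)⁻¹ * (2 * x ^ 2) :=
      have : 0 < 1 - x ^ 2 := by nlinarith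
      by positivity
    have h8 : 0 ≤ (1 + 5 / 2 * x) * (1 - x)⁻¹ * x * (1 - 2 * x ^ 2)⁻¹ :=
      have : 0 < 1 - x := by linarith
      by positivity
    refine H.step h3 hx.le (by linarith) ?_ h5 (by linarith)
    have : (1 + 5 / 2 * x) * (1 - x ^ 2)⁻¹ * (1 - 2 * x ^ 2)⁻¹ = (1 + 5 / 2 * x) * (1 - x ^ 2)⁻¹ +
        (1 + 5 / 2 * x) * (1 - x ^ 2)⁻¹ * (1 - 2 * x ^ 2)⁻¹ * (2 * x ^ 2) := by field_simp; ring
    linarith

theorem lv_zero (H : DSys q n s T D) (hM : 9 ≤ M) : Lv q M n s T 0 (76 / 5) 26 15 := by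
  have h := H.lv_tail (M := M) (M - 9) 10 le_rfl (by omega)
  replace h := H.step h le_rfl (by norm_num) (A' := 1.0035) (G' := 1.0045) (E' := 1.0035) (by norm_num) (by norm_num) (by norm_num)
  replace h := H.step h le_rfl (by norm_num) (A' := 1.0065) (G' := 1.0085) (E' := 1.0055) (by norm_num) (by norm_num) (by norm_num)
  replace h := H.step h le_rfl (by norm_num) (A' := 1.0125) (G' := 1.0165) (E' := 1.0095) (by norm_num) (by norm_num) (by norm_num)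
  replace h := H.step h le_rfl (by norm_num) (A' := 1.0247) (G' := 1.0328) (E' := 1.0177) (by norm_num) (by norm_num) (by norm_num)
  replace h := H.step h le_rfl (by norm_num) (A' := 1.0499) (G' := 1.0667) (E' := 1.0348) (by norm_num) (by norm_num) (by norm_num)
  replace h := H.step h le_rfl (by norm_num) (A' := 1.1038) (G' := 1.1398) (E' := 1.0719) (by norm_num) (by norm_num) (by norm_num)
  replace h := H.step h le_rfl (by norm_num) (A' := 1.2275) (G' := 1.3107) (E' := 1.1593) (by norm_num) (by norm_num) (by norm_num)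
  replace h := H.step h le_rfl (by norm_num) (A' := 1.5555) (G' := 1.7795) (E' := 1.4017) (by norm_num) (by norm_num) (by norm_num)
  replace h := H.step h le_rfl (by norm_num) (A' := 2.7619) (G' := 3.6256) (E' := 2.3589) (by norm_num) (by norm_num) (by norm_num)
  exact H.step h le_rfl (by norm_num) (by norm_num) (by norm_num) (by norm_num)

theorem bound (H : DSys q n s T D) (m : ℕ) : 5 * Nat.card {x // n x = m} ≤ 76 * q ^ m ∧
    ∀ ε, Finite {x // n x = m ∧ T x ε} ∧ Nat.card {x // n x = m ∧ T x ε} ≤ 15 * q ^ m := by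
  obtain ⟨h1, -, h2⟩ := H.lv_zero (M := m + 9) (by omega)
  simp only [zero_mul, add_zero] at h1 h2
  refine ⟨?_, fun ε => ?_⟩
  · have := (h1 m (by omega)).2
    exact_mod_cast (by linarith : (5 * Nat.card {x // n x = m} : ℝ) ≤ 76 * q ^ m)
  · obtain ⟨h3, h4⟩ := h2 ε m (by omega)
    let φ : {x // n x = m ∧ T x ε} → {y : {y : X × ℤˣ // T y.1 y.2 ∧ y.2 = ε} // n y.1.1 = m} := fun x =>
      ⟨⟨(x, ε), x.2.2, rfl⟩, x.2.1⟩
    have h5 : Function.Injective φ := fun x y e => Subtype.ext (congrArg (·.1.1.1) e)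
    exact ⟨.of_injective φ h5, by exact_mod_cast (Nat.cast_le.2 (Nat.card_le_card_of_injective φ h5)).trans h4⟩

end DSys

end Cfsg.Lib.GLC
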