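import Cfsg.Agent.Lib.Symp.Even2
import Cfsg.Agent.Lib.Symp.Even3
import Cfsg.Agent.Lib.GLC.OmNum

/-!
Upper bounds for the class numbers of symplectic and orthogonal groups in characteristic two.
-/

set_option autoImplicit false

namespace Cfsg.Lib.Symp

open Module LinearMap Polynomial Cfsg.Lib.Orth Cfsg.Lib.GLC Cfsg.Lib.Unitary
open QuadraticMap (polarBilin)
open Matrix (symplecticGroup toLin')

variable {F V : Type*} [Field F] [AddCommGroup V] [Module F V] [Module.Finite F V] [Finite F]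
  {B : LinearMap.BilinForm F V} {f : End F V}

/-- All symplectic classes. -/
abbrev SC (F : Type*) [Field F] := Σ n : ℕ, ConjClasses (symplecticGroup (Fin n) F)

/-- A representative. -/
noncomputable abbrev SC.lin {F : Type*} [Field F] (x : SC F) : End F (Fin x.1 ⊕ Fin x.1 → F) := toLin' x.2.out.1

omit [Finite F] in
theorem SC.ext' {x y : SC F} (h : ISim (bil _ F) x.lin (bil _ F) y.lin) : x = y := by
  obtain ⟨n, x⟩ := x
  obtain ⟨m, y⟩ := y
  obtain rfl : n = m := by have := h.sim.finrank_eq; simp at this; omega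
  exact congrArg _ (Quotient.out_equiv_out.1 (sp_isConj_iff.2 h))

omit [Finite F] in
theorem fix_of_finrank (h : finrank F (ker (f - 1)) = 0) (v : V) (hv : f v = v) : v = 0 :=
  (Submodule.finrank_eq_zero.1 h).le (sub_eq_zero.2 hv)

omit [Finite F] in
theorem SpE.pal_sq (hf : SpE B f) (h2 : (2 : F) = 0) (h : ∀ v, f v = v → v = 0) (j : ℕ) :
    Pal (GLC.sq (typ f) j) ∧ (GLC.sq (typ f) j).eval 1 ≠ 0 := by
  classical
  have h1 := mc_sq_typ hf.isUnit j
  have h3 : (GLC.sq (typ f) j).eval 1 ≠ 0 := fun e => h1.1.ne_zero (rootMultiplicity_eq_zero_iff.1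
    ((rm_sq (typ_pp f) 1 j).trans (Multiset.count_eq_zero.2 (not_mem_typ_of_fix h))) e)
  have h4 : rdual (GLC.sq (typ f) j) = GLC.sq (typ f) j := (sq_map _ (typ_pp f) (fun φ e h1 _ h3 h4 => by
    have := coeff_zero_ne_of_dvd (dvd_pow_self φ h3.ne') (hf.coeff_ne _ h4)
    exact ⟨monic_dual this, irreducible_rdual h1 this ‹_›⟩) j).symm.trans (congrArg (GLC.sq · j) hf.map_rdual_typ)
  have := even_of_rdual_eq h1.1 h4 h1.2 h3 (by rwa [neg_eq_of_two h2])
  exact ⟨⟨this.1, h4, this.2⟩, h3⟩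

omit [Finite F] in
theorem SpE.sq_mem (hf : SpE B f) (h2 : (2 : F) = 0) (h : ∀ v, f v = v → v = 0) {m : ℕ} (hm : finrank F V = m + m) :
    (∀ i, Pal (GLC.sq (typ f) i) ∧ (GLC.sq (typ f) i).eval 1 ≠ 0) ∧
      (∀ i, (GLC.sq (typ f) i).natDegree / 2 ≠ 0 → i ≠ 0 ∧ i ≤ m + m) ∧
        ∑ i ∈ .range (m + m + 1), i * ((GLC.sq (typ f) i).natDegree / 2) = m := by
  have h1 := hf.pal_sq h2 h
  have h3 := sq_typ_mem f hm.le
  refine ⟨h1, fun i hi => h3.1 i (by omega), mul_left_cancel₀ two_ne_zero ?_⟩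
  rw [Finset.mul_sum, two_mul m, ← h3.2.trans hm]
  exact Finset.sum_congr (by rw [h3.2, hm]) fun i _ => by rw [mul_left_comm, Nat.two_mul_div_two_of_even (h1 i).1.2.2]

theorem bd_fpf (h2 : (2 : F) = 0) (M : ℕ) :
    Bd (Nat.card F) M (fun x : {x : SC F // finrank F (ker (x.lin - 1)) = 0} => x.1.1) 1 := fun m _ => by
  obtain ⟨q, hq⟩ := Nat.exists_eq_add_one.2 (Nat.card_pos (α := F))
  have h1 : ∀ d, {P : F[X] // (Pal P ∧ P.eval 1 ≠ 0) ∧ P.natDegree / 2 = d} ≃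
      {P : F[X] // (Pal P ∧ P.eval 1 ≠ 0) ∧ P.natDegree = 2 * d} := fun d => Equiv.subtypeEquivRight fun P =>
    and_congr_right fun h => by have := h.1.2.2; grind
  obtain ⟨_, h3⟩ := card_Sq_le (deg := fun P : F[X] => P.natDegree / 2) (p := fun _ P => Pal P ∧ P.eval 1 ≠ 0) (o := 1)
    (a := aN q (q + 1)) (fun _ P h e => eq_one_of_monic_natDegree_zero h.1.monic (by have := h.1.2.2; grind)) (by simp)
    (by simp [pal_one]) (fun _ d => (h1 d).finite_iff.2 (finite_natDegree _ _)) (fun _ d => by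
      refine (Nat.card_congr (h1 d)).trans_le ((card_pal_ne _).trans ?_)
      rcases d with _ | d
      · rfl
      · change aP _ (2 * d + 2) - aP _ (2 * d) ≤ q * (q + 1) ^ d
        simp [aP, hq, pow_succ, parity_simps, mul_add, mul_comm q]) (m + m) m
  let φ : {x : {x : SC F // finrank F (ker (x.lin - 1)) = 0} // x.1.1 = m} →
      Sq (fun P : F[X] => P.natDegree / 2) (fun _ P => Pal P ∧ P.eval 1 ≠ 0) (m + m) m := fun x =>
    ⟨GLC.sq (typ x.1.1.lin), (spE_sp x.1.1.2.out).sq_mem h2 (fix_of_finrank x.1.2) (by simp [x.2])⟩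
  have h4 : Function.Injective φ := fun x y e => Subtype.ext (Subtype.ext (SC.ext' (isim_of_sim_of_ne (spE_sp _)
    (spE_sp _) (sim_iff_typ_eq.2 (eq_of_sq_eq (typ_pp _) (typ_pp _) (congrArg Subtype.val e))) (fix_of_finrank x.1.2)
      fun v hv => fix_of_finrank x.1.2 v (hv.trans (neg_eq_of_two h2 v)))))
  refine ⟨.of_injective φ h4, ?_⟩
  rw [one_mul, hq]
  exact_mod_cast (Nat.card_le_card_of_injective φ h4).trans (h3.trans (cc_gl_le' ..))

theorem Ty.eq (h2 : (2 : F) = 0) (h : ∀ v, f v = v → v = 0) {δ ε : ℤˣ} (h1 : Ty B f δ) (h3 : Ty B f ε) : δ = ε := by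
  obtain ⟨Q, h4, rfl, rfl⟩ := h1
  obtain ⟨R, h5, h6, rfl⟩ := h3
  obtain ⟨w, rfl⟩ := exists_eq_translate h4.nd h2 h6
  rw [h _ (h4.fix_of_translate h2 h5)]
  exact ((qsg_translate h4.nd h2).2 ⟨0, by simp⟩).symm

theorem exists_dSys (h2 : (2 : F) = 0) : ∃ D, DSys (X := SC F) (Nat.card F) Sigma.fst
    (fun x => finrank F (ker (x.lin - 1))) (fun x => Ty (bil _ F) x.lin) D := by
  have h1 : ∀ x : SC F, ∃ d : SC F × ℕ × ℕ × Option ℤˣ, DR (bil _ F) x.lin (bil _ F) d.1.lin d.2.2.2 ∧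
      x.1 = d.1.1 + finrank F (ker (d.1.lin - 1)) + d.2.1 + d.2.2.1 ∧
      finrank F (ker (x.lin - 1)) = finrank F (ker (d.1.lin - 1)) + d.2.1 + 2 * d.2.2.1 ∧ (d.2.2.2 = none → d.2.1 ≠ 0) ∧
      ∀ ε, d.2.2.2 = some ε → Even d.2.1 ∧ Ty (bil _ F) d.1.lin ε ∧ (d.2.2.1 = 0 → ∀ δ, Ty (bil _ F) x.lin δ → δ = ε) :=
    fun x => by
      obtain ⟨n, a, τ, h⟩ := (spE_sp x.2.out).exists_dR h2
      obtain ⟨b, j, h3, h4⟩ := h.dims
      refine ⟨(⟨n, a⟩, b, j, τ), h, ?_, h4⟩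
      simp only [finrank_fintype_fun_eq_card, Fintype.card_sum, Fintype.card_fin] at h3
      exact (fun s (h : x.1 + x.1 = n + n + 2 * (s + b + j)) => (by omega : x.1 = n + s + b + j)) _ h3
  choose D h1 h3 h4 using h1
  refine ⟨D, Finite.one_lt_card, fun x y e => SC.ext' ((h1 x).isim (e ▸ h1 y) ?_ ?_), fun x y a j τ e => ?_, bd_fpf h2,
    fun x δ ε h => Ty.eq h2 (fix_of_finrank h)⟩
  · simp only [finrank_fintype_fun_eq_card, Fintype.card_sum, Fintype.card_fin]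
    rw [h3 x, h3 y, e]
  · rw [(h4 x).1, (h4 y).1, e]
  · have := And.intro (h3 x) (h4 x)
    rwa [e] at this

theorem card_sp_classes_le (h2 : (2 : F) = 0) (n : ℕ) :
    5 * Nat.card (ConjClasses (symplecticGroup (Fin n) F)) ≤ 76 * Nat.card F ^ n := by
  obtain ⟨D, H⟩ := exists_dSys h2
  exact Nat.card_congr (Equiv.sigmaSubtype (β := fun n => ConjClasses (symplecticGroup (Fin n) F)) n) ▸ (H.bound n).1

theorem card_iso_classes_le {ι : Type} [Fintype ι] [DecidableEq ι] {Q : QuadraticForm F (ι → F)} (h2 : (2 : F) = 0)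
    (hQ : ND Q) {n : ℕ} (hι : Fintype.card ι = 2 * n) :
    Nat.card (ConjClasses (isometryGroup F ⇑Q)) ≤ 15 * Nat.card F ^ n := by
  obtain ⟨D, H⟩ := exists_dSys h2
  obtain ⟨_, h3⟩ := (H.bound n).2 (qsg Q)
  have h4 : ∀ C : ConjClasses (isometryGroup F ⇑Q), ∃ x : {x : SC F // x.1 = n ∧ Ty (bil _ F) x.lin (qsg Q)},
      ISim (polarBilin Q) (toLin' C.out.1.1) (bil _ F) x.1.lin := fun C => by
    have h4 := oE_iso hQ C.out
    obtain ⟨a, ha⟩ := (h4.spE h2).exists_sp (l := Fin n) (by simp [hι])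
    obtain ⟨e, h5, h6⟩ := ha.symm.trans (sp_isConj_iff.1 (Quotient.mk_out (s := IsConj.setoid _) a)).symm
    have h7 : QSim Q (toLin' C.out.1.1) (Q.comp e.symm.toLinearMap) _ := ⟨e, fun v => by simp, h6⟩
    exact ⟨⟨⟨n, .mk a⟩, rfl, _, h7.oE h4, LinearMap.ext₂ (e.surjective.forall.2 fun u => e.surjective.forall.2 fun v =>
      (polar_of_isom' e (fun v => by simp) u v).trans (h5 u v).symm), (qsg_congr h7.equivalent).symm⟩, e, h5, h6⟩
  choose φ h4 using h4
  refine (Nat.card_le_card_of_injective φ fun C D e => Quotient.out_equiv_out.1 (iso_isConj_iff.2 ?_)).trans h3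
  exact (oE_iso hQ _).qsim_of_isim_two (oE_iso hQ _) h2 (.refl _) ((h4 C).trans (e ▸ h4 D).symm)

theorem pow_le_card_sp_classes (n : ℕ) : Nat.card F ^ n ≤ Nat.card (ConjClasses (symplecticGroup (Fin n) F)) := by
  have h : ∀ P : {P : F[X] // Pal P ∧ P.natDegree = 2 * n}, ∃ a : symplecticGroup (Fin n) F,
      (toLin' a.1).charpoly = P := fun P => by
    obtain ⟨B, hB⟩ := exists_spE_cyc P.2.1.monic P.2.1.1 P.2.1.2.1 P.2.1.2.2
    haveI := P.2.1.monic.finite_adjoinRoot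
    have := charpoly_cyc P.2.1.monic
    obtain ⟨a, ha⟩ := hB.exists_sp (l := Fin n) (by rw [← charpoly_natDegree (cyc P.1), this, P.2.2]; simp)
    exact ⟨a, ha.sim.charpoly_eq.trans this⟩
  choose a ha using h
  exact card_pal (F := F) n ▸ Nat.card_le_card_of_injective (fun P => ConjClasses.mk (a P)) fun P R e => Subtype.ext (by
    rw [← ha, ← ha]; exact (sp_isConj_iff.1 (ConjClasses.mk_eq_mk_iff_isConj.1 e)).sim.charpoly_eq)

end Cfsg.Lib.Symp
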