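import Cfsg.Agent.Lib.Symp.Even4

/-!
The lower bound for the class numbers of orthogonal groups in characteristic two.
-/

set_option autoImplicit false

namespace Cfsg.Lib.Symp

open Module LinearMap Polynomial Cfsg.Lib.Orth Cfsg.Lib.GLC
open QuadraticMap (polarBilin)

variable {F V W : Type*} [Field F] [AddCommGroup V] [Module F V] [Module.Finite F V] [AddCommGroup W] [Module F W]
  [Module.Finite F W] {S : LinearMap.BilinForm F V} {f : End F V} {g : End F W} {P R : F[X]} {Q : QuadraticForm F V}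

theorem trace_eq_zero_of_alt (hS : S.Nondegenerate) (hs : ∀ x y, S x y = S y x) (h : ∀ x, S (f x) x = 0) :
    trace F V f = 0 := by
  let b := finBasis F V
  let d := S.dualBasis hS b
  have h1 : ∀ i, S (f (d i)) (b i) = ∑ j, S (b i) (b j) * S (f (d i)) (d j) := fun i => by
    conv_lhs => rw [← d.sum_repr (b i)]
    simp [d]
  have h3 : LinearMap.BilinForm.IsAlt (S.compLeft f) := h
  rw [trace_eq_matrix_trace F d, Matrix.trace]
  simp only [Matrix.diag, toMatrix_apply, d, LinearMap.BilinForm.dualBasis_repr_apply]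
  rw [Finset.sum_congr rfl fun i _ => h1 i, ← Finset.sum_product']
  refine Finset.sum_ninvolution Prod.swap (fun x => ?_) (fun x hx e => hx ?_) (by simp) (by simp)
  · have := h3.neg_eq (d x.1) (d x.2)
    simp only [LinearMap.BilinForm.compLeft_apply] at this
    simp [← this, hs (b x.2)]
  · rw [show x.2 = x.1 from congrArg Prod.fst e, h, mul_zero]

theorem exists_frob (hP : P.Monic) : ∃ t : AdjoinRoot P →ₗ[F] F, ∀ a, (∀ b, t (a * b) = 0) → a = 0 := by
  refine ⟨lcoeff F (P.natDegree - 1) ∘ₗ AdjoinRoot.modByMonicHom hP, fun a ha => ?_⟩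
  obtain ⟨A, rfl⟩ := AdjoinRoot.mk_surjective a
  rw [← modByMonic_add_div A P, map_add, map_mul, AdjoinRoot.mk_self, zero_mul, add_zero] at ha ⊢
  by_contra h
  have h0 : A %ₘ P ≠ 0 := fun e => h (by rw [e, map_zero])
  have h1 := natDegree_lt_natDegree h0 (degree_modByMonic_lt A hP)
  obtain ⟨k, hk⟩ := Nat.exists_eq_add_of_lt h1
  have h3 := ha (AdjoinRoot.mk P (X ^ k))
  rw [← map_mul, LinearMap.comp_apply, AdjoinRoot.modByMonicHom_mk, (modByMonic_eq_self_iff hP).2 (degree_lt_degree (by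
    rw [natDegree_mul_X_pow _ h0]; omega)), hk, lcoeff_apply, Nat.add_sub_cancel, coeff_mul_X_pow] at h3
  exact h0 (leadingCoeff_eq_zero.1 h3)

/-- The characteristic polynomial of `(f + f⁻¹)⁻¹`. -/
def TI (f : End F V) (P : F[X]) : Prop := ∃ t : End F V, t * (f * f + 1) = f ∧ t.charpoly = P

theorem TI.sim (h : TI f P) (H : Sim f g) : TI g P := by
  obtain ⟨t, h1, rfl⟩ := h
  obtain ⟨e, he⟩ := H
  refine ⟨e.conj t, LinearMap.ext (e.surjective.forall.2 fun v => ?_), e.charpoly_conj t⟩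
  simpa [← he, ← map_add] using LinearMap.congr_fun h1 v

theorem TI.eq (hf : Function.Injective f) (h : TI f P) (h' : TI f R) : P = R := by
  obtain ⟨t, h1, rfl⟩ := h
  obtain ⟨u, h3, rfl⟩ := h'
  have : Function.Injective (f * f + 1 : End F V) := .of_comp (f := t) (by rw [← End.coe_mul, h1]; exact hf)
  rw [LinearMap.ext ((injective_iff_surjective.1 this).forall.2 (LinearMap.congr_fun (h1.trans h3.symm)))]

theorem TI.eval_ne (h2 : (2 : F) = 0) (h : TI f P) : f.charpoly.eval 1 ≠ 0 := fun e => by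
  obtain ⟨t, h1, -⟩ := h
  obtain ⟨v, hv⟩ := ((End.hasEigenvalue_iff_isRoot_charpoly f 1).2 e).exists_hasEigenvector
  have h3 := hv.apply_eq_smul
  rw [one_smul] at h3
  simpa [h3, add_self_of_two h2, hv.2.symm] using LinearMap.congr_fun h1 v

variable [Finite F]

theorem exists_oE_pair (h2 : (2 : F) = 0) (hS : S.Nondegenerate) (hs : ∀ x y, S x y = S y x) {u : (End F V)ˣ}
    (hu : ∀ x y, S (u.1 x) y = S x (u.1 y)) : ∃ (Q : QuadraticForm F (V × V)) (f : End F (V × V)), OE Q f ∧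
      TI f (u.1.charpoly ^ 2) ∧ (qsg Q = 1 ↔ ∃ a, a ^ 2 + a = trace F V u.1) := by
  let Q : QuadraticForm F (V × V) := BilinMap.toQuadraticMap (S.compl₁₂ (fst F V V) (snd F V V))
  have h1 : ∀ x y, QuadraticMap.polar Q x y = S x.1 y.2 + S y.1 x.2 := fun x y => by simp [Q, QuadraticMap.polar]; ring
  have h3 : ND Q := (nd_iff _).2 fun x hx => Prod.ext (hS.1 _ fun y => by simpa [h1] using hx (0, y))
    (hS.2 _ fun y => by simpa [h1] using hx (y, 0))
  have h4 : qsg Q = 1 := Lag.qsg_eq h3 (U := range (inl F V V)) ⟨by rintro _ ⟨x, rfl⟩; simp [Q], by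
    rw [finrank_range_of_inj inl_injective, finrank_prod, two_mul]⟩
  obtain ⟨l, hl⟩ := exists_dual_sq h2 (φ := fun x => S (u.1 x) x) (fun x y => by
    simp only [map_add, LinearMap.add_apply, hu y x, hs y]; linear_combination S (u.1 x) y * h2)
    (fun a x => by simp only [map_smul, LinearMap.smul_apply, smul_eq_mul]; ring)
  obtain ⟨w, rfl⟩ := (S.toDual hS).surjective l
  replace hl : ∀ x, S (u.1 x) x = S w x ^ 2 := hl
  have h5 : ∀ x, translate Q (w, w) x = S x.1 x.2 + S (u.1 x.1) x.1 + S (u.1 x.2) x.2 := fun x => by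
    rw [Orth.translate_apply, h1, hl, hl, hs x.1 w]; simp only [Q, BilinMap.toQuadraticMap_apply, compl₁₂_apply, fst_apply, snd_apply]
    linear_combination S w x.1 * S w x.2 * h2
  have h6 : ∀ x, u.1 ((u⁻¹).1 x) = x := LinearMap.congr_fun u.mul_inv
  have h7 := trace_eq_zero_of_alt hS hs (f := u.1 - (S w).smulRight w) fun x => by simp [hl, pow_two]
  rw [map_sub, trace_smulRight, sub_eq_zero] at h7
  refine ⟨translate Q (w, w), (snd F V V).prod (fst F V V + (u⁻¹).1 ∘ₗ snd F V V), ⟨nd_translate h3 h2 _, fun x => ?_⟩,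
    ⟨u.1.prodMap u.1, LinearMap.ext fun x => ?_, by rw [charpoly_prodMap, pow_two]⟩, by rw [← h4, qsg_translate h3 h2, h7]; rfl⟩
  · simp [h5, h6, hu x.1 ((u⁻¹).1 _), hs x.2 x.1]
    linear_combination (S x.1 x.2 + S x.2 ((u⁻¹).1 x.2)) * h2
  · ext
    · simp [h6, add_right_comm, add_self_of_two h2]
    · simp [h6, add_right_comm, add_self_of_two h2]

theorem exists_tI (h2 : (2 : F) = 0) (hQ : ND Q) (hP : MC P) (hV : finrank F V = 2 * P.natDegree)
    (h : qsg Q = 1 ↔ ∃ a, a ^ 2 + a = P.nextCoeff) : ∃ f, OE Q f ∧ TI f (P ^ 2) := by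
  obtain ⟨t, ht⟩ := exists_frob hP.1
  haveI := hP.1.finite_adjoinRoot
  obtain ⟨u, hu⟩ : IsUnit (cyc P) := (isUnit_root hP.2).map (Algebra.lmul F _)
  obtain ⟨R, g, h1, h3, h4⟩ := exists_oE_pair h2 (S := (mul F _).compr₂ t) ⟨ht, fun a ha => ht a fun b => by
    rw [mul_comm]; exact ha b⟩ (fun x y => by simp [mul_comm]) (u := u) fun x y => by simp [hu, cyc, mul_assoc, mul_left_comm]
  rw [trace_eq_matrix_trace F (finBasis F _), Matrix.trace_eq_neg_charpoly_nextCoeff, charpoly_toMatrix, neg_eq_of_two h2] at h4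
  rw [hu, charpoly_cyc hP.1] at h3 h4
  obtain ⟨f, hf⟩ := exists_qsim (equivalent_of_qsg h1.nd hQ (by simp [finrank_adjoinRoot, hV, two_mul]) (by
    have := h4.trans h.symm
    rcases Int.units_eq_one_or (qsg Q) with h5 | h5 <;> rcases Int.units_eq_one_or (qsg R) with h6 | h6 <;> simp_all)) g
  exact ⟨f, hf.oE h1, h3.sim hf.sim⟩

theorem exists_oE_pal (h2 : (2 : F) = 0) (hQ : ND Q) (hP : Pal P) (hV : finrank F V = P.natDegree + 2) :
    ∃ f, OE Q f ∧ f.charpoly = P * (X - 1) ^ 2 := by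
  obtain ⟨B, hB⟩ := exists_spE_cyc hP.monic hP.1 hP.2.1 hP.2.2
  haveI := hP.monic.finite_adjoinRoot
  obtain ⟨R, h1, -⟩ := hB.exists_oE_two h2
  obtain ⟨R', f, -, h3, h4⟩ := h1.exists_ext hQ (k := 2) (by rw [finrank_adjoinRoot, hV]) (by simp)
  exact ⟨f, h3, by rw [← h4.sim.charpoly_eq, charpoly_prodMap, charpoly_cyc hP.monic]; simp [charpoly_one]⟩

theorem card_mc_le (h2 : (2 : F) = 0) (n : ℕ) (p : Prop) : (Nat.card F - 1) * Nat.card F ^ (n + 1) ≤
    2 * Nat.card {P : F[X] // (MC P ∧ (p ↔ ∃ a, a ^ 2 + a = P.nextCoeff)) ∧ P.natDegree = n + 2} := by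
  classical
  obtain ⟨ζ, hζ⟩ := exists_aniso_one F
  have h1 : ∀ t, t ^ 2 + t ≠ ζ := fun t e => aniso_one_iff.1 hζ t (by rw [e, add_self_of_two h2])
  have h3 : ∀ P : F[X], (P.Monic ∧ P.natDegree = n + 1 + 1) ∧ P.coeff 0 ≠ 0 → ¬ (p ↔ ∃ a, a ^ 2 + a = P.nextCoeff) →
      (MC (P + monomial (n + 1) ζ) ∧ (p ↔ ∃ a, a ^ 2 + a = (P + monomial (n + 1) ζ).nextCoeff)) ∧
        (P + monomial (n + 1) ζ).natDegree = n + 2 := fun P h h' => by
    have h3 : (monomial (n + 1) ζ).natDegree < P.natDegree := (natDegree_monomial_le _).trans_lt (by omega)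
    have h4 := (natDegree_add_eq_left_of_natDegree_lt h3).trans h.1.2
    refine ⟨⟨⟨h.1.1.add_of_left (degree_lt_degree h3), by simpa [coeff_monomial] using h.2⟩, ?_⟩, h4⟩
    rw [nextCoeff, h.1.2] at h'
    rw [nextCoeff, h4]
    simp only [Nat.add_eq_zero_iff, one_ne_zero, and_false, if_false, add_tsub_cancel_right, coeff_add,
      coeff_monomial_same] at h' ⊢
    refine (iff_not_comm.1 (not_iff.1 h').symm).trans ⟨fun h => exists_sq_add_eq h2 (not_exists.1 h) h1, ?_⟩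
    rintro ⟨a, ha⟩ ⟨b, hb⟩
    exact h1 (a + b) (by linear_combination ha + hb + (a * b + P.coeff (n + 1)) * h2)
  have := finite_natDegree (F := F) (fun P => MC P ∧ (p ↔ ∃ a, a ^ 2 + a = P.nextCoeff)) (n + 2)
  rw [← Nat.card_units, Nat.card_congr unitsEquivNeZero, ← card_monic_coeff, two_mul, ← Nat.card_sum]
  refine Nat.card_le_card_of_injective (fun P => if h : _ then .inl ⟨P.1, ⟨⟨P.2.1.1, P.2.2⟩, h⟩, P.2.1.2⟩ else
    .inr ⟨_, h3 P.1 P.2 h⟩) fun P R e => ?_
  dsimp only at e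
  split_ifs at e <;> exact Subtype.ext (by simpa using e)

open Matrix in
theorem pow_le_card_iso_classes {ι : Type} [Fintype ι] [DecidableEq ι] {Q : QuadraticForm F (ι → F)} (h2 : (2 : F) = 0)
    (hQ : ND Q) {n : ℕ} (hn : 2 ≤ n) (hι : Fintype.card ι = 2 * n) :
    Nat.card F ^ n ≤ 2 * Nat.card (ConjClasses (isometryGroup F ⇑Q)) := by
  obtain ⟨n, rfl⟩ := Nat.exists_eq_add_of_le' hn
  have h1 : ∀ P : {P : F[X] // (MC P ∧ (qsg Q = 1 ↔ ∃ a, a ^ 2 + a = P.nextCoeff)) ∧ P.natDegree = n + 2},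
      ∃ a : isometryGroup F ⇑Q, TI (toLin' a.1.1) (P.1 ^ 2) := fun P => by
    obtain ⟨f, h1, h3⟩ := exists_tI h2 hQ P.2.1.1 (by simp [hι, P.2.2]) P.2.1.2
    obtain ⟨a, rfl⟩ := h1.exists_iso
    exact ⟨a, h3⟩
  have h3 : ∀ P : {P : F[X] // Pal P ∧ P.natDegree = 2 * (n + 1)},
      ∃ a : isometryGroup F ⇑Q, (toLin' a.1.1).charpoly = P.1 * (X - 1) ^ 2 := fun P => by
    obtain ⟨f, h1, h3⟩ := exists_oE_pal h2 hQ P.2.1 (by simp [hι, P.2.2, mul_add])
    obtain ⟨a, rfl⟩ := h1.exists_iso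
    exact ⟨a, h3⟩
  choose a h1 using h1
  choose b h3 using h3
  have := finite_natDegree (F := F) (fun P => MC P ∧ (qsg Q = 1 ↔ ∃ a, a ^ 2 + a = P.nextCoeff)) (n + 2)
  have := finite_natDegree (F := F) Pal (2 * (n + 1))
  have h4 := Nat.card_le_card_of_injective (ConjClasses.mk ∘ Sum.elim a b) (by
    rintro (P | P) (R | R) e <;> replace e := (iso_isConj_iff.1 (ConjClasses.mk_eq_mk_iff_isConj.1 e)).sim
    · have := ((h1 P).sim e).eq (oE_iso hQ _).injective (h1 R)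
      have h4 : (2 : F[X]) = 0 := by rw [← map_ofNat C, h2, C_0]
      refine congrArg _ (Subtype.ext (sub_eq_zero.1 (pow_eq_zero_iff two_ne_zero |>.1 ?_)))
      linear_combination this + (R.1 ^ 2 - P.1 * R.1) * h4
    · exact absurd ((congrArg (eval 1) (e.charpoly_eq.trans (h3 R))).trans (by simp)) ((h1 P).eval_ne h2)
    · exact absurd ((congrArg (eval 1) (e.charpoly_eq.symm.trans (h3 P))).trans (by simp)) ((h1 R).eval_ne h2)
    · exact congrArg _ (Subtype.ext (mul_right_cancel₀ (pow_ne_zero 2 (X_sub_C_ne_zero 1))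
        ((h3 P).symm.trans (e.charpoly_eq.trans (h3 R))))))
  have h5 := card_mc_le h2 n (qsg Q = 1)
  rw [Nat.card_sum, card_pal] at h4
  obtain ⟨q, hq⟩ := Nat.exists_eq_add_one.2 (Nat.card_pos (α := F))
  rw [hq] at h4 h5 ⊢
  rw [pow_succ, mul_add]
  simp only [add_tsub_cancel_right, mul_comm q] at h5
  omega

end Cfsg.Lib.Symp
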