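import Cfsg.Agent.Lib.Symp.Count
import Cfsg.Agent.Lib.Symp.Group
import Cfsg.Agent.Lib.Unitary.Glue

/-!
# The Siegel Levi subgroup of the matrix symplectic group
-/

set_option autoImplicit false

namespace Cfsg.Lib.Symp

open Matrix

variable {F : Type*} [Field F] {l : Type} [Fintype l] [DecidableEq l]

theorem mem_stabilizing_iff {H : Type*} [Group H] {φ : H →* Matrix l l F} {W : Submodule F (l → F)}
    {A : H} : A ∈ stabilizing φ W ↔ ∀ v ∈ W, φ A *ᵥ v ∈ W :=
  ⟨fun h v => (h v).1, fun h => Unitary.mem_subStab_of_le (g := .ofLinear (toLin' (φ A))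
    (toLin' (φ A⁻¹)) (by simp [← toLin'_mul, ← map_mul]) (by simp [← toLin'_mul, ← map_mul])) h⟩

theorem mem_stabilizing_coord {H : Type*} [Group H] {φ : H →* Matrix l l F} {S : Set (l → F)}
    (p : l → Prop) (hS : ∀ v, v ∈ S ↔ ∀ i, p i → v i = 0) {A : H} :
    A ∈ stabilizing φ S ↔ ∀ i j, p i → ¬ p j → φ A i j = 0 := by
  obtain rfl : S = Submodule.pi {i | p i} fun _ => (⊥ : Submodule F F) := Set.ext hS
  refine mem_stabilizing_iff.trans ⟨fun h i j hi hj => ?_, fun h v hv i hi =>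
    Finset.sum_eq_zero fun j _ => ?_⟩
  · simpa using h (Pi.single j 1) (fun k hk => Pi.single_eq_of_ne (fun e : k = j => hj (e ▸ hk)) _) i hi
  · by_cases hj : p j
    · rw [show v j = 0 from hv j hj, mul_zero]
    · exact mul_eq_zero_of_left (h i j hi hj) _

variable (l F) in
/-- The Levi subgroup `X ↦ diag (X, X⁻ᵀ)`. -/
def spLevi : GL l F →* symplecticGroup l F where
  toFun X := ⟨fromBlocks X.1 0 0 (X⁻¹).1ᵀ, SymplecticGroup.fromBlocks_mem_iff.2 (by
    simp [-coe_units_inv, ← transpose_mul])⟩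
  map_one' := Subtype.ext (by simp)
  map_mul' X Y := Subtype.ext (by simp [-coe_units_inv, fromBlocks_multiply])

theorem coe_spLevi (X : GL l F) : (spLevi F l X).1 = fromBlocks X.1 0 0 (X⁻¹).1ᵀ := rfl

theorem spLevi_injective : Function.Injective (spLevi F l) := fun _ _ h =>
  Units.ext (congrArg (fun A : symplecticGroup l F => A.1.toBlocks₁₁) h)

theorem exists_toBlocks₁₁ {A : symplecticGroup l F} (h : A.1.toBlocks₂₁ = 0) :
    ∃ X : GL l F, X.1 = A.1.toBlocks₁₁ ∧ (X⁻¹).1ᵀ = A.1.toBlocks₂₂ := by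
  have h1 := (SymplecticGroup.fromBlocks_mem_iff.1 ((fromBlocks_toBlocks A.1).symm ▸ A.2)).2.2
  rw [h, transpose_zero, Matrix.zero_mul, sub_zero, ← transpose_eq_one, transpose_mul] at h1
  exact ⟨⟨_, _, mul_eq_one_comm.1 h1, h1⟩, rfl, rfl⟩

end Cfsg.Lib.Symp
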