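import Cfsg.Agent.Lib.Symp.MaxPair

/-!
# Subfield subgroups are maximal in `Sp`
-/

namespace Cfsg.Lib.Symp

open Matrix Module Cfsg.Geo Cfsg.Lib.Asch Cfsg.Lib.Linear
open scoped MatrixGroups

variable {ι : Type} [Fintype ι] [DecidableEq ι] {F : Type*} [Field F] {F₀ : Subfield F}
  {f : (ι → F) → (ι → F) → F} {M : Subgroup (GL ι F)}

theorem Ei.conj_div (h : Alt f) {u z x y : ι → F} {c d : F} (he : Ei M f u z c)
    (he' : Ei M f x y d) (h1 : f u x = 0) (h2 : f u y = 0) :
    Ei M f u (f z x • y + (f z y + d * f z x) • x)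
      (-(2 * f z x * f z y + d * f z x ^ 2)) := by
  obtain ⟨k, hk, hki, hk'⟩ := he'.exists_iso h
  have e1 := he.conj hk hki
  rw [hk' u, h1, h2, zero_smul, mul_zero, add_zero, add_zero, zero_smul, add_zero, hk'] at e1
  convert e1.div h he using 1
  · abel
  · simp only [h.add_right, h.smul_right', h.alt]
    ring

/-- A rational vector as a vector over the big field. -/
def cv (x : ι → F₀) : ι → F := fun i => x i

omit [Fintype ι] [DecidableEq ι] in
@[simp] theorem cv_add (x y : ι → F₀) : cv (x + y) = cv x + cv y := rfl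

omit [Fintype ι] [DecidableEq ι] in
@[simp] theorem cv_neg (x : ι → F₀) : cv (-x) = -cv x := rfl

omit [Fintype ι] [DecidableEq ι] in
@[simp] theorem cv_sub (x y : ι → F₀) : cv (x - y) = cv x - cv y := rfl

omit [Fintype ι] [DecidableEq ι] in
@[simp] theorem cv_zero : cv (0 : ι → F₀) = 0 := rfl

omit [Fintype ι] [DecidableEq ι] in
@[simp] theorem cv_smul (c : F₀) (x : ι → F₀) : cv (c • x) = (c : F) • cv x := rfl

omit [Fintype ι] in
theorem cv_single (i : ι) : cv (Pi.single i (1 : F₀)) = Pi.single i 1 := by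
  ext j
  simp [cv, Pi.single_apply, apply_ite]

theorem map_mulVec_cv (k : GL ι F₀) (x : ι → F₀) :
    (GeneralLinearGroup.map F₀.subtype k).1 *ᵥ cv x = cv (k.1 *ᵥ x) := by
  ext i
  exact (RingHom.map_mulVec F₀.subtype k.1 x i).symm

/-- A rational structure for an alternating form. -/
structure RatAlt (f : (ι → F) → (ι → F) → F) (f₀ : (ι → F₀) → (ι → F₀) → F₀) : Prop
    extends Alt f where
  coe : ∀ x y, f (cv x) (cv y) = f₀ x y

theorem Alt.eq_zero_of_single (h : Alt f) {v : ι → F} (hv : ∀ i, f (Pi.single i 1) v = 0) :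
    v = 0 := h.nondeg v fun x => by
  rw [← Finset.univ_sum_single x, h.sum_left]
  refine Finset.sum_eq_zero fun i _ => ?_
  rw [← mul_one (x i), ← smul_eq_mul, Pi.single_smul, h.smul_left, hv, mul_zero]

namespace RatAlt

variable {f₀ : (ι → F₀) → (ι → F₀) → F₀}

theorem alt₀ (h : RatAlt f f₀) : Alt f₀ where
  add_left x y v := Subtype.ext (by simp [← h.coe, h.add_left])
  smul_left c x v := Subtype.ext (by simp [← h.coe, h.smul_left])
  herm u v := Subtype.ext (by simp [← h.coe, ← h.skew])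
  nondeg v hv := funext fun j => Subtype.ext (congrFun (h.eq_zero_of_single (v := cv v) fun i => by
    rw [← cv_single, h.coe, hv]; rfl) j)
  invol _ := rfl
  eps := by simp
  alt x := Subtype.ext (by simp [← h.coe, h.alt])

theorem map_mem_iso (h : RatAlt f f₀) {k : GL ι F₀} (hk : k ∈ iso f₀) :
    GeneralLinearGroup.map F₀.subtype k ∈ iso f := by
  have : h.bilin.comp (toLin' (GeneralLinearGroup.map F₀.subtype k).1)
      (toLin' (GeneralLinearGroup.map F₀.subtype k).1) = h.bilin :=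
    LinearMap.BilinForm.ext_basis (Pi.basisFun F ι) fun i j => by
      simp only [LinearMap.BilinForm.comp_apply, toLin'_apply, Pi.basisFun_apply, Alt.bilin_apply,
        ← cv_single (F₀ := F₀), map_mulVec_cv, h.coe]
      rw [hk]
  exact fun u v => LinearMap.congr_fun₂ this u v

theorem exists_coord (h : RatAlt f f₀) (i : ι) : ∃ y : ι → F₀, ∀ x, f (cv y) x = x i := by
  obtain ⟨y, hy⟩ := exists_form_eq h.alt₀.toSForm (Pi.single i (-1))
  have : h.bilin (cv y) = LinearMap.proj i := (Pi.basisFun F ι).ext fun j => by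
    simp only [Pi.basisFun_apply, Alt.bilin_apply, ← cv_single (F₀ := F₀), h.coe, h.alt₀.skew y, hy]
    simp [cv, Pi.single_apply, apply_ite, eq_comm]
  exact ⟨y, fun x => LinearMap.congr_fun this x⟩

variable (hM : ((GeneralLinearGroup.map F₀.subtype).range ⊔ scalars ι F) ⊓ iso f ≤ M)
include hM

theorem exists_pair (h : RatAlt f f₀) {u x u' x' : ι → F₀} (h1 : LinearIndependent F₀ ![u, x])
    (h2 : LinearIndependent F₀ ![u', x']) (h3 : f₀ u x = f₀ u' x') :
    ∃ k ∈ M, k ∈ iso f ∧ k.1 *ᵥ cv u = cv u' ∧ k.1 *ᵥ cv x = cv x' := by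
  obtain ⟨k, hk, hk'⟩ := h.alt₀.exists_iso_of_family _ _ h1 h2 fun i j => by
    fin_cases i <;> fin_cases j <;> simp [h.alt₀.alt, h3, h.alt₀.skew x, h.alt₀.skew x']
  exact ⟨_, hM ⟨Subgroup.mem_sup_left ⟨k, rfl⟩, h.map_mem_iso hk⟩, h.map_mem_iso hk,
    by rw [map_mulVec_cv]; exact congrArg cv (hk' 0), by rw [map_mulVec_cv]; exact congrArg cv (hk' 1)⟩

theorem ei (h : RatAlt f f₀) {u z : ι → F₀} (hz : f₀ z u = 0) (c : F₀) :
    Ei M f (cv u) (cv z) c := by
  obtain ⟨-, k, hk, hk'⟩ := Ei.iso h.alt₀ hz c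
  refine Ei.of_forall h.toAlt (by rw [h.coe, hz]; rfl) fun g hg hg' => ?_
  have : g = GeneralLinearGroup.map F₀.subtype k := Units.ext (toLin'.injective
    ((Pi.basisFun F ι).ext fun j => by
      simp only [Pi.basisFun_apply, toLin'_apply, ← cv_single (F₀ := F₀), map_mulVec_cv, hg', hk',
        h.coe, cv_add, cv_smul]
      simp))
  exact hM ⟨Subgroup.mem_sup_left ⟨k, this.symm⟩, hg⟩

/-- From an element of the unipotent radical at a rational point to a short root element. -/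
theorem ei_of_ei (h : RatAlt f f₀) {u x x' y : ι → F₀} {z : ι → F} {c : F}
    (he : Ei M f (cv u) z c) (h1 : f₀ u x = 0) (h2 : f₀ u x' = 0) (h3 : f₀ u y = 0)
    (h4 : f₀ x y = 0) (h5 : f₀ y x' = 0) (h6 : f₀ x x' = 1) :
    Ei M f (cv u) (f z (cv x) • cv y) 0 := by
  have e1 := he.conj_div h.toAlt (h.ei hM (h.alt₀.zero_left x) 1) (by simp [h.coe, h1])
    (h.zero_right _)
  simpa [h.coe, h4, h6, h.smul_left, h.zero_right] using
    e1.conj_div h.toAlt (h.ei hM h5 0) (by simp [h.coe, h2]) (by simp [h.coe, h3])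

end RatAlt

theorem Alt.linearIndependent_pair (h : Alt f) {x y x' y' : ι → F} (h1 : f x x' ≠ 0)
    (h2 : f y x' = 0) (h3 : f y y' ≠ 0) : LinearIndependent F ![x, y] := by
  rw [LinearIndependent.pair_iff]
  intro s t hst
  have h4 : s = 0 := by
    simpa [h.add_left, h.smul_left, h.zero_left, h1, h2] using congrArg (f · x') hst
  simpa [h4, h.smul_left, h.zero_left, h3] using congrArg (f · y') hst

theorem Alt.exists_triple (h : Alt f) (h6 : 5 ≤ Fintype.card ι) : ∃ e e' : Fin 3 → ι → F,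
    (∀ i j, f (e i) (e' j) = if i = j then 1 else 0) ∧ (∀ i j, f (e i) (e j) = 0) ∧
      ∀ i j, f (e' i) (e' j) = 0 := by
  obtain ⟨m, b, h1, h2, h3⟩ := exists_symplectic_basis h.isAlt h.nondegenerate
  have h4 := finrank_eq_card_basis b
  simp only [finrank_fintype_fun_eq_card, Fintype.card_sum, Fintype.card_fin] at h4
  have hm : 3 ≤ m := by omega
  exact ⟨fun i => b (Sum.inl (Fin.castLE hm i)), fun i => b (Sum.inr (Fin.castLE hm i)),
    fun i j => by simpa using h1 (Fin.castLE hm i) (Fin.castLE hm j), fun i j => h2 _ _,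
    fun i j => h3 _ _⟩

theorem RatAlt.iso_le [Finite F] {f₀ : (ι → F₀) → (ι → F₀) → F₀} (h : RatAlt f f₀)
    (h5 : 5 ≤ Fintype.card ι) (hr : (finrank F₀ F).Prime)
    (hM : ((GeneralLinearGroup.map F₀.subtype).range ⊔ scalars ι F) ⊓ iso f ≤ M) (hMi : M ≤ iso f)
    {g : GL ι F} (hg : g ∈ M)
    (hgH : g ∉ (GeneralLinearGroup.map F₀.subtype).range ⊔ scalars ι F) : iso f ≤ M := by
  have h₀ := h.alt₀
  obtain ⟨e, e', h1, h2, h3⟩ := h₀.exists_triple h5
  have h1' : ∀ i j, f₀ (e' i) (e j) = if i = j then -1 else 0 := fun i j => by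
    rw [h₀.skew, h1]
    simp [eq_comm, apply_ite]
  have li : ∀ i j, i ≠ j → LinearIndependent F₀ ![e i, e j] := fun i j hij =>
    h₀.linearIndependent_pair (x' := e' i) (y' := e' j) (by simp [h1]) (by simp [h1, hij.symm])
      (by simp [h1])
  have trans : ∀ {b : F} {u x u' x' : ι → F₀}, LinearIndependent F₀ ![u, x] → f₀ u x = 0 →
      Ei M f (cv u) (b • cv x) 0 → LinearIndependent F₀ ![u', x'] → f₀ u' x' = 0 →
      Ei M f (cv u') (b • cv x') 0 := fun l1 o1 he l2 o2 => by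
    obtain ⟨k, hk, hki, k1, k2⟩ := h.exists_pair hM l1 l2 (o1.trans o2.symm)
    simpa only [mulVec_smul, k1, k2] using he.conj hk hki
  let R : Subalgebra F₀ F :=
    { carrier := {b | Ei M f (cv (e 0)) (b • cv (e 1)) 0}
      add_mem' := fun ha hb => by
        simpa [add_smul, h.smul_left, h.smul_right', h.alt] using Ei.mul h.toAlt ha hb
      mul_mem' := fun {a b} ha hb => by
        have e1 := trans (li 0 1 (by simp)) (h2 _ _) ha (li 0 2 (by simp)) (h2 _ _)
        have e2 := trans (li 0 1 (by simp)) (h2 _ _) hb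
          (h₀.linearIndependent_pair (x := e' 2) (y := e 1) (x' := e 2) (y' := e' 1)
            (by simp [h1']) (h2 _ _) (by simp [h1])) (by simp [h1'])
        simpa [h.coe, h.smul_right', h.smul_left, h1, h2, smul_smul] using
          e1.conj_div h.toAlt e2 (by simp [h.coe, h1]) (by simp [h.coe, h2, h.smul_right'])
      algebraMap_mem' := fun c =>
        h.ei hM (u := e 0) (z := c • e 1) (by simp [h₀.smul_left, h2]) 0 }
  rcases (Subalgebra.isSimpleOrder_of_finrank_prime F₀ F hr).eq_bot_or_eq_top R with hR | hR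
  swap
  · have hR' : ∀ (b : F) (u x : ι → F₀), LinearIndependent F₀ ![u, x] → f₀ u x = 0 →
        Ei M f (cv u) (b • cv x) 0 := fun b u x =>
      trans (li 0 1 (by simp)) (h2 _ _) (hR ▸ Algebra.mem_top : b ∈ R)
    have l01 : LinearIndependent F₀ ![e 0, e' 1] :=
      h₀.linearIndependent_pair (x' := e' 0) (y' := e 1) (by simp [h1]) (h3 _ _) (by simp [h1'])
    have hL0 : Lr M f (cv (e 0)) := fun c => by
      by_cases hc : ringChar F = 2
      · obtain ⟨b, rfl⟩ := FiniteField.isSquare_of_char_two hc c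
        obtain ⟨k, hk, hki, hk'⟩ := (hR' b _ _ l01 (by simp [h1])).exists_iso h.toAlt
        have e1 := h.ei hM (h₀.zero_left (e 1)) 1
        have e2 := e1.conj hk hki
        rw [cv_zero, mulVec_zero, show k.1 *ᵥ cv (e 1) = b • cv (e 0) + cv (e 1) by
          simp [hk', h.smul_right', h.coe, h1, h2, add_comm]] at e2
        have e3 := (Ei.of_add h.toAlt (u := b • cv (e 0)) (by simp [h.smul_right', h.coe, h2])
          e2 e1).of_smul h.toAlt (by simp [h.coe, h2])
        simpa [h.smul_left, h.smul_right', h.alt, sq] using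
          e3.div h.toAlt (hR' b _ _ (li 0 1 (by simp)) (h2 _ _))
      · have h20 : (2 : F) ≠ 0 := Ring.two_ne_zero hc
        have e1 := hR' (c / 2) _ _ (li 0 1 (by simp)) (h2 _ _)
        have e2 := hR' 1 _ _ l01 (by simp [h1])
        convert (e2.mul h.toAlt e1).div h.toAlt (e1.mul h.toAlt e2) using 1
        · abel
        · simp [h.smul_left, h.smul_right', h.add_left, h.add_right, h.alt, h.coe, h1, h1']
          field_simp
          norm_num
    have hL : ∀ u : ι → F₀, Lr M f (cv u) := fun u => by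
      by_cases hu : u = 0
      · rw [hu]
        exact Lr.zero h.toAlt
      obtain ⟨x, hx⟩ := exists_form_ne_zero h₀.toSForm hu
      rw [Ne, h₀.map_eq_zero] at hx
      obtain ⟨k, hk, hki, k1, -⟩ := h.exists_pair hM (u := e 0) (x := f₀ u x • e' 0) (u' := u)
        (x' := x) (linearIndependent_pair_of_ne_zero h₀.isAlt (by
          simpa [h₀.smul_right', h1] using hx))
        (linearIndependent_pair_of_ne_zero h₀.isAlt hx)
        (by simp [h₀.smul_right', h1])
      exact k1 ▸ hL0.conj hk hki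
    obtain ⟨a, ha⟩ : ∃ a, a ∉ F₀ := by
      by_contra! hc
      have : finrank F₀ F = 1 :=
        Subalgebra.bot_eq_top_iff_finrank_eq_one.1 (top_le_iff.1 fun x _ => ⟨⟨x, hc x⟩, rfl⟩)
      exact Nat.not_prime_one (this ▸ hr)
    have h00 : f (cv (e 0)) (cv (e' 0)) ≠ 0 := by simp [h.coe, h1]
    obtain ⟨X, hX, hXL, hX'⟩ := exists_max_lr h.toAlt (big_span_pair
      ⟨a, fun h0 => ha (h0 ▸ F₀.zero_mem), fun h0 => ha (h0 ▸ F₀.one_mem)⟩ h00)
      ((hL _).of_mem_span_pair h.toAlt (hL _) h00)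
    have hXe : cv (e 0) ∈ X := hX (Submodule.subset_span (by simp))
    have hXe' : cv (e' 0) ∈ X := hX (Submodule.subset_span (by simp))
    have hall : ∀ x : ι → F₀, cv x ∈ X := fun x => (hX' _ (hL x)).elim id fun h4 => by
      rcases hX' _ (hL (x + e' 0)) with h6 | h6
      · simpa using X.sub_mem h6 hXe'
      · exact absurd (by simpa [h.add_right, h4 _ hXe] using h6 _ hXe) h00
    refine h.toAlt.iso_le fun x => hXL x ?_
    rw [← Finset.univ_sum_single x]
    refine X.sum_mem fun i _ => ?_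
    rw [← mul_one (x i), ← smul_eq_mul, Pi.single_smul, ← cv_single (F₀ := F₀)]
    exact X.smul_mem _ (hall _)
  have hR' : ∀ (b : F) (i : Fin 3), i ≠ 0 → Ei M f (cv (e 0)) (b • cv (e i)) 0 → b ∈ F₀ := by
    intro b i hi hb
    have : b ∈ R := trans (li 0 i hi.symm) (h2 _ _) hb (li 0 1 (by simp)) (h2 _ _)
    rw [hR, Algebra.mem_bot] at this
    obtain ⟨c, rfl⟩ := this
    exact c.2
  have claim : ∀ v, Ei M f v 0 1 → f (cv (e 0)) v ≠ 0 → f (cv (e 1)) v ≠ 0 →
      f (cv (e 0)) v / f (cv (e 1)) v ∈ F₀ := by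
    intro v hv a0 a1
    have sw : ∀ i, f (cv (e i)) v ≠ 0 → ∃ w ∈ M, ∃ γ : F, γ ≠ 0 ∧ w.1 *ᵥ v = γ • cv (e i) ∧
        ∀ x, f x v = 0 → f x (cv (e i)) = 0 → w.1 *ᵥ x = x := fun i hi => by
      obtain ⟨w, hw, γ, hγ, h4, h6, -⟩ := ((h.ei hM (h₀.zero_left (e i)) 1).tv h.toAlt).exists_swap
        (hv.tv h.toAlt) (by simpa [dv_dot h.toSForm] using hi)
        (by simpa [dv_dot h.toSForm, h.skew v] using hi)
      exact ⟨w, hw, γ, hγ, h4, fun x h7 h8 => h6 x (by simp [dv_dot h.toSForm, h7])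
        (by simp [dv_dot h.toSForm, h8])⟩
    obtain ⟨w, hw, γ, hγ, hwv, hfix⟩ := sw 0 a0
    obtain ⟨w', hw', γ', hγ', hwv', hfix'⟩ := sw 1 a1
    have hk := M.mul_mem hw (M.inv_mem hw')
    have k1 : (w * w'⁻¹).1 *ᵥ cv (e 1) = (γ'⁻¹ * γ) • cv (e 0) := by
      rw [GL_mul_mulVec, ← inv_smul_smul₀ hγ' (cv (e 1)), ← hwv', mulVec_smul,
        GL_inv_mulVec_mulVec, mulVec_smul, hwv, smul_smul]
    have key : ∀ i, Ei M f (cv (e 0)) ((γ'⁻¹ * γ) • (cv (e i) -
        (f (cv (e i)) v / f (cv (e 1)) v) • cv (e 1) +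
        (f (cv (e i)) v / f (cv (e 1)) v * (γ'⁻¹ * γ)) • cv (e 0))) 0 := fun i => by
      have e1 := (h.ei hM (h2 i 1) 0).conj hk (hMi hk)
      set z := cv (e i) - (f (cv (e i)) v / f (cv (e 1)) v) • cv (e 1) with hz
      have hz1 : f z v = 0 := by rw [hz, h.sub_left, h.smul_left, div_mul_cancel₀ _ a1, sub_self]
      have hz2 : ∀ j, f z (cv (e j)) = 0 := fun j => by
        simp [hz, h.sub_left, h.smul_left, h.coe, h2]
      have k2 : (w * w'⁻¹).1 *ᵥ z = z := by
        rw [GL_mul_mulVec, ← hfix' z hz1 (hz2 1), GL_inv_mulVec_mulVec, hfix' z hz1 (hz2 1),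
          hfix z hz1 (hz2 0)]
      rw [k1, eq_add_of_sub_eq hz.symm, mulVec_add, k2, mulVec_smul, k1, smul_smul] at e1
      simpa using e1.of_smul h.toAlt (by simp [h.add_left, h.smul_left, hz2, h.alt])
    have b1 := hR' _ 2 (by simp) (h.ei_of_ei hM (key 0) (x := e' 1) (x' := -e 1) (y := e 2)
      (by simp [h1]) (by simp [h₀.neg_right, h2]) (h2 _ _) (by simp [h1'])
      (by simp [h₀.neg_right, h2]) (by simp [h₀.neg_right, h1']))
    have b2 := hR' _ 1 (by simp) (h.ei_of_ei hM (key 2) (x := e' 2) (x' := -e 2) (y := e 1)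
      (by simp [h1]) (by simp [h₀.neg_right, h2]) (h2 _ _) (by simp [h1'])
      (by simp [h₀.neg_right, h2]) (by simp [h₀.neg_right, h1']))
    simp only [h.smul_left, h.add_left, h.sub_left, h.coe, h1] at b1 b2
    have hκ : γ'⁻¹ * γ ≠ 0 := mul_ne_zero (inv_ne_zero hγ') hγ
    simp at b1 b2
    have := F₀.div_mem b1 b2
    rwa [mul_div_cancel_left₀ _ hκ] at this
  refine absurd (mem_subfieldGL_of_forall fun u hu i j => ?_) hgH
  have hv : Ei M f (g.1 *ᵥ u) 0 1 := by
    have := (h.ei hM (h₀.zero_left fun i => ⟨u i, hu i⟩) 1).conj hg (hMi hg)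
    rwa [cv_zero, mulVec_zero] at this
  generalize g.1 *ᵥ u = v at hv
  have orth : ∀ x y : ι → F₀, f₀ x y = 0 → f (cv y) v ≠ 0 → f (cv x) v / f (cv y) v ∈ F₀ := by
    intro x y hxy hy
    by_cases hx : f (cv x) v = 0
    · rw [hx, zero_div]
      exact F₀.zero_mem
    by_cases hl : LinearIndependent F₀ ![y, x]
    · obtain ⟨k, hk, hki, k1, k2⟩ := h.exists_pair hM (LinearIndependent.pair_symm_iff.1 hl)
        (li 0 1 (by simp)) (hxy.trans (h2 _ _).symm)
      have := claim (k.1 *ᵥ v) (by simpa using hv.conj hk hki) (by rwa [← k1, hki])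
        (by rwa [← k2, hki])
      rwa [← k1, ← k2, hki, hki] at this
    · rw [LinearIndependent.pair_iff' fun h0 => hy (by rw [h0, cv_zero, h.zero_left])] at hl
      push Not at hl
      obtain ⟨a, rfl⟩ := hl
      rw [cv_smul, h.smul_left, mul_div_cancel_right₀ _ hy]
      exact a.2
  obtain ⟨x, hx⟩ := h.exists_coord i
  obtain ⟨y, hy⟩ := h.exists_coord j
  rw [← hx v, ← hy v]
  by_cases hyv : f (cv y) v = 0
  · rw [hyv, div_zero]
    exact F₀.zero_mem
  obtain ⟨y', y1, y2, y3⟩ : ∃ y', f₀ y' y = 0 ∧ y ∉ Submodule.span F₀ {y'} ∧ f (cv y') v ≠ 0 := by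
    have d1 := card_le_finrank_dotKer (dv (RingHom.id F₀) f₀ y)
    have d2 := finrank_span_singleton_le (F := F₀) y
    obtain ⟨w, hw, hw'⟩ := exists_mem_notMem_of_finrank_lt (W := dotKer (dv (RingHom.id F₀) f₀ y))
      (U := Submodule.span F₀ {y}) (by omega)
    rw [mem_dotKer, dv_dot h₀.toSForm] at hw
    have hy0 : y ≠ 0 := fun h0 => hyv (by rw [h0, cv_zero, h.zero_left])
    have aux : ∀ c : F₀, y ∉ Submodule.span F₀ {w + c • y} := fun c hm => by
      obtain ⟨d, hd⟩ := Submodule.mem_span_singleton.1 hm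
      have hd0 : d ≠ 0 := fun h0 => hy0 (by rw [← hd, h0, zero_smul])
      refine hw' (Submodule.mem_span_singleton.2 ⟨d⁻¹ - c, ?_⟩)
      rw [sub_smul, sub_eq_iff_eq_add, inv_smul_eq_iff₀ hd0, hd]
    by_cases hwv : f (cv w) v = 0
    · exact ⟨w + (1 : F₀) • y, by simp [h₀.add_left, hw, h₀.alt], aux 1,
        by simpa [h.add_left, hwv] using hyv⟩
    · exact ⟨w, hw, by simpa using aux 0, hwv⟩
  obtain ⟨t, t1, t2⟩ := exists_form_of_notMem h₀.toSForm y2 (f₀ y x)
  have t3 := t1 y' (Submodule.mem_span_singleton_self y')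
  have a1 := orth (x - t) y (by rw [h₀.map_eq_zero, h₀.sub_right, t2, sub_self]) hyv
  have a2 := F₀.mul_mem (orth t y' (h₀.map_eq_zero.1 t3) y3) (orth y' y y1 hyv)
  rw [div_mul_div_cancel₀ y3] at a2
  convert F₀.add_mem a1 a2 using 1
  rw [cv_sub, h.sub_left]
  ring

theorem isMaximalIn_subfield [Finite F] (h : Alt f) (h5 : 5 ≤ Fintype.card ι)
    (hr : (finrank F₀ F).Prime) {P : GL ι F} {ζ : F} (hζ : ζ ≠ 0)
    (hP : IsFormRationalStructure f F₀ ζ P) :
    IsMaximalIn (iso f) (subfieldSubgroup F₀ P ⊓ iso f) := by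
  let f' : (ι → F) → (ι → F) → F := fun x y => ζ * f (P.1 *ᵥ x) (P.1 *ᵥ y)
  have h' : RatAlt f' fun x y => ⟨_, hP (cv x) (cv y) (fun i => (x i).2) fun i => (y i).2⟩ :=
    { add_left := fun x y v => by simp [f', mulVec_add, h.add_left, mul_add]
      smul_left := fun c x v => by simp [f', mulVec_smul, h.smul_left, mul_left_comm]
      herm := fun u v => by simp [f', h.skew (P.1 *ᵥ u)]
      nondeg := fun v hv => GL_mulVec_injective P (by
        simpa using h.nondeg (P.1 *ᵥ v) fun x => by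
          simpa [f', hζ, GL_mulVec_inv_mulVec] using hv ((P⁻¹).1 *ᵥ x))
      invol := fun _ => rfl
      eps := by simp
      alt := fun x => by simp [f', h.alt]
      coe := fun _ _ => rfl }
  have h1 : (iso f').map (MulAut.conj P : GL ι F →* GL ι F) = iso f := by
    ext g
    refine Subgroup.mem_map_equiv.trans ⟨fun hg x y => ?_, fun hg x y => ?_⟩
    · simpa [f', hζ, ← GL_mul_mulVec, GL_mulVec_inv_mulVec] using hg ((P⁻¹).1 *ᵥ x) ((P⁻¹).1 *ᵥ y)
    · simp only [f', MulAut.conj_symm_apply, GL_mul_mulVec, GL_mulVec_inv_mulVec]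
      rw [hg]
  have h2 := isMaximalIn_map (MulAut.conj P) (isMaximalIn_inf (K := iso f') (fun hle => ?_)
    fun M hM hMi g hg hgH => h'.iso_le h5 hr hM hMi hg hgH)
  · rwa [Subgroup.map_inf _ _ _ (MulAut.conj P).injective, h1] at h2
  obtain ⟨b, hb⟩ : ∃ b, b ∉ F₀ := by
    by_contra! hc
    have : finrank F₀ F = 1 :=
      Subalgebra.bot_eq_top_iff_finrank_eq_one.1 (top_le_iff.1 fun x _ => ⟨⟨x, hc x⟩, rfl⟩)
    exact Nat.not_prime_one (this ▸ hr)
  obtain ⟨i, j, hij⟩ := Fintype.exists_pair_of_one_lt_card (α := ι) (by omega)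
  obtain ⟨y, hy⟩ := h'.exists_coord i
  obtain ⟨g, hg, hg'⟩ := h'.exists_st (cv y) b
  obtain ⟨_, ⟨x, rfl⟩, _, ⟨c, rfl⟩, h2⟩ := Subgroup.mem_sup_of_normal_right.1 (hle hg)
  have h3 : ∀ z : ι → F₀, (c : F) • cv (x.1 *ᵥ z) = cv z - (b * z i) • cv y := fun z => by
    have := hg' (cv z)
    have h4 : ∀ s : GL ι F, s.1 = scalar ι (c : F) → s.1 *ᵥ cv z = (c : F) • cv z := fun s hs => by
      ext l
      simp [hs, mulVec_diagonal]
    rw [← h2, GL_mul_mulVec, h4 _ rfl, mulVec_smul, map_mulVec_cv, h'.skew, hy] at this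
    rw [this, mul_neg, neg_smul, sub_eq_add_neg]
    rfl
  have hc : (c : F) ∈ F₀ := by
    have h4 := congrFun (h3 (Pi.single j 1)) j
    simp [cv, hij] at h4
    rw [eq_inv_of_mul_eq_one_left h4]
    exact F₀.inv_mem (x.1 j j).2
  obtain ⟨l, hl⟩ : ∃ l, y l ≠ 0 := Function.ne_iff.1 fun h0 : y = 0 => by
    simpa [h0, h'.zero_left] using hy (Pi.single i 1)
  have h4 := congrFun (h3 (Pi.single i 1)) l
  simp only [cv, Pi.single_eq_same, OneMemClass.coe_one, mul_one, Pi.smul_apply, smul_eq_mul,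
    Pi.sub_apply] at h4
  have h6 : b = ((Pi.single i 1 : ι → F₀) l - c * (x.1 *ᵥ Pi.single i 1) l) / y l := by
    rw [eq_div_iff (by simpa using hl), h4]
    ring
  exact hb (h6 ▸ F₀.div_mem (F₀.sub_mem (Subtype.prop _) (F₀.mul_mem hc (Subtype.prop _)))
    (Subtype.prop _))

end Cfsg.Lib.Symp
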