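import Cfsg.Agent.Lib.Linear.RegCyc
import Cfsg.Agent.Lib.Symp.MaxBase

/-!
# Symplectic groups are generated by three conjugate regular unipotent elements: the general case
-/

namespace Cfsg.Lib.Symp

open Matrix Module Cfsg.Geo Cfsg.Lib.Asch Cfsg.Lib.Linear
open scoped MatrixGroups

variable {ι : Type} [Fintype ι] [DecidableEq ι] {F : Type*} [Field F]
  {f : (ι → F) → (ι → F) → F} {M : Subgroup (GL ι F)} {u g : GL ι F} {x : ι → F} {N : ℕ}

/-- Three conjugates of `u` generate the isometry group. -/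
def Gen3 (f : (ι → F) → (ι → F) → F) (u : GL ι F) : Prop :=
  ∃ g ∈ iso f, ∃ k ∈ iso f, ∀ M : Subgroup (GL ι F), u ∈ M → g * u * g⁻¹ ∈ M → k * u * k⁻¹ ∈ M →
    iso f ≤ M

/-- The coefficients of the transvections with centre `v` in `M`. -/
def eiCoef (h : Alt f) (M : Subgroup (GL ι F)) (v : ι → F) : AddSubgroup F where
  carrier := {c | Ei M f v 0 c}
  zero_mem' := Ei.zero h M v
  add_mem' := fun ha hb => by simpa [h.zero_left] using Ei.mul h ha hb
  neg_mem' := fun ha => by simpa using Ei.inv h ha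

theorem lr_of_mul [Finite F] (h : Alt f) {v : ι → F} {c s : F} (hc : c ≠ 0) (h0 : Ei M f v 0 c)
    (hs : RingGen s) (h1 : ∀ a, Ei M f v 0 a → Ei M f v 0 (s * a)) : Lr M f v := fun a =>
  mem_of_mulStab (A := eiCoef h M v) (hs _ fun a ha => h1 a ha) h0 hc a

theorem Lr.line (h : Alt f) {e y : ι → F} (he : Lr M f e) (hy : Lr M f y) (hye : f y e = 0)
    (h1 : ∀ b : F, ∃ c, Ei M f e (b • y) c) (s t : F) : Lr M f (s • e + t • y) := fun c => by
  have h2 : ∀ b c : F, Ei M f e (b • y) c := fun b c => by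
    obtain ⟨c', hc'⟩ := h1 b
    simpa [h.zero_left] using hc'.mul h (he (c - c'))
  refine Ei.add h (by rw [h.smul_left, h.smul_right', hye]; simp) (Ei.smul h ?_ ?_) (hy.smul h t c)
  · rw [smul_smul, smul_smul]; exact h2 _ _
  · rw [h.smul_left, h.smul_left, hye]; simp

theorem Ei.of_shift_tv (h : Alt f) {e y : ι → F} {a c : F} (hye : f y e = 0)
    (h1 : Ei M f (y + a • e) 0 c) (h2 : Ei M f y 0 c) : Ei M f e ((a * c) • y) (a ^ 2 * c) := by
  rw [add_comm] at h1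
  have := (Ei.of_add h (by rw [h.smul_right', hye, mul_zero]) h1 h2).of_smul h
    (by rw [h.smul_left, hye, mul_zero])
  rwa [smul_smul] at this

theorem Ei.tconj {v : ι → F} {c : F} (he : Ei M f v 0 c) (hg : g ∈ M) (hi : g ∈ Asch.iso f) :
    Ei M f (g.1 *ᵥ v) 0 c := by simpa using he.conj hg hi

/-- The end of the argument: a line of centres of long root groups. -/
theorem finish (h : Alt f) (R : Rg (RingHom.id F) (-1) f u x (N + 2)) (hN : 1 ≤ N) (hu : u ∈ M)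
    (hg : g ∈ iso f) (hw : g * u * g⁻¹ ∈ M) {r : F} (hr : r ≠ 0)
    (hgx : g.1 *ᵥ x = r • chain u x (N + 2))
    (hS : ∀ s t : F, Lr M f (s • chain u x (N + 2) + t • chain u x (N + 1))) : iso f ≤ M := by
  set e₁ := chain u x (N + 2) with he₁
  set e₂ := chain u x (N + 1) with he₂
  have h12 : f e₁ e₂ = 0 := R.perp _ _ (by omega)
  have h21 : f e₂ e₁ = 0 := R.perp _ _ (by omega)
  have hl₁ : Lr M f e₁ := by simpa using hS 1 0
  have ex : ∀ v, v ≠ 0 → ∃ y, Lr M f y ∧ f y v ≠ 0 := fun v hv => by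
    by_contra! hc
    refine hv ((R.conj hg).eq_zero fun k => hc _ ?_)
    rw [hgx]
    exact (hl₁.smul h r).conj (pow_mem hw k) (pow_mem (R.conj hg).mem k)
  have shift : ∀ y, Lr M f y → ∀ a b : F, f y (a • e₁ + b • e₂) ≠ 0 → Lr M f (y + e₁) := by
    intro y hy a b hab
    by_cases h0 : f y e₁ = 0
    · have h1 := hy.add h (hS (a + 1) b) (by
        rwa [add_smul, one_smul, add_right_comm, h.add_right, h0, add_zero])
      have h2 := h1.add_smul h (hS a b) (by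
        rw [h.add_left]
        simpa [h.add_left, h.add_right, h.smul_left, h.smul_right', h12, h21, h.alt] using hab) (-1)
      convert h2 using 1
      module
    · exact hy.add h hl₁ h0
  obtain ⟨x₁, hx₁, hx₁e⟩ := ex e₁ R.ne
  obtain ⟨x₂, hx₂, hx₂s, hx₂₁⟩ : ∃ x₂, Lr M f x₂ ∧ f x₂ (f x₁ e₂ • e₁ + (-f x₁ e₁) • e₂) ≠ 0 ∧
      f x₂ x₁ ≠ 0 := by
    obtain ⟨x₂, hx₂, hx₂s⟩ := ex (f x₁ e₂ • e₁ + (-f x₁ e₁) • e₂) fun h0 =>
      hx₁e (neg_eq_zero.1 (R.li_two (Nat.lt_succ_self (N + 1)) le_rfl ((add_comm _ _).trans h0)).1)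
    by_cases h0 : f x₂ x₁ = 0
    · refine ⟨x₂ + e₁, shift _ hx₂ _ _ hx₂s, ?_, ?_⟩
      · rw [h.add_left]
        simpa [h.add_left, h.add_right, h.smul_left, h.smul_right', h.neg_right, h12, h21, h.alt]
          using hx₂s
      · rwa [h.add_left, h0, zero_add, Ne, h.map_eq_zero]
    · exact ⟨x₂, hx₂, hx₂s, h0⟩
  set y := x₂ + (-(f x₂ e₁ / f x₁ e₁)) • x₁ with hy
  have hyl : Lr M f y := hx₂.add_smul h hx₁ hx₂₁ _
  have hy₁ : f y e₁ = 0 := by rw [hy, h.add_left, h.smul_left]; field_simp; ring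
  have hy₂ : f y e₂ ≠ 0 := fun h0 => hx₂s (by
    rw [hy, h.add_left, h.smul_left] at h0
    rw [h.add_right, h.smul_right', h.smul_right']
    field_simp at h0
    linear_combination -h0)
  have hy₃ : Lr M f (e₁ + y) := add_comm y e₁ ▸ shift y hyl 0 1 (by simpa using hy₂)
  let Z : Submodule F (ι → F) :=
    { carrier := {z | ∀ a c : F, Ei M f e₁ (a • z) c}
      zero_mem' := fun a c => by rw [smul_zero]; exact hl₁ c
      add_mem' := fun {z z'} hz hz' a c => by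
        have := (hz a (c - f (a • z') (a • z))).mul h (hz' a 0)
        rwa [add_zero, sub_add_cancel, ← smul_add] at this
      smul_mem' := fun b z hz a c => by rw [smul_smul]; exact hz _ c }
  refine h.iso_le_of_full (w := e₁) (fun z c hz => ?_) hx₁ hx₁e
  have hz' : z ∈ Z := R.mem_of_perp (Z := Z) (fun z hz a c => by
      have := (hz a c).conj hu R.mem
      rwa [R.fix, mulVec_smul] at this) (fun z hz => by simpa using (hz 1 0).1) (y := y)
    (fun a c => by simpa [h.zero_left] using (Ei.of_add h hy₁ (hy₃ a) (hyl a)).mul h (hl₁ (c - a)))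
    hy₂ hz
  simpa using hz' 1 c

theorem exists_tv_of_comm (h : Alt f) (hu : u ∈ M) {k : GL ι F} (hk : k * u * k⁻¹ ∈ M) {e : ι → F}
    {c : F} (h1 : ∀ y, k.1 *ᵥ (u.1 *ᵥ y) =
      u.1 *ᵥ (k.1 *ᵥ y) + (c * f (u.1 *ᵥ (k.1 *ᵥ y)) e) • e) : Ei M f e 0 c := by
  refine ⟨h.zero_left _, k * u * k⁻¹ * u⁻¹, mul_mem hk (inv_mem hu), fun y => ?_⟩
  obtain ⟨y, rfl⟩ : ∃ y', y = u.1 *ᵥ (k.1 *ᵥ y') :=
    ⟨(k⁻¹).1 *ᵥ ((u⁻¹).1 *ᵥ y), by rw [GL_mulVec_inv_mulVec, GL_mulVec_inv_mulVec]⟩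
  rw [GL_mul_mulVec, GL_mul_mulVec, GL_mul_mulVec, GL_inv_mulVec_mulVec, GL_inv_mulVec_mulVec, h1,
    h.zero_right, smul_zero, add_zero, zero_add]

theorem gen3_odd [Finite F] (h : Alt f) (R : Rg (RingHom.id F) (-1) f u x (N + 2)) (hN : 1 ≤ N)
    (h2 : (2 : F) ≠ 0) (h01 : f x (chain u x 1) = 0) : Gen3 f u := by
  obtain ⟨μ, hμ, hμs, -⟩ := exists_ringGen_sq (F := F)
  set e₁ := chain u x (N + 2) with he₁
  set e₂ := chain u x (N + 1) with he₂
  have h12 : f e₁ e₂ = 0 := R.perp _ _ (by omega)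
  have h21 : f e₂ e₁ = 0 := R.perp _ _ (by omega)
  have u₁ : u.1 *ᵥ e₁ = e₁ := R.fix
  have u₂ : u.1 *ᵥ e₂ = e₂ + e₁ := mulVec_chain _ _ _
  obtain ⟨g, hg, hg'⟩ := h.exists_iso_of_family ![x, chain u x 1] ![e₁, μ • e₂]
    (LinearIndependent.pair_iff.2 fun a b hab =>
      R.li_two (i := 0) one_pos (by omega) (by rwa [chain_zero]))
    (LinearIndependent.pair_iff.2 fun a b hab => by
      rw [smul_smul, add_comm] at hab
      have := R.li_two (Nat.lt_succ_self (N + 1)) le_rfl hab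
      exact ⟨this.2, (mul_eq_zero_iff_right hμ).1 this.1⟩)
    (by
      intro i j
      fin_cases i <;> fin_cases j <;>
        simp [h.alt, h01, h.map_eq_zero.1 h01, h.smul_left, h.smul_right', h12, h21])
  have g₀ : g.1 *ᵥ x = e₁ := hg' 0
  have g₁ : g.1 *ᵥ chain u x 1 = μ • e₂ := hg' 1
  obtain ⟨k, -, hk, hk'⟩ := (Ei.iso h h21 0).exists_iso h
  refine ⟨g, hg, k, hk, fun M hu hw hv => ?_⟩
  have w₁ : (g * u * g⁻¹).1 *ᵥ e₁ = e₁ + μ • e₂ := by
    rw [← g₁, ← g₀, GL_mul_mulVec, GL_mul_mulVec, GL_inv_mulVec_mulVec, ← mulVec_add]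
    simpa using congrArg (g.1 *ᵥ ·) (mulVec_chain u x 0)
  have hwi := (R.conj hg).mem
  have ht : Ei M f e₁ 0 (-2) := exists_tv_of_comm h hu hv fun y => by
    have a₁ : f y e₁ = f (u.1 *ᵥ y) e₁ := by rw [← R.mem y, u₁]
    have a₂ : f y e₂ = f (u.1 *ᵥ y) e₂ + f (u.1 *ᵥ y) e₁ := by rw [← R.mem y, u₂, h.add_right]
    simp only [hk', mulVec_add, mulVec_smul, u₁, u₂, a₁, a₂, h.add_left, h.smul_left, h21, h.alt]
    module
  have hx : f (e₁ + μ • e₂) e₁ = 0 := by simp [h.add_left, h.smul_left, h.alt, h21]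
  have key : ∀ a, Ei M f e₁ 0 a → Ei M f (e₁ + μ • e₂) 0 a ∧
      Ei M f e₁ ((μ * a) • (e₁ + μ • e₂)) (μ ^ 2 * a) ∧
      Ei M f e₁ ((2 * μ * a) • (e₁ + μ • e₂)) ((2 * μ) ^ 2 * a) := fun a ha => by
    have t₀ := w₁ ▸ ha.tconj hw hwi
    have t₁ := t₀.tconj hu R.mem
    have t₂ := t₁.tconj hu R.mem
    simp only [mulVec_add, mulVec_smul, u₁, u₂] at t₁ t₂
    refine ⟨t₀, Ei.of_shift_tv h hx ?_ t₀, Ei.of_shift_tv h hx ?_ t₀⟩
    · convert t₁ using 1; module
    · convert t₂ using 1; module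
  have hl : Lr M f e₁ := lr_of_mul h (neg_ne_zero.2 h2) ht (s := 2 * μ ^ 2)
    (fun S hS => hμs S (subring_mem_of_mul (r := 2) (by simp) h2 hS)) fun a ha => by
      obtain ⟨-, t₁, t₂⟩ := key a ha
      convert t₂.div h (t₁.mul h t₁) using 1
      · module
      · simp only [h.alt, ← add_smul, h.smul_left, h.smul_right']
        ring
  refine finish h R hN hu hg hw one_ne_zero (by rw [one_smul, g₀]) fun s t => ?_
  have := Lr.line h hl (fun a => (key a (hl a)).1) hx (fun b => ⟨_, by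
    have := (key (b / μ) (hl _)).2.1
    rwa [mul_div_cancel₀ _ hμ] at this⟩) (s - t / μ) (t / μ)
  convert this using 1
  rw [smul_add, smul_smul, div_mul_cancel₀ _ hμ]
  module

theorem gen3_even [Finite F] (h : Alt f) (R : Rg (RingHom.id F) (-1) f u x (N + 2)) (hN : 3 ≤ N)
    (h2 : (2 : F) = 0) (h01 : f x (chain u x 1) = 0) (h02 : f x (chain u x 2) = 0)
    (h12' : f (chain u x 1) (chain u x 2) = 0) : Gen3 f u := by
  obtain ⟨μ, hμ, hμs, -⟩ := exists_ringGen_sq (F := F)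
  set e₁ := chain u x (N + 2) with he₁
  set e₂ := chain u x (N + 1) with he₂
  set e₃ := chain u x N with he₃
  have h12 : f e₁ e₂ = 0 := R.perp _ _ (by omega)
  have h21 : f e₂ e₁ = 0 := R.perp _ _ (by omega)
  have h13 : f e₁ e₃ = 0 := R.perp _ _ (by omega)
  have h31 : f e₃ e₁ = 0 := R.perp _ _ (by omega)
  have h23 : f e₂ e₃ = 0 := R.perp _ _ (by omega)
  have h32 : f e₃ e₂ = 0 := R.perp _ _ (by omega)
  have u₁ : u.1 *ᵥ e₁ = e₁ := R.fix
  have u₂ : u.1 *ᵥ e₂ = e₂ + e₁ := mulVec_chain _ _ _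
  have u₃ : u.1 *ᵥ e₃ = e₃ + e₂ := mulVec_chain _ _ _
  have two : ∀ v : ι → F, v + v = 0 := fun v => by rw [← two_smul F v, h2, zero_smul]
  obtain ⟨g, hg, hg'⟩ := h.exists_iso_of_family ![x, chain u x 1, chain u x 2] ![e₁, μ • e₂, μ • e₃]
    (Fintype.linearIndependent_iff.2 fun a ha i => by
      rw [Fin.sum_univ_three] at ha
      have := R.li_three (i := 0) one_pos one_lt_two (by omega) (by rw [chain_zero]; exact ha)
      fin_cases i
      exacts [this.1, this.2.1, this.2.2])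
    (Fintype.linearIndependent_iff.2 fun a ha i => by
      rw [Fin.sum_univ_three] at ha
      have := R.li_three (Nat.lt_succ_self N) (Nat.lt_succ_self (N + 1)) le_rfl
        (a := a 2 * μ) (b := a 1 * μ) (c := a 0) (by
          rw [← ha]; simp only [cons_val_zero, cons_val_one, cons_val]; module)
      fin_cases i
      exacts [this.2.2, (mul_eq_zero_iff_right hμ).1 this.2.1, (mul_eq_zero_iff_right hμ).1 this.1])
    (by
      intro i j
      fin_cases i <;> fin_cases j <;>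
        simp [h.alt, h01, h.map_eq_zero.1 h01, h02, h.map_eq_zero.1 h02, h12', h.map_eq_zero.1 h12',
          h.smul_left, h.smul_right', h12, h21, h13, h31, h23, h32])
  have g₀ : g.1 *ᵥ x = e₁ := hg' 0
  have g₁ : g.1 *ᵥ chain u x 1 = μ • e₂ := hg' 1
  have g₂ : g.1 *ᵥ chain u x 2 = μ • e₃ := hg' 2
  obtain ⟨k, -, hk, hk'⟩ := (Ei.iso h h31 0).exists_iso h
  obtain ⟨l, -, hl, hl'⟩ := (Ei.iso h (h.zero_left e₂) (-1)).exists_iso h
  refine ⟨g, hg, k * l, mul_mem hk hl, fun M hu hw hv => ?_⟩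
  have w₁ : (g * u * g⁻¹).1 *ᵥ e₁ = e₁ + μ • e₂ := by
    rw [← g₁, ← g₀, GL_mul_mulVec, GL_mul_mulVec, GL_inv_mulVec_mulVec, ← mulVec_add]
    simpa using congrArg (g.1 *ᵥ ·) (mulVec_chain u x 0)
  have w₂ : (g * u * g⁻¹).1 *ᵥ (μ • e₂) = μ • e₂ + μ • e₃ := by
    rw [← g₁, ← g₂, GL_mul_mulVec, GL_mul_mulVec, GL_inv_mulVec_mulVec, ← mulVec_add, mulVec_chain]
  have hwi := (R.conj hg).mem
  have ht : Ei M f e₁ 0 1 := exists_tv_of_comm h hu hv fun y => by
    have a₁ : f y e₁ = f (u.1 *ᵥ y) e₁ := by rw [← R.mem y, u₁]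
    have a₂ : f y e₂ = f (u.1 *ᵥ y) e₂ + f (u.1 *ᵥ y) e₁ := by rw [← R.mem y, u₂, h.add_right]
    have a₃ : f y e₃ = f (u.1 *ᵥ y) e₃ + f (u.1 *ᵥ y) e₂ := by rw [← R.mem y, u₃, h.add_right]
    simp only [GL_mul_mulVec, hk', hl', mulVec_add, mulVec_smul, u₁, u₂, u₃, a₁, a₂, a₃, h.add_left,
      h.smul_left, h21, h31, h23, h.alt, h.zero_right, h.zero_left, mulVec_zero, smul_zero]
    module
  have hx : f (e₁ + μ • e₂) e₁ = 0 := by simp [h.add_left, h.smul_left, h.alt, h21]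
  have hz : f (e₁ + μ • e₃) e₁ = 0 := by simp [h.add_left, h.smul_left, h.alt, h31]
  have key : ∀ a, Ei M f e₁ 0 a → Ei M f (e₁ + μ • e₂) 0 a ∧
      Ei M f e₁ ((μ * a) • (e₁ + μ • e₂)) (μ ^ 2 * a) ∧
      Ei M f e₁ ((μ * a) • (e₁ + μ • e₂)) 0 := fun a ha => by
    have t₀ := w₁ ▸ ha.tconj hw hwi
    have t₁ := t₀.tconj hu R.mem
    have s₀ := t₀.tconj hw hwi
    rw [mulVec_add, w₁, w₂, add_assoc, ← add_assoc (μ • e₂), two, zero_add] at s₀
    have s₂ := (s₀.tconj hu R.mem).tconj hu R.mem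
    simp only [mulVec_add, mulVec_smul, u₁, u₂, u₃] at t₁ s₂
    have s₃ : Ei M f e₁ ((μ * a) • (e₁ + μ • e₃)) (μ ^ 2 * a) := Ei.of_shift_tv h hz (by
      convert s₂ using 1
      rw [add_assoc e₃, ← add_assoc e₂, two, zero_add]
      module) s₀
    have s₄ := ((s₃.conj hu R.mem).div h (u₁.symm ▸ s₃)).add_smul h (μ * a)
    simp only [mulVec_add, mulVec_smul, u₁, u₃] at s₄
    refine ⟨t₀, Ei.of_shift_tv h hx ?_ t₀, ?_⟩
    · convert t₁ using 1; module
    · convert s₄ using 1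
      · module
      · simp [h.add_left, h.add_right, h.smul_left, h.smul_right', h.alt, h12, h13, h31, h32, h2]
  have hl : Lr M f e₁ := lr_of_mul h one_ne_zero ht hμs fun a ha => by
    obtain ⟨-, t₁, t₂⟩ := key a ha
    simpa [h.alt] using t₁.div h t₂
  refine finish h R (by omega) hu hg hw one_ne_zero (by rw [one_smul, g₀]) fun s t => ?_
  have := Lr.line h hl (fun a => (key a (hl a)).1) hx (fun b => ⟨_, by
    have := (key (b / μ) (hl _)).2.1
    rwa [mul_div_cancel₀ _ hμ] at this⟩) (s - t / μ) (t / μ)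
  convert this using 1
  rw [smul_add, smul_smul, div_mul_cancel₀ _ hμ]
  module

end Cfsg.Lib.Symp
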