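import Cfsg.Agent.Lib.Symp.RegGenA

/-!
# Symplectic groups are generated by three conjugate regular unipotent elements: conclusion
-/

namespace Cfsg.Lib.Symp

open Matrix Module Cfsg.Geo Cfsg.Lib.Asch Cfsg.Lib.Linear
open scoped MatrixGroups

section four

variable {ι : Type} [Fintype ι] [DecidableEq ι] {F : Type*} [Field F]
  {f : (ι → F) → (ι → F) → F} {M : Subgroup (GL ι F)} {u g : GL ι F} {x : ι → F} {N : ℕ}

theorem Ei.cross (h : Alt f) {a b : ι → F} {p q β : F} (hba : f b a = 0)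
    (h1 : Ei M f (a + β • b) (q • b) p) (h2 : Ei M f a (q • b) p) :
    Ei M f b ((p * β) • a) (p * β ^ 2 + 2 * q * β) := by
  obtain ⟨-, g, hg, hg'⟩ := h1
  obtain ⟨-, k, hk, hk'⟩ := h2.inv h
  have hab := h.map_eq_zero.1 hba
  refine ⟨by rw [h.smul_left, hab, mul_zero], g * k, M.mul_mem hg hk, fun x => ?_⟩
  simp only [GL_mul_mulVec, hg', hk', h.add_left, h.add_right, h.smul_left, h.smul_right', hba, hab,
    h.alt, h.neg_left, h.neg_right]
  module

theorem gen3_four [Finite F] (h : Alt f) (R : Rg (RingHom.id F) (-1) f u x 3) (h2 : (2 : F) = 0)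
    (h3 : ∃ a : F, a ≠ 0 ∧ a ≠ 1) (h01 : f x (chain u x 1) = 0) (h03 : f x (chain u x 3) = 1) :
    Gen3 f u := by
  obtain ⟨μ, hμ, hμs, hμ'⟩ := exists_ringGen_sq (F := F)
  have hμ1 : 1 - μ ≠ 0 := fun h0 => by
    obtain ⟨a, ha, ha1⟩ := h3
    obtain ⟨k, rfl⟩ := hμ' a ha
    exact ha1 (by rw [← sub_eq_zero.1 h0, one_pow])
  have hC : CharP F 2 := CharTwo.of_one_ne_zero_of_two_eq_zero one_ne_zero h2
  set c := μ * (1 - μ) with hcdef
  have hc : c ≠ 0 := mul_ne_zero hμ hμ1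
  obtain ⟨r, hr⟩ := (frobeniusEquiv F 2).surjective c
  change r ^ 2 = c at hr
  have hr0 : r ≠ 0 := fun h0 => hc (by rw [← hr, h0]; simp)
  set e₁ := chain u x 3 with he₁
  set e₂ := chain u x 2 with he₂
  set b := chain u x 1 with hb
  have u₀ : u.1 *ᵥ x = x + b := by simpa using mulVec_chain u x 0
  have u₁ : u.1 *ᵥ e₁ = e₁ := R.fix
  have u₂ : u.1 *ᵥ e₂ = e₂ + e₁ := mulVec_chain _ _ _
  have u₃ : u.1 *ᵥ b = b + e₂ := mulVec_chain _ _ _
  have sym : ∀ v w, f v w = f w v := fun v w => by rw [h.skew, CharTwo.neg_eq]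
  have two : ∀ v : ι → F, v + v = 0 := fun v => by rw [← two_smul F v, h2, zero_smul]
  have h12 : f e₁ e₂ = 0 := R.perp _ _ (by omega)
  have h21 : f e₂ e₁ = 0 := R.perp _ _ (by omega)
  have hb1 : f b e₁ = 0 := R.perp _ _ (by omega)
  have h1b : f e₁ b = 0 := R.perp _ _ (by omega)
  have hb2 : f b e₂ = 1 := by
    have := R.mem x e₂
    rw [u₀, u₂, h.add_left, h.add_right, h.add_right, h03, hb1] at this
    linear_combination this - h2
  have h02 : f x e₂ = 1 := by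
    have := R.mem x b
    rw [u₀, u₃, h.add_left, h.add_right, h.add_right, h.alt, hb2] at this
    linear_combination this - h2
  have h10 := (sym _ _).trans h01
  have h30 := (sym _ _).trans h03
  have h20 := (sym _ _).trans h02
  have h2b := (sym _ _).trans hb2
  obtain ⟨g, hg, hg'⟩ := h.exists_iso_of_family ![x, b, e₂, e₁]
    ![r • e₁, r • e₂, r⁻¹ • (x + (c * μ) • e₂), r⁻¹ • (x + b)]
    (by convert R.li using 1; ext1 i; fin_cases i <;> simp [he₁, he₂, hb])
    (Fintype.linearIndependent_iff.2 fun a ha i => by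
      rw [Fin.sum_univ_four] at ha
      simp only [cons_val_zero, cons_val_one, cons_val] at ha
      have a₁ := congrArg (f · e₁) ha
      have a₂ := congrArg (f · e₂) ha
      simp only [h.add_left, h.smul_left, h.alt, h12, h21, h03, h02, hb1, hb2, h.zero_left] at a₁ a₂
      have a₃ : a 2 = 0 := by
        rw [← mul_eq_zero_iff_right (inv_ne_zero hr0)]
        linear_combination a₂ - a 3 * r⁻¹ * h2
      have a₄ : a 3 = 0 := by
        rw [← mul_eq_zero_iff_right (inv_ne_zero hr0)]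
        linear_combination a₁ - r⁻¹ * a₃
      rw [a₃, a₄, zero_smul, zero_smul, add_zero, add_zero, smul_smul, smul_smul, add_comm] at ha
      have := R.li_two (Nat.lt_succ_self 2) le_rfl ha
      fin_cases i
      exacts [(mul_eq_zero_iff_right hr0).1 this.2, (mul_eq_zero_iff_right hr0).1 this.1, a₃, a₄])
    (by
      intro i j
      fin_cases i <;> fin_cases j <;>
        simp [h.alt, h01, h10, h02, h20, h03, h30, hb1, h1b, hb2, h2b, h12, h21, h.smul_left,
          h.smul_right', h.add_left, h.add_right, hr0, CharTwo.add_self_eq_zero])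
  have g₀ : g.1 *ᵥ x = r • e₁ := hg' 0
  have g₁ : g.1 *ᵥ b = r • e₂ := hg' 1
  have g₂ : g.1 *ᵥ e₂ = r⁻¹ • (x + (c * μ) • e₂) := hg' 2
  have g₃ : g.1 *ᵥ e₁ = r⁻¹ • (x + b) := hg' 3
  obtain ⟨k, -, hk, hk'⟩ := (Ei.iso h (z := μ • b) (u := e₁) (by rw [h.smul_left, hb1, mul_zero])
    0).exists_iso h
  obtain ⟨l, -, hl, hl'⟩ := (Ei.iso h (h.zero_left e₂) μ).exists_iso h
  refine ⟨g, hg, k * l, mul_mem hk hl, fun M hu hw hv => ?_⟩
  have hwi := (R.conj hg).mem
  set w := g * u * g⁻¹ with hwdef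
  have hwg : ∀ v, w.1 *ᵥ (g.1 *ᵥ v) = g.1 *ᵥ (u.1 *ᵥ v) := fun v => by
    rw [hwdef, GL_mul_mulVec, GL_mul_mulVec, GL_inv_mulVec_mulVec]
  have w₁ : w.1 *ᵥ e₁ = e₁ + e₂ := by
    have := hwg x
    rw [u₀, mulVec_add, g₀, g₁, mulVec_smul, ← smul_add] at this
    exact smul_right_injective _ hr0 this
  have w₂ : w.1 *ᵥ e₂ = e₂ + c⁻¹ • (x + (c * μ) • e₂) := by
    have := hwg b
    rw [u₃, mulVec_add, g₁, g₂, mulVec_smul] at this
    refine smul_right_injective _ hr0 (this.trans ?_)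
    beta_reduce
    rw [smul_add r, smul_smul r, ← hr]
    congr 2
    field_simp
  have w₃ : w.1 *ᵥ (x + b) = x + b := by
    have := hwg e₁
    rw [u₁, g₃, mulVec_smul] at this
    exact smul_right_injective _ (inv_ne_zero hr0) this
  have t₁ : Ei M f e₁ 0 c := exists_tv_of_comm h hu hv fun y => by
    have a₁ : f y e₁ = f (u.1 *ᵥ y) e₁ := by rw [← R.mem y, u₁]
    have a₂ : f y e₂ = f (u.1 *ᵥ y) e₂ + f (u.1 *ᵥ y) e₁ := by rw [← R.mem y, u₂, h.add_right]
    have a₃ : f y b = f (u.1 *ᵥ y) b + f (u.1 *ᵥ y) e₂ := by rw [← R.mem y, u₃, h.add_right]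
    simp only [GL_mul_mulVec, hk', hl', mulVec_add, mulVec_smul, u₁, u₂, u₃, a₁, a₂, a₃, h.add_left,
      h.smul_left, h.smul_right', h21, hb1, h2b, h.alt, h.zero_right, h.zero_left, mulVec_zero,
      smul_zero]
    match_scalars <;> grind
  have t₁₂ : Ei M f (e₁ + e₂) 0 c := w₁ ▸ t₁.tconj hw hwi
  have t₂ : Ei M f e₂ 0 c := by
    have := t₁₂.tconj hu R.mem
    rwa [mulVec_add, u₁, u₂, add_comm e₂, ← add_assoc, two, zero_add] at this
  have t₃ : Ei M f (c⁻¹ • (x + (c * μ) • e₂)) 0 c := by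
    obtain ⟨t, ht, hti, ht'⟩ := t₂.exists_iso h
    have := (w₂ ▸ t₂.tconj hw hwi).tconj ht hti
    rw [ht'] at this
    convert this using 1
    simp only [h.add_left, h.smul_left, h.alt, h02, h.zero_right]
    match_scalars <;> grind
  set y := c⁻¹ • (x + b) + μ • e₁ with hy
  have hy₁ : f y e₁ = c⁻¹ := by simp [hy, h.add_left, h.smul_left, h.alt, h03, hb1]
  have hy₂ : f y e₂ = 0 := by
    simp [hy, h.add_left, h.smul_left, h12, h02, hb2, CharTwo.add_self_eq_zero]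
  have t₄ : Ei M f (y + μ • e₂) 0 c := by
    have := t₃.tconj hu R.mem
    simp only [mulVec_add, mulVec_smul, u₀, u₂] at this
    convert this using 1
    rw [hy]
    match_scalars <;> grind
  have t₅ : Ei M f y 0 c := by
    have := t₄.tconj (inv_mem hw) (inv_mem hwi)
    rwa [show y + μ • e₂ = w.1 *ᵥ y by
      rw [hy, mulVec_add, mulVec_smul, mulVec_smul, w₃, w₁]; module, GL_inv_mulVec_mulVec] at this
  have t₆ : Ei M f (y + (1 : F) • e₂) 0 c := by
    obtain ⟨t, ht, hti, ht'⟩ := ((Ei.of_add h h21 t₁₂ t₂).div h t₁).exists_iso h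
    have := t₅.tconj ht hti
    rw [ht'] at this
    convert this using 1
    simp only [sub_zero, h.smul_right', hy₁, hy₂, h.zero_left]
    match_scalars <;> grind
  have step : ∀ β : F, Ei M f (y + β • e₂) 0 c → ∀ p q : F, Ei M f e₁ (q • e₂) p →
      Ei M f e₂ ((p * β) • e₁) (p * β ^ 2) ∧ Ei M f e₁ ((p * β ^ 2) • e₂) (p * β ^ 2) := by
    intro β hβ p q hpq
    obtain ⟨t, ht, hti, ht'⟩ := (Ei.of_shift_tv h hy₂ hβ t₅).exists_iso h
    have a₁ : t.1 *ᵥ e₁ = e₁ + β • e₂ := by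
      rw [ht']
      simp only [h.smul_right', sym e₁ y, hy₁, h12]
      match_scalars <;> grind
    have a₂ : t.1 *ᵥ e₂ = e₂ := by simp [ht', h.smul_right', sym e₂ y, hy₂, h.alt]
    have a₃ := hpq.conj ht hti
    rw [a₁, mulVec_smul, a₂] at a₃
    have a₄ := Ei.cross h h21 a₃ hpq
    rw [h2, zero_mul, zero_mul, add_zero] at a₄
    have a₅ := a₄.conj hu R.mem
    rw [u₂, mulVec_smul, u₁, ← one_smul F e₁, one_smul F e₁] at a₅
    have a₆ := Ei.cross h (β := 1) h12 (by simpa using a₅) a₄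
    exact ⟨a₄, by simpa [h2] using a₆⟩
  let A : AddSubgroup F :=
    { carrier := {p | ∃ q : F, Ei M f e₁ (q • e₂) p}
      zero_mem' := ⟨0, by simpa using Ei.zero h M e₁⟩
      add_mem' := fun ⟨q, hq⟩ ⟨q', hq'⟩ => ⟨q + q', by
        simpa [h.smul_left, h.smul_right', h.alt, add_smul] using hq.mul h hq'⟩
      neg_mem' := fun ⟨q, hq⟩ => ⟨-q, by simpa using hq.inv h⟩ }
  have hA : ∀ p, ∃ q : F, Ei M f e₁ (q • e₂) p :=
    mem_of_mulStab (A := A) (hμs _ fun p ⟨q, hq⟩ => ⟨_, mul_comm p _ ▸ (step μ t₄ p q hq).2⟩)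
      ⟨0, by simpa using t₁⟩ hc
  have s₁ : ∀ p : F, Ei M f e₂ (p • e₁) p := fun p => by
    obtain ⟨q, hq⟩ := hA p
    simpa using (step 1 t₆ p q hq).1
  have s₂ : ∀ q : F, Ei M f e₂ (q • e₁) 0 := fun q => by
    obtain ⟨q', hq⟩ := hA (q / c)
    convert (step μ t₄ _ _ hq).1.div h (s₁ (q / c * μ ^ 2)) using 1
    · rw [← sub_smul]
      congr 1
      field_simp
      rw [hcdef]
      ring
    · simp [h.smul_left, h.smul_right', h.alt]
  have s₃ : ∀ q : F, Ei M f e₁ (q • e₂) 0 := fun q => by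
    simpa using ((s₂ q).symm h).of_smul h h21
  refine finish (N := 1) h R le_rfl hu hg hw hr0 g₀ (Lr.line h (fun p => ?_) (fun p => ?_) h21
    fun q => ⟨0, s₃ q⟩)
  · obtain ⟨q, hq⟩ := hA p
    simpa [h.alt] using hq.div h (s₃ q)
  · simpa [h.alt] using (s₁ p).div h (s₂ p)

end four

variable {F : Type*} [Field F]

theorem sympForm_elim {n : ℕ} (x y x' y' : Fin n → F) :
    sympForm n F (Sum.elim x y) (Sum.elim x' y') = y ⬝ᵥ x' - x ⬝ᵥ y' := by
  rw [sympForm_eq_bil, bil_apply_sum, Finset.sum_sub_distrib]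
  rfl

theorem exists_rg (m : ℕ) (F : Type*) [Field F] :
    ∃ u x, Rg (RingHom.id F) (-1) (sympForm (m + 1) F) u x (2 * m + 1) ∧
    ∀ i ≤ m, ∀ j ≤ m, sympForm (m + 1) F (chain u x i) (chain u x j) = 0 := by
  have h := alt_sympForm (F := F) (m + 1)
  set A : Matrix (Fin (m + 1)) (Fin (m + 1)) F := ((jGL m F)⁻¹).1ᵀ with hA
  have hJA : ∀ y z, ((jGL m F).1 *ᵥ y) ⬝ᵥ (A *ᵥ z) = y ⬝ᵥ z := fun y z => by
    rw [hA, mulVec_transpose, dotProduct_comm, ← dotProduct_mulVec, GL_inv_mulVec_mulVec,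
      dotProduct_comm]
  have hb : ∀ y : Fin (m + 1) → F, bv m F 0 ⬝ᵥ y = y 0 := fun y => bv_dot (Nat.succ_pos m) y
  have hU : ∀ x y, fromBlocks A (A * vecMulVec (bv m F 0) (bv m F 0)) 0 (jGL m F).1 *ᵥ Sum.elim x y =
      Sum.elim (A *ᵥ (x + y 0 • bv m F 0)) ((jGL m F).1 *ᵥ y) := fun x y => by
    rw [fromBlocks_mulVec, Sum.elim_comp_inl, Sum.elim_comp_inr, ← mulVec_mulVec, vecMulVec_mulVec,
      hb, mulVec_add, zero_mulVec, zero_add, op_smul_eq_smul]
  obtain ⟨u, hu, hu'⟩ := h.exists_iso_of_linear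
    (toLin' (fromBlocks A (A * vecMulVec (bv m F 0) (bv m F 0)) 0 (jGL m F).1)) fun v w => by
      rw [← Sum.elim_comp_inl_inr v, ← Sum.elim_comp_inl_inr w, toLin'_apply, toLin'_apply, hU, hU,
        sympForm_elim, sympForm_elim, hJA, dotProduct_comm (A *ᵥ _), hJA, dotProduct_add,
        dotProduct_add, dotProduct_smul, dotProduct_smul, dotProduct_comm _ (bv m F 0),
        dotProduct_comm _ (bv m F 0), hb, hb, dotProduct_comm (w ∘ Sum.inr)]
      simp only [smul_eq_mul]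
      ring
  simp only [toLin'_apply] at hu'
  have hD : ∀ k v, chain u v k ∘ Sum.inr = shM m F ^ k *ᵥ (v ∘ Sum.inr) := fun k v => by
    induction k with
    | zero => simp
    | succ k ih =>
      rw [chain_succ, ← Sum.elim_comp_inl_inr (chain u v k), hu', hU, ih, pow_succ', ← mulVec_mulVec,
        jGL_mulVec]
      ext i
      simp
  have hN : shM m F ^ (m + 1) = 0 := by
    ext i j
    exact (raises_shM.pow (m + 1)) i j (by omega)
  have hW : ∀ v w : Fin (m + 1) ⊕ Fin (m + 1) → F, v ∘ Sum.inr = 0 → w ∘ Sum.inr = 0 →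
      sympForm (m + 1) F v w = 0 := fun v w hv hw => by
    rw [← Sum.elim_comp_inl_inr v, ← Sum.elim_comp_inl_inr w, sympForm_elim, hv, hw]; simp
  have hx : ∀ k ≤ m, chain u (Sum.elim 0 (bv m F m)) k =
      Sum.elim (0 : Fin (m + 1) → F) (bv m F (m - k)) := by
    intro k hk
    induction k with
    | zero => simp
    | succ k ih =>
      rw [chain_succ, ih (by omega), hu', hU, jGL_mulVec, show m - k = m - (k + 1) + 1 by omega,
        shM_bv_succ (by omega)]
      ext (i | i) <;> simp [bv]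
  refine ⟨u, Sum.elim 0 (bv m F m), ⟨h.toSForm, hu, by simp; ring, ?_, fun h0 => ?_⟩,
    fun i hi j hj => by rw [hx i hi, hx j hj, sympForm_elim]; simp⟩
  · refine mat_ext_mulVec fun v => (h.nondeg' _ fun w => ?_).trans (zero_mulVec v).symm
    change sympForm (m + 1) F (chain u v (2 * m + 1 + 1)) w = 0
    rw [show 2 * m + 1 + 1 = m + 1 + (m + 1) by ring, ← chain_chain,
      form_chain_left h.toSForm hu, hW, mul_zero]
    · have : ∀ k v, ((u ^ k).1 *ᵥ chain u v (m + 1)) = chain u ((u ^ k).1 *ᵥ v) (m + 1) := by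
        intro k
        induction k with
        | zero => simp
        | succ k ih => intro v; rw [pow_succ', GL_mul_mulVec, GL_mul_mulVec, ih, chain_mulVec]
      rw [this, hD, hN, zero_mulVec]
    · rw [hD, hN, zero_mulVec]
  · have h1 := form_chain_eq_zero h.toSForm hu (k := m + 1) (y := chain u (Sum.elim 0 (bv m F m)) m)
      (by rw [chain_chain, ← h0]; congr 1; ring) (Sum.elim 0 (bv m F m))
    have h2 := hJA (bv m F 0) (bv m F 0)
    rw [jGL_mulVec, shM_bv_zero, add_zero] at h2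
    rw [chain_succ, hx m le_rfl, hu', hU, h.sub_left, h.alt, sympForm_elim, Nat.sub_self,
      dotProduct_comm (A *ᵥ _)] at h1
    simp [mulVec_smul, h2, hb, bv] at h1

theorem exists_gen3 [Finite F] (m : ℕ) (hm : 1 ≤ m) (h3 : m = 1 → ∃ a : F, a ≠ 0 ∧ a ≠ 1) :
    ∃ u x, Rg (RingHom.id F) (-1) (sympForm (m + 1) F) u x (2 * m + 1) ∧
      Gen3 (sympForm (m + 1) F) u := by
  obtain ⟨u, x, R, hx⟩ := exists_rg m F
  have h := alt_sympForm (F := F) (m + 1)
  refine ⟨u, x, R, ?_⟩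
  obtain ⟨m, rfl⟩ : ∃ k, m = k + 1 := ⟨m - 1, by omega⟩
  have h01 := hx 0 (by omega) 1 (by omega)
  rw [chain_zero] at h01
  by_cases h2 : (2 : F) = 0
  swap
  · exact gen3_odd (N := 2 * m + 1) h R (by omega) h2 h01
  rcases Nat.eq_zero_or_pos m with rfl | hm0
  · have hC : CharP F 2 := CharTwo.of_one_ne_zero_of_two_eq_zero one_ne_zero h2
    obtain ⟨r, hr⟩ := (frobeniusEquiv F 2).surjective (sympForm (0 + 1 + 1) F x (chain u x 3))⁻¹
    change r ^ 2 = _ at hr
    have hr0 : r ≠ 0 := fun h0 => inv_ne_zero R.delta_ne (by rw [← hr, h0]; simp)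
    refine gen3_four h (R.smul hr0) h2 (h3 rfl) ?_ ?_
    · rw [chain_smul, h.smul_left, h.smul_right', h01, mul_zero, mul_zero]
    · rw [chain_smul, h.smul_left, h.smul_right', ← mul_assoc, ← sq, hr]
      exact inv_mul_cancel₀ R.delta_ne
  · exact gen3_even (N := 2 * m + 1) h R (by omega) h2 h01
      (by simpa using hx 0 (by omega) 2 (by omega)) (hx 1 (by omega) 2 (by omega))

theorem exists_sp_gen3 [Finite F] (m : ℕ) (hm : 1 ≤ m) (h3 : m = 1 → ∃ a : F, a ≠ 0 ∧ a ≠ 1) :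
    ∃ u g k : symplecticGroup (Fin (m + 1)) F, IsNilpotent (u.1 - 1) ∧
      (u.1 - 1) ^ (2 * m + 1) ≠ 0 ∧ Subgroup.closure {u, g * u * g⁻¹, k * u * k⁻¹} = ⊤ := by
  obtain ⟨u, x, R, g, hg, k, hk, H⟩ := exists_gen3 m hm h3
  let φ : symplecticGroup (Fin (m + 1)) F →* GL (Fin (m + 1) ⊕ Fin (m + 1)) F :=
    (symplecticGroup (Fin (m + 1)) F).subtype.toHomUnits
  have hφ : ∀ s ∈ iso (sympForm (m + 1) F), ∃ s', φ s' = s := fun s hs =>
    ⟨⟨s.1, mem_iff_bil.2 fun v w => by simpa only [sympForm_eq_bil] using hs v w⟩, Units.ext rfl⟩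
  obtain ⟨u, rfl⟩ := hφ u R.mem
  obtain ⟨g, rfl⟩ := hφ g hg
  obtain ⟨k, rfl⟩ := hφ k hk
  refine ⟨u, g, k, ⟨_, R.nil⟩, fun h0 => R.ne (by
    change (u.1 - 1) ^ (2 * m + 1) *ᵥ x = 0
    rw [h0, zero_mulVec]), eq_top_iff.2 fun s _ => ?_⟩
  have hs := H ((Subgroup.closure {u, g * u * g⁻¹, k * u * k⁻¹}).map φ)
    ⟨u, Subgroup.subset_closure (by simp), rfl⟩
    ⟨g * u * g⁻¹, Subgroup.subset_closure (by simp), by simp⟩
    ⟨k * u * k⁻¹, Subgroup.subset_closure (by simp), by simp⟩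
    (show φ s ∈ iso (sympForm (m + 1) F) from fun v w => by
      simpa only [sympForm_eq_bil] using! bil_mulVec s v w)
  obtain ⟨s', hs', h0⟩ := hs
  rwa [← Subtype.ext (congrArg Units.val h0 : s'.1 = s.1)]

end Cfsg.Lib.Symp
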