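import Cfsg.Agent.Lib.Symp.MaxSubfield

/-!
Irreducible subgroups `L` of `Sp(V)` in characteristic two which contain, for a vector `a`, a map
`E(a; z, c)` for every `z ⊥ a`: the local analysis.
-/

namespace Cfsg.Lib.Symp
open Matrix Module Cfsg.Geo Cfsg.Lib.Asch Cfsg.Lib.Linear
open scoped MatrixGroups

variable {ι : Type} [Fintype ι] [DecidableEq ι] {F : Type*} [Field F]
  {f : (ι → F) → (ι → F) → F} {L : Subgroup (GL ι F)} {a b x y z z' : ι → F} {c c' d : F}

/-- `x` is in the `L`-orbit of `a`. -/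
def InOrb (L : Subgroup (GL ι F)) (a x : ι → F) : Prop := ∃ g ∈ L, g.1 *ᵥ a = x

theorem InOrb.refl (L : Subgroup (GL ι F)) (a : ι → F) : InOrb L a a := ⟨1, L.one_mem, by simp⟩

theorem InOrb.symm (h : InOrb L a x) : InOrb L x a := by
  obtain ⟨g, hg, rfl⟩ := h
  exact ⟨g⁻¹, L.inv_mem hg, GL_inv_mulVec_mulVec g a⟩

theorem InOrb.trans (h : InOrb L a x) (h' : InOrb L x y) : InOrb L a y := by
  obtain ⟨g, hg, rfl⟩ := h
  obtain ⟨k, hk, rfl⟩ := h'
  exact ⟨k * g, L.mul_mem hk hg, GL_mul_mulVec k g a⟩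

theorem InOrb.ei (h : InOrb L a x) {u : ι → F} (he : Ei L f u z c) :
    InOrb L a (x + f x u • z + (f x z + c * f x u) • u) := by
  obtain ⟨-, g, hg, hg'⟩ := he
  exact h.trans ⟨g, hg, hg' x⟩

/-- The hypothesis of the file. -/
structure TT (L : Subgroup (GL ι F)) (f : (ι → F) → (ι → F) → F) (a : ι → F) : Prop where
  alt : Alt f
  two : (2 : F) = 0
  le : L ≤ iso f
  ne : a ≠ 0
  three : 3 ≤ Fintype.card ι
  full : ∀ z, f z a = 0 → ∃ c, Ei L f a z c
  irr : ∀ W : Submodule F (ι → F), (∀ g ∈ L, ∀ w ∈ W, g.1 *ᵥ w ∈ W) → W = ⊥ ∨ W = ⊤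

/-- No transvection with centre `a`. -/
def NoTv (L : Subgroup (GL ι F)) (f : (ι → F) → (ι → F) → F) (a : ι → F) : Prop :=
  ∀ c, Ei L f a 0 c → c = 0

/-- The orbit contains a second point perpendicular to `a`. -/
def Lin (L : Subgroup (GL ι F)) (f : (ι → F) → (ι → F) → F) (a : ι → F) : Prop :=
  ∃ x, InOrb L a x ∧ f x a = 0 ∧ x ∉ F ∙ a

/-- The points of the orbit perpendicular to `a` are singular. -/
def Sg (L : Subgroup (GL ι F)) (f : (ι → F) → (ι → F) → F) (a : ι → F) : Prop :=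
  ∀ x, InOrb L a x → f x a = 0 → ∀ t : F, Ei L f a (t • x) 0

/-- Homogeneity. -/
def Hmg (L : Subgroup (GL ι F)) (f : (ι → F) → (ι → F) → F) (a : ι → F) : Prop :=
  ∀ z c (t : F), Ei L f a z c → Ei L f a (t • z) (t ^ 2 * c)

/-- No third point on a hyperbolic line. -/
def NoThird (L : Subgroup (GL ι F)) (f : (ι → F) → (ι → F) → F) (a : ι → F) : Prop :=
  ∀ b, InOrb L a b → f b a ≠ 0 → ∀ s t : F, InOrb L a (s • a + t • b) → s = 0 ∨ t = 0

theorem mem_span_map {g : GL ι F} (h : g.1 *ᵥ x ∈ F ∙ (g.1 *ᵥ a)) : x ∈ F ∙ a := by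
  obtain ⟨t, ht⟩ := Submodule.mem_span_singleton.1 h
  refine Submodule.mem_span_singleton.2 ⟨t, GL_mulVec_injective g ?_⟩
  simpa [mulVec_smul] using ht

theorem notMem_span_symm (hx : x ∉ F ∙ a) (ha : a ≠ 0) : a ∉ F ∙ x := fun h => by
  obtain ⟨t, rfl⟩ := Submodule.mem_span_singleton.1 h
  have ht : t ≠ 0 := by rintro rfl; simp at ha
  exact hx (Submodule.mem_span_singleton.2 ⟨t⁻¹, by rw [smul_smul, inv_mul_cancel₀ ht, one_smul]⟩)

namespace TT

theorem sym (h : TT L f a) (x y : ι → F) : f x y = f y x := by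
  rw [h.alt.skew]; linear_combination (-f y x) * h.two

theorem add (h : TT L f a) {u : ι → F} (he : Ei L f u z c) (he' : Ei L f u z' c') :
    Ei L f u (z + z') (c + c' + f z z') := by
  rw [h.sym z z']; exact he.mul h.alt he'

theorem shift (h : TT L f a) {u : ι → F} (he : Ei L f u z c) (t : F) : Ei L f u (z + t • u) c := by
  simpa [h.two] using he.add_smul h.alt t

theorem add_self (h : TT L f a) (z : ι → F) : z + z = 0 := by
  rw [← two_smul F, h.two, zero_smul]

theorem diff (h : TT L f a) {u : ι → F} (he : Ei L f u z c) (he' : Ei L f u z c') :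
    Ei L f u 0 (c + c') := by
  simpa [h.add_self, h.alt.alt] using h.add he he'

theorem uniq (h : TT L f a) {u : ι → F} (hA : NoTv L f u) (he : Ei L f u z c)
    (he' : Ei L f u z c') : c = c' := by
  linear_combination hA _ (h.diff he he') - c' * h.two

theorem ei_smul_self (h : TT L f a) (u : ι → F) (t : F) : Ei L f u (t • u) 0 := by
  simpa using h.shift (Ei.zero h.alt L u) t

theorem orb (h : TT L f a) (hx : InOrb L a x) : TT L f x := by
  obtain ⟨g, hg, rfl⟩ := hx
  refine { h with ne := GL_mulVec_ne_zero g h.ne, full := fun z hz => ?_ }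
  obtain ⟨z, rfl⟩ : ∃ z', z = g.1 *ᵥ z' := ⟨_, (GL_mulVec_inv_mulVec _ z).symm⟩
  rw [h.le hg] at hz
  obtain ⟨c, hc⟩ := h.full z hz
  exact ⟨c, hc.conj hg (h.le hg)⟩

theorem noTv (h : TT L f a) (hA : NoTv L f a) (hx : InOrb L a x) : NoTv L f x := fun c hc => by
  obtain ⟨g, hg, rfl⟩ := hx.symm
  simpa using hA c (by simpa using hc.conj hg (h.le hg))

theorem lin (h : TT L f a) (hx : InOrb L a x) (hl : Lin L f x) : Lin L f a := by
  obtain ⟨y, hy, h1, h2⟩ := hl
  obtain ⟨g, hg, rfl⟩ := hx.symm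
  exact ⟨g.1 *ᵥ y, (hx.trans hy).trans ⟨g, hg, rfl⟩, by rw [h.le hg, h1],
    fun e => h2 (mem_span_map e)⟩

theorem sg (h : TT L f a) (hs : Sg L f a) (hx : InOrb L a x) : Sg L f x := fun y hy h1 t => by
  obtain ⟨g, hg, rfl⟩ := hx
  obtain ⟨y, rfl⟩ : ∃ z', y = g.1 *ᵥ z' := ⟨_, (GL_mulVec_inv_mulVec _ y).symm⟩
  rw [h.le hg] at h1
  have := (hs y ((InOrb.trans ⟨g, hg, rfl⟩ hy).trans (InOrb.symm ⟨g, hg, rfl⟩)) h1 t).conj hg
    (h.le hg)
  rwa [mulVec_smul] at this

theorem eq_top (h : TT L f a) {W : Submodule F (ι → F)} (hW : ∀ x, InOrb L a x → x ∈ W) :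
    W = ⊤ := by
  have h1 : Submodule.span F {x | InOrb L a x} ≤ W := Submodule.span_le.2 hW
  refine top_le_iff.1 (le_trans ?_ h1)
  rcases h.irr (Submodule.span F {x | InOrb L a x}) (fun g hg w hw => by
    induction hw using Submodule.span_induction with
    | mem x hx => exact Submodule.subset_span (InOrb.trans hx ⟨g, hg, rfl⟩)
    | zero => simp
    | add x y _ _ h1 h2 => rw [mulVec_add]; exact add_mem h1 h2
    | smul t x _ h1 => rw [mulVec_smul]; exact Submodule.smul_mem _ t h1) with e | e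
  · exact absurd (e ▸ Submodule.subset_span (InOrb.refl L a) : a ∈ (⊥ : Submodule F (ι → F))) h.ne
  · exact e.ge

theorem exists_ne (h : TT L f a) : ∃ b, InOrb L a b ∧ f b a ≠ 0 := by
  by_contra! H
  have := h.eq_top (W := dotKer (dv (RingHom.id F) f a)) fun x hx => by
    rw [mem_dotKer, dv_dot h.alt.toSForm, H x hx]
  exact h.ne (h.alt.nondeg a fun x => by
    rw [← dv_dot h.alt.toSForm, ← mem_dotKer, this]; trivial)

theorem exists_perp (h : TT L f a) (hx : x ∉ F ∙ a) (s : F) : ∃ z, f z a = 0 ∧ f z x = s := by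
  obtain ⟨y, h1, h2⟩ := exists_form_of_notMem h.alt.toSForm hx s
  exact ⟨y, by rw [h.sym, h1 a (Submodule.mem_span_singleton_self a)], by rw [h.sym, h2]⟩

theorem exists_perp₂ (h : TT L f a) (b : ι → F) : ∃ z, z ≠ 0 ∧ f z a = 0 ∧ f z b = 0 := by
  have h4 := card_le_finrank_dotKer₂ (dv (RingHom.id F) f a) (dv (RingHom.id F) f b)
  have h3 := h.three
  obtain ⟨z, hz, hz'⟩ := exists_mem_notMem_of_finrank_lt (W := dotKer (dv (RingHom.id F) f a) ⊓
    dotKer (dv (RingHom.id F) f b)) (U := ⊥) (by rw [finrank_bot]; omega)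
  rw [Submodule.mem_inf, mem_dotKer, mem_dotKer, dv_dot h.alt.toSForm, dv_dot h.alt.toSForm] at hz
  exact ⟨z, hz', hz.1, hz.2⟩

theorem notMem_of_perp (h : TT L f a) (hb : f b a ≠ 0) (h0 : z ≠ 0) (hz : f z b = 0) :
    z ∉ F ∙ a := fun e => by
  obtain ⟨t, rfl⟩ := Submodule.mem_span_singleton.1 e
  rw [h.alt.smul_left, h.sym, mul_eq_zero] at hz
  exact h0 (by rw [hz.resolve_right hb, zero_smul])

/-- The image of `b` under `E(a; z, 0)` is perpendicular to `b`. -/
theorem perp_image (h : TT L f a) (hz : f z a = 0) (b : ι → F) (c : F) :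
    f (b + f b a • z + (f b z + c * f b a) • a) b = c * f b a ^ 2 := by
  simp only [h.alt.add_left, h.alt.smul_left, h.alt.alt, h.sym z b, h.sym a b]
  linear_combination (f b a * f b z) * h.two

theorem lin_of_zero (h : TT L f a) (hz : z ∉ F ∙ a) (he : Ei L f a z 0) : Lin L f a := by
  obtain ⟨b, hb, hba⟩ := h.exists_ne
  refine h.lin hb ⟨_, hb.symm.trans (hb.ei he), by rw [h.perp_image he.1, zero_mul], fun e => ?_⟩
  obtain ⟨t, ht⟩ := Submodule.mem_span_singleton.1 e
  have h1 := congrArg (f · a) ht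
  simp only [h.alt.add_left, h.alt.smul_left, h.alt.alt, he.1, mul_zero, add_zero] at h1
  obtain rfl : t = 1 := mul_right_cancel₀ hba (by rw [h1, one_mul])
  refine hz (Submodule.mem_span_singleton.2 ⟨-(f b z / f b a), ?_⟩)
  refine smul_right_injective _ hba ?_
  simp only [smul_smul, mul_neg, mul_div_cancel₀ _ hba]
  linear_combination (norm := module) ht

theorem k1 (h : TT L f a) (hx : f x a = 0) (hy : f y a = 0) (he : Ei L f x y d) (hz : f z a = 0) :
    Ei L f a (f z x • y + (f z y + d * f z x) • x) (d * f z x ^ 2) := by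
  obtain ⟨c, hc⟩ := h.full z hz
  convert hc.conj_div h.alt he (by rw [h.sym, hx]) (by rw [h.sym, hy]) using 1
  linear_combination (f z x * f z y + d * f z x ^ 2) * h.two

theorem k2 (h : TT L f a) (hx : f x a = 0) (hx' : x ∉ F ∙ a) {t : F} (he : Ei L f x (t • a) d)
    (l : F) : Ei L f a ((d * l) • x) (d * l ^ 2) := by
  obtain ⟨z, hz, rfl⟩ := h.exists_perp hx' l
  have := h.shift (h.k1 hx (by rw [h.alt.smul_left, h.alt.alt, mul_zero]) he hz) (f z x * t)
  convert this using 1
  rw [h.alt.smul_right', hz]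
  linear_combination (norm := module) -(f z x * t) • h.add_self a

theorem k3 (h : TT L f a) (hx : f x a = 0) (hx' : x ∉ F ∙ a)
    (he : ∀ l, Ei L f x ((d * l) • a) (d * l ^ 2)) (n l : F) :
    Ei L f a 0 (d * n ^ 2 * (1 + n ^ 2) * l ^ 2) := by
  have h1 := h.k2 hx hx' (he n) l
  have h2 := h.k2 hx hx' (he 1) (n ^ 2 * l)
  rw [show d * 1 ^ 2 * (n ^ 2 * l) = d * n ^ 2 * l by ring] at h2
  convert h.diff h1 h2 using 1
  ring

theorem one_add_sq_ne (h : TT L f a) {n : F} (hn : n ≠ 1) : 1 + n ^ 2 ≠ 0 := fun e =>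
  hn (by
    have : (n - 1) ^ 2 = 0 := by linear_combination e - n * h.two
    exact sub_eq_zero.1 (pow_eq_zero_iff two_ne_zero |>.1 this))

theorem exists_sq [Finite F] (h : TT L f a) (c : F) : ∃ l : F, l ^ 2 = c := by
  have : Function.Injective fun l : F => l ^ 2 := fun l m e => by
    have : (l - m) ^ 2 = 0 := by
      simp only at e
      linear_combination e + (m ^ 2 - l * m) * h.two
    exact sub_eq_zero.1 (pow_eq_zero_iff two_ne_zero |>.1 this)
  exact Finite.surjective_of_injective this c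

/-- If `L` contains a transvection with centre `a`, then `L = Sp(V)`. -/
theorem iso_le [Finite F] (h : TT L f a) (hA : ¬ NoTv L f a) : iso f ≤ L := by
  classical
  obtain ⟨d, hd, hd0⟩ : ∃ d, Ei L f a 0 d ∧ d ≠ 0 := by
    by_contra! H
    exact hA H
  obtain ⟨b, hb, hba⟩ := h.exists_ne
  have hl : Lin L f a := by
    obtain ⟨z, h0, hza, hzb⟩ := h.exists_perp₂ b
    choose cf hcf using fun t : F => h.full (t • z) (by rw [h.alt.smul_left, hza, mul_zero])
    have he : ∀ p : F × Bool, Ei L f a (p.1 • z) (cf p.1 + if p.2 then d else 0) := by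
      rintro ⟨t, _ | _⟩
      · simpa using hcf t
      · simpa [h.alt.zero_right] using h.add (hcf t) hd
    obtain ⟨p, p', hne, hp⟩ : ∃ p p' : F × Bool, p ≠ p' ∧
        (cf p.1 + if p.2 then d else 0) = cf p'.1 + if p'.2 then d else 0 := by
      by_contra! H
      have := Nat.card_le_card_of_injective _ (fun p p' e => by_contra fun hne => H p p' hne e)
      have h1 : 0 < Nat.card F := Nat.card_pos
      simp only [Nat.card_prod, Nat.card_eq_fintype_card (α := Bool), Fintype.card_bool] at this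
      omega
    have hpp : p.1 - p'.1 ≠ 0 := fun e => by
      obtain ⟨t, s⟩ := p
      obtain ⟨t', s'⟩ := p'
      obtain rfl : t = t' := sub_eq_zero.1 e
      cases s <;> cases s' <;> simp_all
    have h1 := (he p).div h.alt (he p')
    rw [hp, h.alt.smul_left, h.alt.smul_right', h.alt.alt, ← sub_smul] at h1
    refine h.lin_of_zero (h.notMem_of_perp hba (smul_ne_zero hpp h0) ?_) (by simpa using h1)
    rw [h.alt.smul_left, hzb, mul_zero]
  obtain ⟨x, hx, hxa, hx'⟩ := hl
  have hL : Lr L f a := fun c => by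
    by_cases h2 : ∃ n : F, n ≠ 0 ∧ n ≠ 1
    · obtain ⟨n, hn0, hn1⟩ := h2
      have hk : d * n ^ 2 * (1 + n ^ 2) ≠ 0 :=
        mul_ne_zero (mul_ne_zero hd0 (pow_ne_zero 2 hn0)) (h.one_add_sq_ne hn1)
      obtain ⟨l, hl⟩ := h.exists_sq (c / (d * n ^ 2 * (1 + n ^ 2)))
      have := h.k3 hxa hx' ((h.orb hx).k2 (t := 0) (by rw [h.sym, hxa]) (notMem_span_symm hx' h.ne)
        (by simpa using hd)) n l
      rwa [hl, mul_div_cancel₀ _ hk] at this
    · push Not at h2
      by_cases hc : c = 0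
      · rw [hc]; exact Ei.zero h.alt L a
      · rwa [h2 c hc, ← h2 d hd0]
  obtain ⟨g, hg, rfl⟩ := hb
  refine h.alt.iso_le_of_full (fun z c hz => ?_) (hL.conj hg (h.le hg)) hba
  obtain ⟨c', hc'⟩ := h.full z hz
  simpa [h.alt.zero_right] using h.add hc' (hL (c - c'))

theorem sg_of_card (h : TT L f a) (hA : NoTv L f a) {n : F} (hn0 : n ≠ 0) (hn1 : n ≠ 1) :
    Sg L f a := fun x hx hxa t => by
  by_cases hx' : x ∈ F ∙ a
  · obtain ⟨s, rfl⟩ := Submodule.mem_span_singleton.1 hx'
    rw [smul_smul]; exact h.ei_smul_self a _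
  obtain ⟨d, hd⟩ := h.full (t • x) (by rw [h.alt.smul_left, hxa, mul_zero])
  have := hA _ (h.k3 hxa hx' ((h.orb hx).k2 (by rw [h.sym, hxa]) (notMem_span_symm hx' h.ne) hd)
    n 1)
  simp only [mul_eq_zero, h.one_add_sq_ne hn1, pow_eq_zero_iff two_ne_zero, hn0, or_false,
    one_ne_zero] at this
  rwa [this] at hd

theorem sg_of_five (h : TT L f a) (h5 : 5 ≤ Fintype.card ι) : Sg L f a := fun x hx hxa t => by
  have h4 := card_le_finrank_dotKer₂ (dv (RingHom.id F) f a) (dv (RingHom.id F) f x)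
  have h2 := finrank_span_pair_le (F := F) a x
  obtain ⟨w, hw, hw'⟩ := exists_mem_notMem_of_finrank_lt (W := dotKer (dv (RingHom.id F) f a) ⊓
    dotKer (dv (RingHom.id F) f x)) (U := Submodule.span F {a, x}) (by omega)
  rw [Submodule.mem_inf, mem_dotKer, mem_dotKer, dv_dot h.alt.toSForm, dv_dot h.alt.toSForm] at hw
  obtain ⟨z, h1, h2⟩ := exists_form_of_notMem h.alt.toSForm hw' t
  obtain ⟨d, hd⟩ := (h.orb hx).full w hw.2
  have := h.k1 (z := z) hxa hw.1 hd (by rw [h.sym, h1 a (Submodule.subset_span (by simp))])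
  rw [h.sym z x, h1 x (Submodule.subset_span (by simp)), h.sym z w, h2] at this
  simpa using this

theorem sg_of_not_lin (h : TT L f a) (hl : ¬ Lin L f a) : Sg L f a := fun x hx hxa t => by
  have hx' : x ∈ F ∙ a := by_contra fun e => hl ⟨x, hx, hxa, e⟩
  obtain ⟨s, rfl⟩ := Submodule.mem_span_singleton.1 hx'
  rw [smul_smul]; exact h.ei_smul_self a _

theorem exists_pair (h : TT L f a) (hs : Sg L f a) (hl : Lin L f a) :
    ∃ x y, InOrb L a x ∧ InOrb L a y ∧ f x a = 0 ∧ f y a = 0 ∧ f x y ≠ 0 := by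
  obtain ⟨x, hx, hxa, hx'⟩ := hl
  obtain ⟨z, hz, hzx⟩ := h.exists_perp hx' 1
  obtain ⟨c, hc⟩ := h.full z hz
  have h1 : Ei L f a (z + c • x) 0 := by
    convert h.add hc (hs x hx hxa c) using 1
    rw [h.alt.smul_right', hzx]
    linear_combination -c * h.two
  have h2 : Ei L f a x 0 := by simpa using hs x hx hxa 1
  obtain ⟨b, hb, hba⟩ := h.exists_ne
  obtain ⟨g, hg, hg'⟩ := hb.symm
  refine ⟨_, _, (hb.ei h1).trans ⟨g, hg, rfl⟩, (hb.ei h2).trans ⟨g, hg, rfl⟩, ?_, ?_, ?_⟩
  · conv_lhs => rw [← hg', h.le hg, hg', h.perp_image h1.1, zero_mul]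
  · conv_lhs => rw [← hg', h.le hg, hg', h.perp_image h2.1, zero_mul]
  · rw [h.le hg]
    simp only [h.alt.add_left, h.alt.add_right, h.alt.smul_left, h.alt.smul_right', h.alt.alt,
      h.sym z b, h.sym a b, h.sym x b, h.sym a x, hxa, hz, hzx]
    convert pow_ne_zero 2 hba using 1
    linear_combination (f b a * f b x + f b a * f b z + f b a * c * f b x) * h.two

theorem notMem_of_ne (h : TT L f a) (hya : f y a = 0) (hxy : f x y ≠ 0) : x ∉ F ∙ a := fun e => by
  obtain ⟨t, rfl⟩ := Submodule.mem_span_singleton.1 e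
  exact hxy (by rw [h.alt.smul_left, h.sym, hya, mul_zero])

theorem hmg_of_lin (h : TT L f a) (hA : NoTv L f a) (hs : Sg L f a) (hl : Lin L f a) :
    Hmg L f a := fun z c t hc => by
  obtain ⟨x, y, hx, hy, hxa, hya, hxy⟩ := h.exists_pair hs hl
  have hx' := h.notMem_of_ne hya hxy
  obtain ⟨s, hs'⟩ : ∃ s, f (z + s • y) x = 0 := ⟨-(f z x / f x y), by
    rw [h.alt.add_left, h.alt.smul_left, h.sym y x, neg_mul, div_mul_cancel₀ _ hxy, add_neg_cancel]⟩
  have hw : f (z + s • y) a = 0 := by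
    rw [h.alt.add_left, h.alt.smul_left, hc.1, hya, mul_zero, add_zero]
  obtain ⟨d, hd⟩ := (h.orb hx).full _ hs'
  have key : ∀ l : F, Ei L f a (l • z) (l ^ 2 * (d + s * f z y)) := fun l => by
    obtain ⟨u, hu, rfl⟩ := h.exists_perp hx' l
    have h1 := h.add (h.add (h.k1 hxa hw hd hu) (hs x hx hxa (f u (z + s • y) + d * f u x)))
      (hs y hy hya (f u x * s))
    convert h1 using 1
    · linear_combination (norm := module) -(f u x * s) • h.add_self y -
        (f u (z + s • y) + d * f u x) • h.add_self x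
    · rw [h.alt.add_left] at hs'
      simp only [h.alt.add_left, h.alt.smul_left, h.alt.smul_right', h.alt.alt] at hs' ⊢
      linear_combination (-(f u x * (f u (z + s • y) + d * f u x))) * hs' -
        (f u x * s * (f u (z + s • y) + d * f u x) * f x y) * h.two
  have := h.uniq hA hc (by simpa using key 1)
  rw [this]
  exact key t

theorem noThird_of_lin (h : TT L f a) (hA : NoTv L f a) (hs : Sg L f a) (hl : Lin L f a) :
    NoThird L f a := fun b hb hba s t hp => by
  obtain ⟨x, y, hx, hy, hxa, hya, hxy⟩ := h.exists_pair hs hl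
  have h1 := hx.ei (hs y hy hya (f x b / f b a / f x y))
  rw [hxa, zero_smul, add_zero, mul_zero, add_zero, h.alt.smul_right', div_mul_cancel₀ _ hxy] at h1
  generalize hw : x + (f x b / f b a) • a = w at h1
  have hwa : f a w = 0 := by
    rw [← hw, h.alt.add_right, h.alt.smul_right', h.alt.alt, h.sym, hxa, mul_zero, add_zero]
  have hwb : f b w = 0 := by
    rw [← hw, h.alt.add_right, h.alt.smul_right', div_mul_cancel₀ _ hba, h.sym b x]
    linear_combination f x b * h.two
  have hw := h.sg hs h1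
  have h2 := h.add (hw a h1.symm hwa s) (hw b (h1.symm.trans hb) hwb t)
  have h3 := hw _ (h1.symm.trans hp) (by
    rw [h.alt.add_left, h.alt.smul_left, h.alt.smul_left, hwa, hwb]; ring) 1
  rw [one_smul] at h3
  have h4 := h.uniq (h.noTv hA h1) h2 h3
  rw [h.alt.smul_left, h.alt.smul_right', h.sym a b] at h4
  simpa [hba] using h4

end TT

/-- Hua's identity in characteristic two. -/
theorem hua_two (h2 : (2 : F) = 0) {ψ χ : F → F} (hψ : ∀ s t, ψ (s + t) = ψ s + ψ t)
    (hχ : ∀ s t, χ (s + t) = χ s + χ t) (h : ∀ s, s ≠ 0 → χ s⁻¹ = ψ s * s⁻¹) (s : F) :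
    ψ (s ^ 2) = s * ψ 1 := by
  by_cases h0 : s = 0
  · have := hψ 0 0
    rw [add_zero] at this
    rw [h0, zero_mul, zero_pow two_ne_zero]
    linear_combination -this
  by_cases h1 : s = 1
  · simp [h1]
  have h3 : 1 + s ≠ 0 := fun e => h1 (by linear_combination e - h2)
  have h4 := hχ s⁻¹ (1 + s)⁻¹
  rw [show s⁻¹ + (1 + s)⁻¹ = (s + s ^ 2)⁻¹ by
    rw [show s + s ^ 2 = s * (1 + s) by ring]
    field_simp
    linear_combination s * h2, h _ h0, h _ h3,
    h _ (by rw [show s + s ^ 2 = s * (1 + s) by ring]; exact mul_ne_zero h0 h3), hψ, hψ,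
    show s + s ^ 2 = s * (1 + s) by ring] at h4
  field_simp at h4
  linear_combination h4 + (s * ψ s) * h2

/-- The value `c` with `E(a; z, c) ∈ L`. -/
noncomputable def cval (L : Subgroup (GL ι F)) (f : (ι → F) → (ι → F) → F) (a z : ι → F) : F :=
  Classical.epsilon fun c => Ei L f a z c

namespace TT

theorem cval_spec (h : TT L f a) (hz : f z a = 0) : Ei L f a z (cval L f a z) :=
  Classical.epsilon_spec (h.full z hz)

theorem cval_eq (h : TT L f a) (hA : NoTv L f a) (he : Ei L f a z c) : cval L f a z = c :=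
  h.uniq hA (h.cval_spec he.1) he

theorem cval_add (h : TT L f a) (hA : NoTv L f a) (hz : f z a = 0) (hz' : f z' a = 0) :
    cval L f a (z + z') = cval L f a z + cval L f a z' + f z z' :=
  h.cval_eq hA (h.add (h.cval_spec hz) (h.cval_spec hz'))

theorem cval_smul_add (h : TT L f a) (hA : NoTv L f a) (hz : f z a = 0) (s t : F) :
    cval L f a ((s + t) • z) = cval L f a (s • z) + cval L f a (t • z) := by
  rw [add_smul, h.cval_add hA (by rw [h.alt.smul_left, hz, mul_zero])
    (by rw [h.alt.smul_left, hz, mul_zero]), h.alt.smul_left, h.alt.smul_right', h.alt.alt]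
  ring

theorem bijective_of_not_lin [Finite F] (h : TT L f a) (hA : NoTv L f a) (hl : ¬ Lin L f a)
    (hz : f z a = 0) (hz' : z ∉ F ∙ a) : Function.Bijective fun t : F => cval L f a (t • z) := by
  refine Finite.injective_iff_bijective.1 fun s t e => by_contra fun hne => hl ?_
  have h1 := h.cval_smul_add hA hz (s - t) t
  rw [sub_add_cancel] at h1
  have h2 := h.cval_spec (z := (s - t) • z) (by rw [h.alt.smul_left, hz, mul_zero])
  rw [show cval L f a ((s - t) • z) = 0 by linear_combination e - h1] at h2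
  refine h.lin_of_zero (fun e' => hz' ?_) h2
  exact (Submodule.smul_mem_iff _ (sub_ne_zero.2 hne)).1 e'

theorem noThird_of_not_lin [Finite F] (h : TT L f a) (hA : NoTv L f a) (hl : ¬ Lin L f a) :
    NoThird L f a := fun b hb hba s t hp => by
  by_contra! hst
  obtain ⟨z, h0, hza, hzb⟩ := h.exists_perp₂ b
  obtain ⟨r, hr⟩ := (h.bijective_of_not_lin hA hl hza (h.notMem_of_perp hba h0 hzb)).2
    (s / (f b a * t))
  have he := h.cval_spec (z := r • z) (by rw [h.alt.smul_left, hza, mul_zero])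
  simp only at hr
  rw [hr] at he
  have h1 := hb.ei he
  rw [h.alt.smul_right', h.sym b z, hzb, mul_zero, zero_add,
    show s / (f b a * t) * f b a = s / t by have := hst.2; field_simp] at h1
  refine hl (h.lin hp ⟨_, hp.symm.trans h1, ?_, fun e => ?_⟩)
  · simp only [h.alt.add_left, h.alt.add_right, h.alt.smul_left, h.alt.smul_right', h.alt.alt,
      hza, hzb, h.sym a b]
    have := hst.2
    field_simp
    linear_combination (t * s * f b a) * h.two
  · obtain ⟨m, hm⟩ := Submodule.mem_span_singleton.1 e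
    have e1 := congrArg (f · a) hm
    have e2 := congrArg (f · b) hm
    simp only [h.alt.add_left, h.alt.smul_left, h.alt.alt, hza, hzb, h.sym a b, mul_zero,
      add_zero, zero_add] at e1 e2
    have e3 : m * t = 1 := mul_right_cancel₀ hba (by linear_combination e1)
    have e4 : m * s = s / t := mul_right_cancel₀ hba (by linear_combination e2)
    have e5 : (f b a * r) • z = 0 := by
      linear_combination (norm := module) -hm + e3 • b + e4 • a
    rw [(mul_eq_zero.1 ((smul_eq_zero.1 e5).resolve_right h0)).resolve_left hba, zero_smul] at he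
    exact div_ne_zero hst.1 (mul_ne_zero hba hst.2) (hA _ he)

theorem hmg_of_not_lin [Finite F] (h : TT L f a) (hA : NoTv L f a) (hl : ¬ Lin L f a) :
    Hmg L f a := fun z c t hc => by
  obtain ⟨b, hb, hba⟩ := h.exists_ne
  obtain ⟨w, hwa, hwb, r, rfl⟩ : ∃ w, f w a = 0 ∧ f w b = 0 ∧ ∃ r : F, z = w + r • a :=
    ⟨z - (f z b / f b a) • a, by rw [h.alt.sub_left, h.alt.smul_left, hc.1, h.alt.alt]; ring,
      by rw [h.alt.sub_left, h.alt.smul_left, h.sym a b, div_mul_cancel₀ _ hba, sub_self],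
      f z b / f b a, by abel⟩
  obtain rfl : c = cval L f a w := h.uniq hA hc (h.shift (h.cval_spec hwa) r)
  rw [smul_add, smul_smul]
  refine h.shift ?_ _
  have hs : ∀ {u : ι → F}, f w u = 0 → ∀ s : F, f (s • w) u = 0 := fun hu s => by
    rw [h.alt.smul_left, hu, mul_zero]
  by_cases h0 : w = 0
  · rw [h0, smul_zero, hA _ (h.cval_spec (h.alt.zero_left a)), mul_zero]
    exact Ei.zero h.alt L a
  have hB := h.orb hb
  have hab : f a b ≠ 0 := by rwa [h.sym]
  let φ := Equiv.ofBijective _ (h.bijective_of_not_lin hA hl hwa (h.notMem_of_perp hba h0 hwb))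
  let φ' := Equiv.ofBijective _ (hB.bijective_of_not_lin (h.noTv hA hb) (fun e => hl (h.lin hb e))
    hwb (hB.notMem_of_perp hab h0 hwa))
  have hφ : ∀ s, φ s = cval L f a (s • w) := fun _ => rfl
  have hφ' : ∀ s, φ' s = cval L f b (s • w) := fun _ => rfl
  have a1 : ∀ s t, φ.symm (s + t) = φ.symm s + φ.symm t := fun s t => φ.injective (by
    rw [hφ (_ + _), h.cval_smul_add hA hwa, ← hφ, ← hφ]; simp)
  have a2 : ∀ s t, φ'.symm (s + t) = φ'.symm s + φ'.symm t := fun s t => φ'.injective (by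
    rw [hφ' (_ + _), hB.cval_smul_add (h.noTv hA hb) hwb, ← hφ', ← hφ']; simp)
  have key := hua_two h.two (ψ := φ.symm) (χ := fun u => f b a * φ'.symm (u / f b a ^ 2)) a1
    (fun s t => by simp only [add_div, a2, mul_add]) fun s hs0 => by
      obtain ⟨m, rfl⟩ := φ.surjective s
      have h1 := (hb.ei (h.cval_spec (hs hwa m))).ei (hB.cval_spec (hs hwb (m / (φ m * f b a))))
      rw [← hφ, ← hφ'] at h1
      simp only [h.alt.add_left, h.alt.smul_left, h.alt.smul_right', h.alt.alt, hwa, hwb,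
        h.sym a b, h.sym b w, h.sym a w, mul_zero, zero_add, add_zero] at h1
      have h2 := h.noThird_of_not_lin hA hl b hb hba (φ m * f b a)
        (1 + φ' (m / (φ m * f b a)) * (φ m * f b a * f b a)) (by
          convert h1 using 1
          rw [smul_smul (φ m * f b a * f b a), show φ m * f b a * f b a * (m / (φ m * f b a)) =
            f b a * m by field_simp]
          linear_combination (norm := module) -(f b a * m) • h.add_self w)
      have h3 := h2.resolve_left (mul_ne_zero hs0 hba)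
      have h4 : φ' (m / (φ m * f b a)) = (φ m)⁻¹ / f b a ^ 2 := by
        field_simp
        linear_combination h3 - h.two
      simp only [← h4, Equiv.symm_apply_apply]
      field_simp
  have hk : φ.symm 1 ≠ 0 := fun e => by
    have := φ.apply_symm_apply 1
    rw [e, hφ, zero_smul, hA _ (h.cval_spec (h.alt.zero_left a))] at this
    exact zero_ne_one this
  have k2 : ∀ s, φ s = (s / φ.symm 1) ^ 2 := fun s => by
    rw [← φ.apply_symm_apply ((s / φ.symm 1) ^ 2), key, div_mul_cancel₀ _ hk]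
  have := h.cval_spec (hs hwa t)
  rwa [← hφ, k2, show (t / φ.symm 1) ^ 2 = t ^ 2 * (1 / φ.symm 1) ^ 2 by ring, ← k2, hφ,
    one_smul] at this

end TT

end Cfsg.Lib.Symp
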