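import Cfsg.Agent.Lib.Symp.TwoTv
import Cfsg.Agent.Lib.Orth.Levi
import Cfsg.Agent.Lib.Orth.Simple
import Cfsg.Agent.Lib.Perm.Module
import Cfsg.Agent.Lib.Core.PCore

/-!
Irreducible subgroups `L` of `Sp(V)` in characteristic two which contain, for a vector `a`, a map
`E(a; z, c)` for every `z ⊥ a`: the invariant quadratic form and the exceptional case.
-/

namespace Cfsg.Lib.Orth
open QuadraticMap Module

variable {F V : Type*} [Field F] [AddCommGroup V] [Module F V] {Q : QuadraticForm F V}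

theorem eq_one_of_card_two (h : Nat.card F = 2) {c : F} (hc : c ≠ 0) : c = 1 := by
  obtain ⟨y, -, hy⟩ := (Nat.card_eq_two_iff' (0 : F)).1 h
  rw [hy c hc, hy 1 one_ne_zero]

theorem ker_dickson_le_eichGroup [Finite F] [FiniteDimensional F V] (hQ : ND Q) (h2 : (2 : F) = 0)
    (h3 : 3 ≤ finrank F V) : (dickson hQ).ker ≤ eichGroup Q := by
  by_cases hE : Exc Q
  swap
  · rw [← commutator_eq_ker_dickson hQ hE h2, commutator_eq_eichGroup' hQ hE h3]
  obtain ⟨hF, h4, W, hW, hW2⟩ := hE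
  obtain ⟨e, he, he0⟩ := (Submodule.ne_bot_iff W).1 (by rintro rfl; simp at hW2)
  obtain ⟨z, hz, hz'⟩ : ∃ z ∈ W, z ∉ F ∙ e := by
    by_contra! H
    have := Submodule.finrank_mono (show W ≤ F ∙ e from H)
    rw [finrank_span_singleton he0] at this
    omega
  obtain ⟨f, hf⟩ := exists_isHyp hQ (hW e he) he0
  have hx := hf.hproj_mem z
  have hx' : hproj Q e f z = z - polar Q f z • e := by
    rw [hproj, hW.polar_eq he hz, zero_smul, sub_zero]
  generalize hproj Q e f z = x at hx hx'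
  have hx0 : x ≠ 0 := fun h => hz' (by
    rw [sub_eq_zero.1 (hx'.symm.trans h)]
    exact Submodule.smul_mem _ _ (Submodule.mem_span_singleton_self e))
  have hQx : Q x = 0 := hW x (hx' ▸ sub_mem hz (W.smul_mem _ he))
  obtain ⟨y', hy', hxy⟩ := hf.exists_polar_eq hQ hx hx0 1
  have hy := isHyp_of_polar_eq_one hQx ((polar_comm _ _ _).trans hxy)
  have hyU : y' - Q y' • x ∈ hperp Q e f := sub_mem hy' (Submodule.smul_mem _ _ hx)
  generalize y' - Q y' • x = y at hy hyU
  have hU : Submodule.span F {x, y} = hperp Q e f := Submodule.eq_of_le_of_finrank_eq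
    (Submodule.span_le.2 (by rintro _ (rfl | rfl); exacts [hx, hyU])) (by
      have := hf.finrank_hperp hQ
      rw [hy.finrank_span]; omega)
  intro g hg
  obtain ⟨k, hk, c, hc, hke⟩ := exists_eichGroup_map_singular hQ h3 (x := g.1 e) (y := e)
    (by rw [O.map_Q, hf.left]) hf.left (O.apply_ne_zero g he0) he0
  rw [eq_one_of_card_two hF hc, one_smul, ← O.mul_apply] at hke
  have h1 : polar Q e ((k * g).1 f) = 1 := by
    conv_lhs => rw [← hke, O.map_polar, hf.polar_eq]
  obtain ⟨w, hw, hwf⟩ := hf.exists_eich_of_polar_ne (x := (k * g).1 f)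
    (by rw [O.map_Q, hf.right]) (by rw [h1]; exact one_ne_zero)
  rw [h1, one_smul, ← O.mul_apply] at hwf
  have hwe : (eich Q e w * (k * g)).1 e = e := by
    rw [O.mul_apply, hke, eich_apply_self hf.left (mem_hperp.1 hw).1]
  have hd : dickson hQ (eich Q e w * (k * g)) = 1 := by
    rw [map_mul, map_mul, dickson_eich, hg, (eichGroup_le (K := (dickson hQ).ker)
      fun u z _ _ => dickson_eich hQ u z) hk, one_mul, one_mul]
  suffices eich Q e w * (k * g) = 1 by
    rw [show g = k⁻¹ * (eich Q e w)⁻¹ * (eich Q e w * (k * g)) by group, this, mul_one]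
    exact mul_mem (inv_mem hk) (inv_mem (eich_mem_eichGroup e w))
  generalize eich Q e w * (k * g) = s at hwe hwf hd
  have hv : s.1 (x + y) = x + y := by
    have : s.1 (x + y) ∈ hperp Q e f := by
      have := mem_hperp.1 (add_mem hx hyU)
      rw [mem_hperp, ← hwe, ← hwf, O.map_polar, O.map_polar]
      exact this
    rw [← hU, Submodule.mem_span_pair] at this
    obtain ⟨p, r, hpr⟩ := this
    have h5 : p * r = 1 := by
      rw [← hy.Q_comb, hpr, O.map_Q]; simpa using hy.Q_comb 1 1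
    rw [← hpr, eq_one_of_card_two hF (left_ne_zero_of_mul_eq_one h5),
      eq_one_of_card_two hF (right_ne_zero_of_mul_eq_one h5), one_smul, one_smul]
  have hle : O.comm s ≤ F ∙ (x + y) := fun u hu => by
    rw [← O.perp_fix hQ, mem_perp] at hu
    have h6 : u ∈ hperp Q e f := mem_hperp.2 ⟨hu e (O.mem_fix.2 hwe), hu f (O.mem_fix.2 hwf)⟩
    rw [← hU, Submodule.mem_span_pair] at h6
    obtain ⟨p, r, rfl⟩ := h6
    have h7 := hu _ (O.mem_fix.2 hv)
    simp only [polar_add_left, polar_add_right, polar_smul_right', hy.polar_left, hy.polar_right,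
      hy.polar_eq, hy.polar_eq'] at h7
    refine Submodule.mem_span_singleton.2 ⟨p, ?_⟩
    rw [smul_add, show r = p by linear_combination h7 - p * h2]
  have h8 : finrank F (O.comm s) ≤ 1 := (Submodule.finrank_mono hle).trans
    ((finrank_span_le_card _).trans (by simp))
  obtain ⟨m, hm⟩ := (dickson_eq_one_iff hQ).1 hd
  exact O.comm_eq_bot_iff.1 (Submodule.finrank_eq_zero.1 (by omega))

/-- A subgroup containing `X(e)` and moving `e` to a non-perpendicular vector. -/
theorem eichGroup_le_of_full [FiniteDimensional F V] (hQ : ND Q) {K : Subgroup (O Q)} {e : V}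
    (he : Q e = 0) (hK : ∀ z, polar Q e z = 0 → eich Q e z ∈ K) {k : O Q} (hk : k ∈ K)
    (hke : polar Q e (k.1 e) ≠ 0) : eichGroup Q ≤ K := by
  have h1 : ∀ {u : V} {g : O Q} {c : F} {v : V}, (∀ z, polar Q u z = 0 → eich Q u z ∈ K) → g ∈ K →
      c ≠ 0 → Q v = 0 → g.1 u = c • v → ∀ z, polar Q v z = 0 → eich Q v z ∈ K :=
    fun {u g c v} hu hg hc hv hgu z hz => by
      have := K.mul_mem (K.mul_mem hg (hu ((g⁻¹).1 (c⁻¹ • z)) (by
        rw [← O.polar_left, hgu, polar_smul_left', polar_smul_right', hz, mul_zero, mul_zero])))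
        (K.inv_mem hg)
      rwa [conj_eich, O.apply_inv_apply, hgu, eich_smul_left hv
        (by rw [polar_smul_right', hz, mul_zero]), smul_smul, mul_inv_cancel₀ hc, one_smul] at this
  have h2 : ∀ {u x : V}, Q u = 0 → Q x = 0 → (∀ z, polar Q u z = 0 → eich Q u z ∈ K) →
      (∀ z, polar Q x z = 0 → eich Q x z ∈ K) → polar Q u x ≠ 0 → ∀ y, Q y = 0 → polar Q u y ≠ 0 →
      ∀ z, polar Q y z = 0 → eich Q y z ∈ K := fun {u x} hu hx hu' hx' hux y hy huy => by
    obtain ⟨z, hz, hz'⟩ := exists_eich_map hu hx hy hux huy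
    exact h1 hx' (hu' z hz) (div_ne_zero hux huy) hy hz'
  have h3 := h2 he (by rw [O.map_Q, he]) hK
    (h1 hK hk one_ne_zero (by rw [O.map_Q, he]) (one_smul _ _).symm) hke
  refine eichGroup_le fun u z hu hz => ?_
  by_cases h0 : u = 0
  · rw [h0, eich_zero_left]; exact K.one_mem
  by_cases h4 : polar Q e u = 0
  · obtain ⟨v, hv, hv1, hv2⟩ := exists_common_nonperp hQ he hu (by rintro rfl; simp at hke) h0 h4
    exact h2 hv he (h3 v hv hv1) hK (by rwa [polar_comm]) u hu (by rwa [polar_comm]) z hz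
  · exact h3 u hu h4 z hz

end Cfsg.Lib.Orth

namespace Cfsg.Lib.Symp
open Matrix Module Cfsg.Geo Cfsg.Lib.Asch Cfsg.Lib.Linear
open scoped MatrixGroups
open QuadraticMap (polar)

variable {ι : Type} [Fintype ι] [DecidableEq ι] {F : Type*} [Field F]
  {f : (ι → F) → (ι → F) → F} {L : Subgroup (GL ι F)} {a b x y z z' : ι → F} {c c' d : F}

namespace TT

theorem exists_quad (h : TT L f a) (hA : NoTv L f a) (hs : Sg L f a) (hm : Hmg L f a)
    (h3 : NoThird L f a) : ∃ Q : QuadraticForm F (ι → F), (∀ u v, polar Q u v = f u v) ∧ Q a = 0 ∧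
      (∀ z, f z a = 0 → Ei L f a z (Q z)) ∧ L ≤ isometryGroup F ⇑Q := by
  obtain ⟨b, hb, hba⟩ := h.exists_ne
  obtain ⟨e, he⟩ : ∃ e, e = (f b a)⁻¹ • b := ⟨_, rfl⟩
  have hea : f e a = 1 := by rw [he, h.alt.smul_left, inv_mul_cancel₀ hba]
  have hp : ∀ v, f (v + f v a • e) a = 0 := fun v => by
    rw [h.alt.add_left, h.alt.smul_left, hea]; linear_combination f v a * h.two
  let Q : QuadraticForm F (ι → F) :=
    { toFun := fun v => f v e * f v a + cval L f a (v + f v a • e)
      toFun_smul := fun t v => by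
        rw [h.alt.smul_left, h.alt.smul_left, mul_smul t (f v a), ← smul_add,
          h.cval_eq hA (hm _ _ t (h.cval_spec (hp v))), smul_eq_mul]
        ring
      exists_companion' := ⟨h.alt.bilin, fun u v => by
        rw [h.alt.add_left u v a, add_smul, add_add_add_comm, h.cval_add hA (hp u) (hp v)]
        simp only [Alt.bilin_apply, h.alt.add_left, h.alt.add_right, h.alt.smul_left,
          h.alt.smul_right', h.alt.alt, h.sym e v]
        linear_combination (f u e * f v a + f v e * f u a) * h.two⟩ }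
  have hQ : ∀ v, Q v = f v e * f v a + cval L f a (v + f v a • e) := fun _ => rfl
  have hpol : ∀ u v, polar Q u v = f u v := fun u v => by
    rw [polar, hQ, hQ, hQ, h.alt.add_left u v a, add_smul, add_add_add_comm,
      h.cval_add hA (hp u) (hp v)]
    simp only [h.alt.add_left, h.alt.add_right, h.alt.smul_left,
      h.alt.smul_right', h.alt.alt, h.sym e v]
    linear_combination (f u e * f v a + f v e * f u a) * h.two
  have hE : ∀ z, f z a = 0 → Ei L f a z (Q z) := fun z hz => by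
    rw [hQ, hz, mul_zero, zero_add, zero_smul, add_zero]; exact h.cval_spec hz
  have hQa : Q a = 0 := h.uniq hA (hE a (h.alt.alt a)) (by simpa using h.ei_smul_self a 1)
  have hQe : Q e = 0 := by
    rw [hQ, h.alt.alt, hea, one_smul, h.add_self, hA _ (h.cval_spec (h.alt.zero_left a))]; ring
  have hH : Orth.IsHyp Q a e := ⟨hQa, hQe, by rw [hpol, h.sym, hea]⟩
  have h0 : ∀ x, InOrb L a x → Q x = 0 := fun x hx => by
    by_cases hxa : f x a = 0
    · exact h.uniq hA (hE x hxa) (by simpa using hs x hx hxa 1)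
    have hax : polar Q a x ≠ 0 := by rwa [hpol, h.sym]
    obtain ⟨z, hz, hz'⟩ := hH.eich_reduce hax
    have hza := (Orth.mem_hperp.1 hz).1
    have h1 := hx.ei (hE z (by rw [h.sym, ← hpol, hza]))
    have h2 := h3 b hb hba (Q x / polar Q a x) (polar Q a x * (f b a)⁻¹) (by
      rw [← smul_smul, ← he, ← hz', Orth.eich_apply hQa hza, hpol, hpol, h.sym a x, h.sym z x]
      convert h1 using 1
      linear_combination (norm := module) -(f x a) • h.add_self z - (Q z * f x a) • h.add_self a)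
    simpa [hax, hba] using h2
  refine ⟨Q, hpol, hQa, hE, fun g hg => Orth.mem_isometryGroup.2 fun v => ?_⟩
  let W : Submodule F (ι → F) :=
    { carrier := {v | Q (g.1 *ᵥ v) = Q v}
      add_mem' := fun {u v} hu hv => by
        simp only [Set.mem_ofPred_eq] at hu hv ⊢
        rw [mulVec_add, Orth.Q_add, Orth.Q_add, hu, hv, hpol, hpol, h.le hg]
      zero_mem' := by simp
      smul_mem' := fun t v hv => by
        simp only [Set.mem_ofPred_eq] at hv ⊢
        rw [mulVec_smul, Orth.Q_smul, Orth.Q_smul, hv] }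
  have := h.eq_top (W := W) fun x hx => by
    change Q _ = Q _
    rw [h0 x hx, h0 _ (hx.trans ⟨g, hg, rfl⟩)]
  exact (this ▸ Submodule.mem_top : v ∈ W)

theorem orth [Finite F] (h : TT L f a) (hA : NoTv L f a) (hs : Sg L f a) :
    ∃ Q : QuadraticForm F (ι → F), (∀ u v, polar Q u v = f u v) ∧ (L = isometryGroup F ⇑Q ∨
      ∀ g, g ∈ L ↔ g ∈ isometryGroup F ⇑Q ∧ Even (g.1 - 1).rank) := by
  obtain ⟨Q, hpol, hQa, hE, hL⟩ : ∃ Q : QuadraticForm F (ι → F), (∀ u v, polar Q u v = f u v) ∧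
      Q a = 0 ∧ (∀ z, f z a = 0 → Ei L f a z (Q z)) ∧ L ≤ isometryGroup F ⇑Q := by
    by_cases hl : Lin L f a
    · exact h.exists_quad hA hs (h.hmg_of_lin hA hs hl) (h.noThird_of_lin hA hs hl)
    · exact h.exists_quad hA hs (h.hmg_of_not_lin hA hl) (h.noThird_of_not_lin hA hl)
  have hQ : Orth.ND Q := (Orth.nd_iff Q).2 fun x hx => h.alt.nondeg' x fun y => by rw [← hpol, hx]
  let K : Subgroup (Orth.O Q) := (L.subgroupOf (isometryGroup F ⇑Q)).map (Orth.isoEquiv Q)
  have hK : ∀ g : isometryGroup F ⇑Q, Orth.isoEquiv Q g ∈ K ↔ g.1 ∈ L := fun g =>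
    Subgroup.mem_map_iff_mem (Orth.isoEquiv Q).injective
  obtain ⟨b, ⟨k, hk, rfl⟩, hb⟩ := h.exists_ne
  have h1 : (Orth.dickson hQ).ker ≤ K := (Orth.ker_dickson_le_eichGroup hQ h.two
    (by simpa using h.three)).trans (Orth.eichGroup_le_of_full hQ hQa (fun z hz => by
      obtain ⟨-, g, hg, hg'⟩ := hE z (by rw [h.sym, ← hpol, hz])
      convert (hK ⟨g, hL hg⟩).2 hg
      refine Orth.O.ext fun v => ?_
      rw [Orth.isoEquiv_apply, hg', Orth.eich_apply hQa hz, hpol, hpol, h.sym a v, h.sym z v]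
      linear_combination (norm := module) -(f v a) • h.add_self z - (Q z * f v a) • h.add_self a)
      ((hK ⟨k, hL hk⟩).2 hk) (by rwa [Orth.isoEquiv_apply, hpol, h.sym]))
  refine ⟨Q, hpol, ?_⟩
  by_cases h2 : K ≤ (Orth.dickson hQ).ker
  · refine Or.inr fun g => ⟨fun hg => ⟨hL hg, ?_⟩, fun hg => (hK ⟨g, hg.1⟩).1 (h1 ?_)⟩
    · rw [Orth.rank_sub_one_eq ⟨g, hL hg⟩, ← Orth.dickson_eq_one_iff hQ]
      exact h2 ((hK ⟨g, hL hg⟩).2 hg)
    · rw [MonoidHom.mem_ker, Orth.dickson_eq_one_iff hQ, ← Orth.rank_sub_one_eq]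
      exact hg.2
  · obtain ⟨s, hs, hs'⟩ := SetLike.not_le_iff_exists.1 h2
    refine Or.inl (le_antisymm hL fun g hg => (hK ⟨g, hg⟩).1 ?_)
    by_cases h4 : Orth.dickson hQ (Orth.isoEquiv Q ⟨g, hg⟩) = 1
    · exact h1 h4
    · rw [← K.mul_mem_cancel_left hs]
      refine h1 ?_
      rw [MonoidHom.mem_ker, map_mul, Int.units_ne_iff_eq_neg.1 hs', Int.units_ne_iff_eq_neg.1 h4]
      simp

theorem exists_basis (h : TT L f a) (h4 : Fintype.card ι = 4) {w : ι → F} (hba : f b a = 1)
    (hxa : f x a = 0) (hxb : f x b = 0) (hwa : f w a = 0) (hwb : f w b = 0) (hwx : f w x = 1)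
    (v : ι → F) : v = f v b • a + f v a • b + f v w • x + f v x • w := by
  have hli : LinearIndependent F ![a, b, x, w] := by
    rw [Fintype.linearIndependent_iff]
    intro g hg i
    rw [Fin.sum_univ_four] at hg
    have e1 := congrArg (f · a) hg
    have e2 := congrArg (f · b) hg
    have e3 := congrArg (f · x) hg
    have e4 := congrArg (f · w) hg
    simp [h.alt.add_left, h.alt.smul_left, h.alt.alt, h.alt.zero_left, h.sym a b, h.sym a x,
      h.sym a w, h.sym b x, h.sym b w, h.sym x w, hba, hxa, hxb, hwa, hwb, hwx] at e1 e2 e3 e4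
    fin_cases i <;> assumption
  have := hli.span_eq_top_of_card_eq_finrank' (by simp [h4])
  obtain ⟨g, rfl⟩ := (Submodule.mem_span_range_iff_exists_fun F).1 (this ▸ Submodule.mem_top :
    v ∈ Submodule.span F (Set.range ![a, b, x, w]))
  simp [Fin.sum_univ_four, h.alt.add_left, h.alt.smul_left, h.alt.alt, h.sym a b, h.sym a x,
    h.sym a w, h.sym b x, h.sym b w, h.sym x w, hba, hxa, hxb, hwa, hwb, hwx]

theorem card_of_not_sg [Finite F] (h : TT L f a) (hF : Nat.card F = 2) (h4 : Fintype.card ι = 4)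
    (hs : ¬ Sg L f a) : 120 ≤ Nat.card L := by
  have h01 : ∀ c : F, c = 0 ∨ c = 1 := fun c =>
    (eq_or_ne c 0).imp_right (Orth.eq_one_of_card_two hF)
  obtain ⟨b, hb, hba⟩ := h.exists_ne
  replace hba := Orth.eq_one_of_card_two hF hba
  have hadd : ∀ {u v : ι → F}, InOrb L a u → InOrb L a v → f v u = 0 → v ∉ F ∙ u →
      InOrb L a (v + u) := fun {u v} hu hv h1 h2 => by
    obtain ⟨z, hz, hz'⟩ := (h.orb hu).exists_perp h2 1
    simpa [h1, h.sym v z, hz'] using hv.ei ((h.orb hu).cval_spec hz)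
  obtain ⟨x, hx, hxa, hxb, hx', he⟩ : ∃ x, InOrb L a x ∧ f x a = 0 ∧ f x b = 0 ∧ x ∉ F ∙ a ∧
      Ei L f a x 1 := by
    simp only [Sg, not_forall] at hs
    obtain ⟨x, hx, hxa, t, ht⟩ := hs
    have hx' : x ∉ F ∙ a := fun e => by
      obtain ⟨s, rfl⟩ := Submodule.mem_span_singleton.1 e
      exact ht (by rw [smul_smul]; exact h.ei_smul_self a _)
    have he : Ei L f a x 1 := by
      rcases h01 t with rfl | rfl
      · exact absurd (by simpa using Ei.zero h.alt L a) ht
      · rcases h01 (cval L f a x) with e | e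
        · exact absurd (by simpa [e] using h.cval_spec hxa) ht
        · simpa [e] using h.cval_spec hxa
    rcases h01 (f x b) with e | e
    · exact ⟨x, hx, hxa, e, hx', he⟩
    · exact ⟨x + a, hadd (InOrb.refl L a) hx hxa hx', by rw [h.alt.add_left, hxa, h.alt.alt, add_zero],
        by rw [h.alt.add_left, e, h.sym, hba]; linear_combination h.two,
        fun e' => hx' (by simpa using sub_mem e' (Submodule.mem_span_singleton_self a)),
        by simpa using h.shift he 1⟩
  obtain ⟨w, hwa, hwb, hwx⟩ : ∃ w, f w a = 0 ∧ f w b = 0 ∧ f w x = 1 := by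
    obtain ⟨z, hz, hz'⟩ := h.exists_perp hx' 1
    refine ⟨z + f z b • a, ?_, ?_, ?_⟩ <;>
      simp [h.alt.add_left, h.alt.smul_left, h.alt.alt, hz, hz', h.sym a b, hba, h.sym a x, hxa]
    linear_combination f z b * h.two
  have hbas := h.exists_basis h4 hba hxa hxb hwa hwb hwx
  have hs : ∀ v, f a v = f v a ∧ f b v = f v b ∧ f x w = f w x := fun v =>
    ⟨h.sym _ _, h.sym _ _, h.sym _ _⟩
  have hnb : ∀ v, f v x = 1 ∨ f v w = 1 → v ∉ F ∙ b := fun v hv e => by
    obtain ⟨s, rfl⟩ := Submodule.mem_span_singleton.1 e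
    simp [h.alt.smul_left, h.sym b x, h.sym b w, hxb, hwb] at hv
  have hxw : f x w = 1 := by rw [h.sym, hwx]
  have hxb' : InOrb L a (x + b) := hadd hb hx hxb (hnb x (Or.inr hxw))
  have hw2 : InOrb L a (w + b) ∧ InOrb L a (w + x + b) := by
    have e1 := h.cval_spec hwa
    have e2 := h.add e1 he
    rcases h01 (cval L f a w) with e | e <;> rw [e, hwx] at e2 <;> rw [e] at e1
    · have h1 := hb.ei e1
      have h2 := hb.ei e2
      simp only [h.alt.add_right, h.sym b w, h.sym b x, hba, hwb, hxb] at h1 h2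
      constructor
      · convert h1 using 1; module
      · convert h2 using 1; linear_combination (norm := module) - h.add_self a
    · have h1 := hxb'.ei e1
      have h2 := hxb'.ei e2
      simp only [h.alt.add_right, h.alt.add_left, h.sym b w, h.sym b x, hba, hwb, hxb, hxa, hxw,
        h.alt.alt] at h1 h2
      constructor
      · convert h2 using 1
        linear_combination (norm := module) - h.add_self x - (2 : F) • h.add_self a
      · convert h1 using 1; linear_combination (norm := module) - h.add_self a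
  have hperp : ∀ v, v ≠ 0 → f v b = 0 → InOrb L a v := fun v h0 hv => by
    have k : ∀ u, InOrb L a (u + b) → f u b = 0 → f u x = 1 ∨ f u w = 1 → InOrb L a u :=
      fun u hu h1 h2 => by
        simpa [add_assoc, h.add_self] using hadd hb hu (by rw [h.alt.add_left, h1, h.alt.alt,
          add_zero]) fun e => hnb u h2 (by simpa using sub_mem e (Submodule.mem_span_singleton_self b))
    have k1 := k w hw2.1 hwb (Or.inl hwx)
    have k2 := k _ hw2.2 (by rw [h.alt.add_left, hwb, hxb, add_zero])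
      (Or.inl (by rw [h.alt.add_left, hwx, h.alt.alt, add_zero]))
    have e := hbas v
    rw [hv] at e
    rcases h01 (f v a) with e1 | e1 <;> rcases h01 (f v w) with e2 | e2 <;>
      rcases h01 (f v x) with e3 | e3 <;> rw [e1, e2, e3] at e <;> rw [e] at h0 ⊢
    · simp at h0
    · simpa using k1
    · simpa using hx
    · simpa [add_comm] using k2
    · simpa using hb
    · simpa [add_comm] using hw2.1
    · simpa [add_comm] using hxb'
    · convert hw2.2 using 1; module
  have hall : ∀ v, v ≠ 0 → InOrb L a v := fun v h0 => by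
    obtain ⟨z, hz, h1, h2⟩ := (h.orb hb).exists_perp₂ v
    obtain ⟨g, hg, rfl⟩ := hb.symm.trans (hperp z hz h1)
    obtain ⟨v, rfl⟩ : ∃ z', v = g.1 *ᵥ z' := ⟨_, (GL_mulVec_inv_mulVec _ v).symm⟩
    rw [h.le hg, h.sym] at h2
    exact (hperp v (by rintro rfl; simp at h0) h2).trans ⟨g, hg, rfl⟩
  choose k hk hka using fun v : {v : ι → F // v ≠ 0} => hall v.1 v.2
  obtain ⟨-, s, hsL, hs'⟩ := (h.orb hx).k2 (t := 1) (d := 1) (by rw [h.sym, hxa])
    (notMem_span_symm hx' h.ne) (by simpa using he) 1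
  have hst : ∀ p : F × F × F, ∃ g ∈ L, g.1 *ᵥ a = a ∧
      (f (g.1 *ᵥ w) w, f (g.1 *ᵥ b) w, f (g.1 *ᵥ b) x) = p := by
    rintro ⟨γ, α, β⟩
    obtain ⟨-, g, hg, hg'⟩ := h.cval_spec (z := (α - γ) • x + β • w) (by
      simp [h.alt.add_left, h.alt.smul_left, hxa, hwa])
    rcases h01 γ with rfl | rfl
    · refine ⟨g, hg, ?_, ?_⟩ <;>
        simp [hg', h.alt.add_left, h.alt.add_right, h.alt.smul_left, h.alt.smul_right', h.alt.alt,
          h.sym a b, h.sym a x, h.sym a w, h.sym b x, h.sym b w, hxw, hba, hxa, hxb, hwa, hwb, hwx]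
    · refine ⟨g * s, L.mul_mem hg hsL, ?_, ?_⟩ <;> simp only [GL_mul_mulVec] <;>
        simp [hs', hg', h.alt.add_left, h.alt.add_right, h.alt.smul_left,
          h.alt.smul_right', h.alt.alt, h.sym a b, h.sym a x, h.sym a w, h.sym b x, h.sym b w, hxw,
          hba, hxa, hxb, hwa, hwb, hwx]
  choose m hm hma hmp using hst
  have := Nat.card_le_card_of_injective (fun p : {v : ι → F // v ≠ 0} × (F × F × F) =>
    (⟨k p.1 * m p.2, L.mul_mem (hk _) (hm _)⟩ : L)) fun p p' e => by
      have e1 := congrArg (fun g : L => g.1.1 *ᵥ a) e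
      simp only [GL_mul_mulVec, hma, hka] at e1
      have e2 : p.1 = p'.1 := Subtype.ext e1
      have e3 := congrArg Subtype.val e
      simp only [e2, mul_right_inj] at e3
      exact Prod.ext e2 (by rw [← hmp p.2, e3, hmp])
  have h15 : Nat.card {v : ι → F // v ≠ 0} = 15 := by
    classical
    cases nonempty_fintype F
    rw [Nat.card_eq_fintype_card] at hF
    rw [Nat.card_eq_fintype_card, Fintype.card_subtype_compl]
    simp [hF, h4]
  simpa [Nat.card_prod, hF, h15] using this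

end TT

/-- Elements of `O_p` of the stabiliser of a vector act trivially on `a^⊥ / a`. -/
theorem Alt.sub_mem_of_pCore [Finite F] (h : Alt f) {p : ℕ} [Fact p.Prime] [CharP F p]
    {H : Subgroup (GL ι F)} (hH : ∀ g, g ∈ H ↔ g ∈ iso f ∧ g.1 *ᵥ a = a) (ha : a ≠ 0) {g : GL ι F}
    (hg : g ∈ (pCore p H).map H.subtype) (hz : f z a = 0) : g.1 *ᵥ z - z ∈ F ∙ a := by
  obtain ⟨g, hg, rfl⟩ := hg
  by_cases hza : z ∈ F ∙ a
  · obtain ⟨t, rfl⟩ := Submodule.mem_span_singleton.1 hza
    simp [mulVec_smul, ((hH g).1 g.2).2]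
  let ρ : Representation F (pCore p H) (ι → F) :=
    (toLinAlgEquiv' (R := F) (n := ι)).toMulEquiv.toMonoidHom.comp
      ((Units.coeHom _).comp (H.subtype.comp (pCore p H).subtype))
  have hρ : ∀ g v, ρ g v = g.1.1.1 *ᵥ v := fun _ _ => rfl
  have h1 : ∀ g, F ∙ a ≤ (F ∙ a).comap (ρ g) := fun g => by
    rw [Submodule.span_singleton_le_iff_mem, Submodule.mem_comap, hρ, ((hH _).1 g.1.2).2]
    exact Submodule.mem_span_singleton_self a
  obtain ⟨v, hv, hv0, hv'⟩ := Perm.exists_fixed_vector (Core.pCore_isPGroup p H)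
    (Representation.quotient ρ _ h1) ((dotKer (dv (RingHom.id F) f a)).map (F ∙ a).mkQ)
    (by
      rintro g _ ⟨v, hv, rfl⟩
      refine ⟨ρ g v, ?_, rfl⟩
      rw [SetLike.mem_coe, mem_dotKer, dv_dot h.toSForm] at hv ⊢
      rw [hρ, ← ((hH _).1 g.1.2).2, ((hH _).1 g.1.2).1, hv])
    ((Submodule.ne_bot_iff _).2 ⟨_, ⟨z, by
      rwa [SetLike.mem_coe, mem_dotKer, dv_dot h.toSForm], rfl⟩,
      fun e => hza ((Submodule.Quotient.mk_eq_zero _).1 e)⟩)
  obtain ⟨v, hv, rfl⟩ := hv
  rw [SetLike.mem_coe, mem_dotKer, dv_dot h.toSForm] at hv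
  have hli : ∀ {u : ι → F}, u ∉ F ∙ a → LinearIndependent F ![a, u] := fun {u} hu =>
    (LinearIndependent.pair_iff' ha).2 fun t e => hu (Submodule.mem_span_singleton.2 ⟨t, e⟩)
  obtain ⟨k, hk, hk'⟩ := h.exists_iso_of_family ![a, v] ![a, z]
    (hli fun e => hv0 ((Submodule.Quotient.mk_eq_zero _).2 e)) (hli hza) (fun i j => by
      fin_cases i <;> fin_cases j <;> simp [h.alt, h.skew a v, h.skew a z, hv, hz])
  have hkH : k ∈ H := (hH k).2 ⟨hk, hk' 0⟩
  have h2 := (Submodule.Quotient.eq _).1 (hv' ⟨_, (inferInstance : (pCore p H).Normal).conj_mem' g hg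
    ⟨k, hkH⟩⟩)
  obtain ⟨t, ht⟩ := Submodule.mem_span_singleton.1 h2
  refine Submodule.mem_span_singleton.2 ⟨t, ?_⟩
  have h3 := congrArg (k.1 *ᵥ ·) ht
  have h4 : k.1 *ᵥ a = a := hk' 0
  have h5 : k.1 *ᵥ v = z := hk' 1
  change _ = k.1 *ᵥ ((k⁻¹ * g.1 * k).1 *ᵥ v - v) at h3
  rwa [mulVec_smul, mulVec_sub, h4, GL_mul_mulVec, GL_mul_mulVec, GL_mulVec_inv_mulVec, h5] at h3

theorem Alt.eq_ei_of_sub_mem (h : Alt f) {g : GL ι F} (hi : g ∈ iso f)
    (ha : g.1 *ᵥ a = a) (hb : f b a = 1) (hz : ∀ z, f z a = 0 → g.1 *ᵥ z - z ∈ F ∙ a) (v : ι → F) :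
    g.1 *ᵥ v = v + f v a • (g.1 *ᵥ b - b) +
      (f v (g.1 *ᵥ b - b) + -f b (g.1 *ᵥ b - b) * f v a) • a := by
  obtain ⟨t, ht⟩ := Submodule.mem_span_singleton.1 (hz (v - f v a • b) (by
    rw [h.sub_left, h.smul_left, hb, mul_one, sub_self]))
  have h1 := hi (v - f v a • b) b
  have h2 : f a (g.1 *ᵥ b) = -1 := by conv_lhs => rw [← ha, hi, h.skew, hb]
  rw [← eq_sub_iff_add_eq'.1 ht, h.add_left, h.smul_left, h2, h.sub_left, h.smul_left, h.sub_left,
    h.smul_left] at h1
  rw [mulVec_sub, mulVec_smul] at ht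
  rw [h.sub_right, h.sub_right, show f v (g.1 *ᵥ b) - f v b + -(f b (g.1 *ᵥ b) - f b b) * f v a = t by
    linear_combination h1]
  linear_combination (norm := module) -ht

theorem Alt.full_of_card [Finite F] (h : Alt f) {X : Subgroup (GL ι F)}
    (ha : a ≠ 0) (hX : ∀ g ∈ X, g ∈ iso f ∧ g.1 *ᵥ a = a ∧ ∀ z, f z a = 0 → g.1 *ᵥ z - z ∈ F ∙ a)
    (hc : Nat.card X = Nat.card F ^ (Fintype.card ι - 2)) (hr : ∀ g ∈ X, (g.1 - 1).rank ≠ 1)
    (hz : f z a = 0) : ∃ c, Ei X f a z c := by
  obtain ⟨b, hb⟩ : ∃ b, f b a = 1 := by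
    obtain ⟨b, hb⟩ := exists_form_ne_zero h.toSForm ha
    exact ⟨(f b a)⁻¹ • b, by rw [h.smul_left, inv_mul_cancel₀ hb]⟩
  let U := dotKer (dv (RingHom.id F) f a) ⊓ dotKer (dv (RingHom.id F) f b)
  have hU : ∀ v, v ∈ U ↔ f v a = 0 ∧ f v b = 0 := fun v => by
    rw [Submodule.mem_inf, mem_dotKer, mem_dotKer, dv_dot h.toSForm, dv_dot h.toSForm]
  have h0 : ∀ g ∈ X, f (g.1 *ᵥ b - b) a = 0 := fun g hg => by
    rw [h.sub_left]
    nth_rw 1 [← (hX g hg).2.1]
    rw [(hX g hg).1, sub_self]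
  have hp : ∀ v, f v a = 0 → v + f v b • a ∈ U := fun v hv => (hU _).2
    ⟨by rw [h.add_left, h.smul_left, hv, h.alt, mul_zero, add_zero],
      by rw [h.add_left, h.smul_left, h.skew a b, hb]; ring⟩
  have hE := fun g hg => h.eq_ei_of_sub_mem (hX g hg).1 (hX g hg).2.1 hb (hX g hg).2.2
  let φ : X → U := fun g => ⟨_, hp _ (h0 g g.2)⟩
  have hφ : Function.Injective φ := fun g g' e => by
    have e1 := congrArg Subtype.val e
    simp only [φ] at e1
    have hm := X.mul_mem (X.inv_mem g'.2) g.2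
    have e2 := hE _ hm
    have e3 : (g'.1⁻¹ * g.1).1 *ᵥ b - b = (f (g'.1.1 *ᵥ b - b) b - f (g.1.1 *ᵥ b - b) b) • a := by
      refine GL_mulVec_injective g'.1 ?_
      simp only [GL_mul_mulVec, mulVec_sub, mulVec_smul, GL_mulVec_inv_mulVec, (hX _ g'.2).2.1]
      linear_combination (norm := module) e1
    rw [e3] at e2
    generalize f (g'.1.1 *ᵥ b - b) b - f (g.1.1 *ᵥ b - b) b = t at e2
    simp only [h.smul_right', hb] at e2
    by_cases ht : t = 0
    · exact Subtype.ext (inv_mul_eq_one.1 (GL_ext_mulVec fun v => by rw [e2]; simp [ht])).symm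
    refine absurd ?_ (hr _ hm)
    rw [Matrix.rank, show LinearMap.range ((g'.1⁻¹ * g.1).1 - 1).mulVecLin = F ∙ a from ?_,
      finrank_span_singleton ha]
    have e4 : ∀ v, ((g'.1⁻¹ * g.1).1 - 1).mulVecLin v = (f v a * t) • a := fun v => by
      rw [mulVecLin_apply, sub_mulVec, one_mulVec, e2]
      module
    refine le_antisymm (by
      rintro _ ⟨v, rfl⟩
      rw [e4]; exact Submodule.smul_mem _ _ (Submodule.mem_span_singleton_self a)) ?_
    rw [Submodule.span_singleton_le_iff_mem]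
    exact ⟨t⁻¹ • b, by rw [e4, h.smul_left, hb, mul_one, inv_mul_cancel₀ ht, one_smul]⟩
  have hUc : finrank F U + 2 ≤ Fintype.card ι := by
    have hli : LinearIndependent F ![a, b] := (LinearIndependent.pair_iff' ha).2 fun t e => by
      rw [← e, h.smul_left, h.alt, mul_zero] at hb; exact zero_ne_one hb
    have h3 := Submodule.finrank_sup_add_finrank_inf_eq U (Submodule.span F (Set.range ![a, b]))
    rw [finrank_span_eq_card hli, show U ⊓ Submodule.span F (Set.range ![a, b]) = ⊥ from ?_] at h3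
    · have := Submodule.finrank_le (U ⊔ Submodule.span F (Set.range ![a, b]))
      simp at h3 this
      omega
    · rw [eq_bot_iff]
      rintro v ⟨h4, h5⟩
      obtain ⟨m, rfl⟩ := (Submodule.mem_span_range_iff_exists_fun F).1 h5
      have := (hU _).1 h4
      simp [h.add_left, h.smul_left, h.alt, h.skew a b, hb] at this
      simp [this]
  have hs : Function.Surjective φ := (hφ.bijective_of_nat_card_le (by
    rw [hc, Module.natCard_eq_pow_finrank (K := F)]
    exact Nat.pow_le_pow_right Nat.card_pos (by omega))).2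
  obtain ⟨g, hg⟩ := hs ⟨_, hp z hz⟩
  have e1 := congrArg Subtype.val hg
  simp only [φ] at e1
  have := Ei.add_smul h ⟨h0 g g.2, g, g.2, hE g g.2⟩ (f (g.1.1 *ᵥ b - b) b - f z b)
  exact ⟨_, by convert this using 1; linear_combination (norm := module) -e1⟩

end Cfsg.Lib.Symp
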